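import Mathlib
import Cfsg.Agent.H50.E83Defs
import Cfsg.Prelude.Def_Local

/-! Definitions and statements of the pieces: no maximal subgroup of `E₈(3)` has generalized Fitting
subgroup `L₂(7)`. -/

set_option autoImplicit false

namespace Cfsg.Agent.H89.L27

open Equiv Cfsg.Lie H37 H40 H34 H29 Module Cfsg.Agent.H50.E83
open scoped Matrix MatrixGroups

universe u

abbrev V0 : Type := chevE8.Idx → ZMod 3

/-- The action of `E₈(3)` on the adjoint module over the prime field. -/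
noncomputable def act0 : G0 →* Module.End (ZMod 3) V0 :=
  ((Matrix.toLinAlgEquiv' : Matrix chevE8.Idx chevE8.Idx (ZMod 3) ≃ₐ[ZMod 3] _) : _ →* _).comp
    ((Units.coeHom _).comp (Subgroup.subtype _))

theorem act0_apply (g : G0) (v : V0) :
    act0 g v = (g.1.1 : Matrix chevE8.Idx chevE8.Idx (ZMod 3)) *ᵥ v :=
  Matrix.toLinAlgEquiv'_apply _ _

noncomputable def Fix0 (S : Set G0) : Submodule (ZMod 3) V0 :=
  ⨅ g ∈ S, LinearMap.ker (act0 g - 1)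

theorem mem_Fix0 {S : Set G0} {v : V0} : v ∈ Fix0 S ↔ ∀ g ∈ S, act0 g v = v := by
  simp [Fix0, sub_eq_zero]

instance factThree : Fact (Nat.Prime 3) := ⟨Nat.prime_three⟩

/-- The Frobenius map of the field, of the group and of the module. -/
noncomputable def fr : K →+* K := frobenius K 3
theorem fr_apply (t : K) : fr t = t ^ 3 := rfl
noncomputable def σG : GK →* GK := C8.V.fieldHom fr
noncomputable def σV (v : V) : V := fun i => v i ^ 3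
noncomputable def up (v : V0) : V := fun i => algebraMap (ZMod 3) K (v i)

/-- The invariant form. -/
def kap {F : Type*} [CommRing F] (v w : chevE8.Idx → F) : F :=
  ∑ i : Fin chevE8.rank, ∑ j : Fin chevE8.rank,
    ((chevE8.cartan i (chevE8.simple j) : ℤ) : F) * v (Sum.inl i) * w (Sum.inl j) +
  ∑ r : Rt, v (Sum.inr r) * w (Sum.inr (Fin.rev r))

noncomputable def f7 : Rt → ℤ := vN C8 [1, 0, 0, 0, 0, 1, 0, 0]

/-- The roots of the component `A₂` of the centraliser: `121, 120` are simple, `122` is their sum. -/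
def A2 : List ℕ := [117, 118, 119, 120, 121, 122]

noncomputable def AG : Subgroup GK := Subgroup.closure {y | ∃ r ∈ A2, ∃ t, y = C8.xg K r t}

/-- The Lie algebra of `AG`. -/
def U8 : Submodule K V where
  carrier := {v | (∀ i : Fin chevE8.rank, (i : ℕ) < 6 → v (Sum.inl i) = 0) ∧
    ∀ r : Rt, (r : ℕ) ∉ A2 → v (Sum.inr r) = 0}
  add_mem' ha hb := ⟨fun i hi => by simp [ha.1 i hi, hb.1 i hi], fun r hr => by
    simp [ha.2 r hr, hb.2 r hr]⟩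
  zero_mem' := ⟨fun _ _ => rfl, fun _ _ => rfl⟩
  smul_mem' c v hv := ⟨fun i hi => by simp [hv.1 i hi], fun r hr => by simp [hv.2 r hr]⟩

/-- The permutation induces the graph automorphism on `A₂`. -/
def Sw (w : Perm Rt) : Prop := ∀ r : Rt, ∀ p ∈ [(117, 117), (118, 119), (119, 118), (120, 121),
  (121, 120), (122, 122)], (r : ℕ) = p.1 → (w r : ℕ) = p.2

/-! ### Geometry -/

def KapStmt : Prop := ∀ (F : Type) [Field F],
  (∀ (g : chevE8.group F) (v w : chevE8.Idx → F),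
    kap ((g.1.1 : Matrix chevE8.Idx chevE8.Idx F) *ᵥ v)
      ((g.1.1 : Matrix chevE8.Idx chevE8.Idx F) *ᵥ w) = kap v w) ∧
  ∃ B : LinearMap.BilinForm F (chevE8.Idx → F), (∀ v w, B v w = kap v w) ∧ (∀ v w, B v w = B w v) ∧
    ∀ v, (∀ w, B v w = 0) → v = 0

def BcStmt : Prop := (∀ S : Set G0, finrank K (H50.E83.Fix (ι '' S)) ≤ finrank (ZMod 3) (Fix0 S)) ∧
  (∀ (g : G0) (v : V0), act (ι g) (up v) = up (act0 g v)) ∧
  (∀ (g : GK) (v : V), σV (act g v) = act (σG g) (σV v)) ∧ (∀ v, σV (up v) = up v) ∧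
  Function.Injective up ∧ ∀ g : GK, σG g = g ↔ g ∈ ι.range

def C7Stmt : Prop := ∀ (g : G0) (ζ : Kˣ), IsPrimitiveRoot ζ 7 → g ^ 7 = 1 → g ≠ 1 →
  mu (ι g) 1 = 80 ∨ mu (ι g) 1 = 38 ∧ ∃ h, IsConj h (ι g) ∧ Lab C8 ζ h f7

def W1Stmt : Prop := ∃ w ∈ C8.S.W, (∀ r, (f7 (w r) : ZMod 7) = 3 * f7 r) ∧ Sw w

def ConjStmt : Prop := ∀ g g' : G0, (orderOf g).Coprime 3 → IsConj (ι g) (ι g') → IsConj g g'

/-- Fixed points of the twisted Frobenius map in `U`, `U⁻`, `H`. -/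
def TwUStmt : Prop := ∀ n ∈ P8.N, Sw (P8.ν n) →
  (∃ Y : Finset GK, 27 ≤ Y.card ∧ ∀ y ∈ Y, y ∈ AG ∧ y ∈ P8.Up ∧ n * σG y * n⁻¹ = y) ∧
  ∃ Y : Finset GK, 27 ≤ Y.card ∧ ∀ y ∈ Y, y ∈ AG ∧ y ∈ P8.Vn ∧ n * σG y * n⁻¹ = y

def TwTStmt : Prop := ∀ n ∈ P8.N, Sw (P8.ν n) →
  ∃ Y : Finset GK, 8 ≤ Y.card ∧ ∀ y ∈ Y, y ∈ AG ∧ y ∈ P8.H ∧ n * σG y * n⁻¹ = y

def DistStmt : Prop := ∀ a ∈ P8.Vn, ∀ a' ∈ P8.Vn, ∀ h ∈ P8.H, ∀ h' ∈ P8.H, ∀ b ∈ P8.Up, ∀ b' ∈ P8.Up,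
  a * h * b = a' * h' * b' → a = a' ∧ h = h' ∧ b = b'

def ActStmt : Prop := ∀ (ζ : Kˣ) (h : GK), IsPrimitiveRoot ζ 7 → Lab C8 ζ h f7 → ∀ y ∈ AG,
  Commute h y ∧ (∀ v ∈ eig h 1, act y v - v ∈ U8) ∧ (y ∈ Subgroup.zpowers h → y = 1)

def CntStmt : Prop := ∀ n ∈ P8.N, Sw (P8.ν n) → ∀ v : V, act n (σV v) = v → ∀ T : Finset V,
  (∀ w ∈ T, w - v ∈ U8 ∧ act n (σV w) = w ∧ kap w w = kap v v) → T.card ≤ 3645

def GeoStmt : Prop := ∀ (x : G0) (ζ : Kˣ) (h : GK), IsPrimitiveRoot ζ 7 → Lab C8 ζ h f7 →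
  IsConj h (ι x) → ∀ v : V0, act0 x v = v →
  ∃ y : G0, Commute y x ∧ act0 y v = v ∧ y ∉ Subgroup.zpowers x

def DimStmt : Prop := ∀ y s : G0, y ^ 4 = 1 → y ^ 2 ≠ 1 → s ^ 2 = 1 → (s * y) ^ 2 = 1 →
  IsConj (y ^ 2) s → IsConj (y ^ 2) (s * y) →
  finrank K (H50.E83.Fix {ι (y ^ 2), ι s}) + finrank K (H50.E83.Fix {ι (y ^ 2), ι (s * y)}) <
    38 + 3 * finrank K (H50.E83.Fix {ι y, ι s})

def Sc80Stmt : Prop := ∀ s x : G0, s ^ 2 = 1 → s ≠ 1 → (s * x) ^ 3 = 1 → mu (ι x) 1 = 80 →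
  18 ≤ finrank K (H50.E83.Fix {ι s, ι x})

def NolStmt : Prop := ∀ v : V0, (∀ g, act0 g v = v ∨ act0 g v = -v) → v = 0

def LineStmt : Prop := ∀ H : Subgroup G0, IsCoatom H → H ≠ ⊥ →
  (∀ v : V0, v ≠ 0 → (∀ h ∈ H, act0 h v = v ∨ act0 h v = -v) → ∀ g, act0 g v = v → g ∈ H) ∧
  (Nat.card H ≤ 336 → ∀ Z : Submodule (ZMod 3) V0,
    (∀ v ∈ Z, ∀ h ∈ H, act0 h v = v ∨ act0 h v = -v) → finrank (ZMod 3) Z ≤ 5)

def EigStmt : Prop := ∀ (Γ : Type) [Group Γ] [Finite Γ] (ρ : Γ →* Module.End (ZMod 3) V0)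
  (S : Subgroup Γ), S.Normal → Nat.card Γ ≤ 2 * Nat.card S → ∀ Z : Submodule (ZMod 3) V0,
  (∀ v, v ∈ Z ↔ ∀ s ∈ S, ρ s v = v) → ∃ Z' : Submodule (ZMod 3) V0,
    finrank (ZMod 3) Z ≤ 2 * finrank (ZMod 3) Z' ∧ Z' ≤ Z ∧ ∀ v ∈ Z', ∀ g, ρ g v = v ∨ ρ g v = -v

/-! ### The group `L₂(7)` -/

abbrev S7 : Type := SL(2, ZMod 7)
def ex : S7 := ⟨!![1, 1; 0, 1], by decide⟩
def eu : S7 := ⟨!![2, 0; 0, 4], by decide⟩
def ev : S7 := ⟨!![2, 1; 0, 4], by decide⟩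
def es : S7 := ⟨!![0, 1; 6, 0], by decide⟩
def ey : S7 := ⟨!![1, 3; 3, 3], by decide⟩

/-- `φ` embeds `L₂(7)` as a normal subgroup with trivial centraliser. -/
def Emb {H : Type} [Group H] (φ : S7 →* H) : Prop := (∀ g, φ g = 1 ↔ g = 1 ∨ g = -1) ∧
  φ.range.Normal ∧ ∀ h : H, (∀ g, Commute h (φ g)) → h = 1

def EmbStmt : Prop := ∀ (F : Type u) [Field F] [Fintype F], Fintype.card F = 7 →
  ∀ (H : Type) [Group H] [Finite H], Nonempty (generalizedFittingSubgroup H ≃* PSL(2, F)) →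
  ∃ φ : S7 →* H, Emb φ

def AutStmt : Prop := ∀ (H : Type) [Group H] [Finite H] (φ : S7 →* H), Emb φ →
  (∀ h, Commute h (φ ex) → h ∈ Subgroup.zpowers (φ ex)) ∧ Nat.card H ≤ 336 ∧
  Nat.card φ.range = 168

def GenStmt : Prop := Subgroup.closure {es, ex} = ⊤

section Mod
variable {F W : Type} [Field F] [AddCommGroup W] [Module F W]

/-- The vectors fixed by a list of elements. -/
def Fx (ρ : S7 →* Module.End F W) (L : List S7) : Submodule F W :=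
  ⨅ g ∈ L, LinearMap.ker (ρ g - 1)

theorem mem_Fx {ρ : S7 →* Module.End F W} {L : List S7} {v : W} :
    v ∈ Fx ρ L ↔ ∀ g ∈ L, ρ g v = v := by
  simp [Fx, sub_eq_zero]

/-- The sum over the dihedral group of order eight. -/
def tauD (ρ : S7 →* Module.End F W) : Module.End F W :=
  (1 + ρ es) * (1 + ρ ey + ρ ey ^ 2 + ρ ey ^ 3)

/-- A module for `L₂(7)` without fixed vectors. -/
def NoFix (ρ : S7 →* Module.End F W) : Prop :=
  ρ (-1) = 1 ∧ ∀ v, ρ es v = v → ρ ex v = v → v = 0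

end Mod

def FaStmt : Prop := ∀ (F W : Type) [Field F] [CharP F 3] [AddCommGroup W] [Module F W]
  [FiniteDimensional F W] (B : LinearMap.BilinForm F W) (U : Submodule F W) (a y : Module.End F W),
  (∀ v w, B v w = B w v) → (∀ v ∈ U, (∀ w ∈ U, B v w = 0) → v = 0) →
  (∀ v w, B (a v) (a w) = B v w) → (∀ v w, B (y v) (y w) = B v w) →
  (∀ v ∈ U, a v ∈ U) → (∀ v ∈ U, y v ∈ U) → (∀ v ∈ U, a (a (a v)) = v) → (∀ v ∈ U, y (y v) = v) →
  (∀ v ∈ U, y (a (y (a v))) = v) →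
  finrank F (U ⊓ LinearMap.ker (a - 1) ⊓ LinearMap.ker (y - 1) : Submodule F W) +
      finrank F (U ⊓ LinearMap.ker (y + 1) : Submodule F W) =
    finrank F (U ⊓ LinearMap.ker (a - 1) ⊓ LinearMap.ker (y + 1) : Submodule F W) +
      finrank F (U ⊓ LinearMap.ker (y - 1) : Submodule F W) ∧
  finrank F (U ⊓ LinearMap.ker (y - 1) : Submodule F W) +
    finrank F (U ⊓ LinearMap.ker (y + 1) : Submodule F W) = finrank F U

def FbStmt : Prop := ∀ (F W : Type) [Field F] [CharP F 3] [AddCommGroup W] [Module F W]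
  [FiniteDimensional F W] (ρ : S7 →* Module.End F W), NoFix ρ →
  finrank F (Fx ρ [ex, eu]) ≤ finrank F (Fx ρ [ey ^ 2, es] ⊓ LinearMap.ker (ρ ev - 1) ⊓
    LinearMap.ker (ρ ey + 1) : Submodule F W) ∧
  finrank F (Fx ρ [ex, eu]) ≤ finrank F (Fx ρ [ey ^ 2, es * ey] ⊓ LinearMap.ker (ρ eu - 1) ⊓
    LinearMap.ker (ρ ey + 1) : Submodule F W)

def FcStmt : Prop := ∀ (F W : Type) [Field F] [CharP F 3] [AddCommGroup W] [Module F W]
  (ρ : S7 →* Module.End F W), NoFix ρ → ∀ z, ρ ey z = z → ρ es z = z → ρ ev z = z ∨ ρ eu z = z →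
  ∑ j ∈ Finset.range 7, (ρ ex ^ j) z = 0

def FeStmt : Prop := ∀ (F W : Type) [Field F] [CharP F 3] [AddCommGroup W] [Module F W]
  (ρ : S7 →* Module.End F W), NoFix ρ → ∀ w, ρ ex w = w → ((ρ eu - 1) ^ 2 : Module.End F W) w = 0 →
  tauD ρ w = 0 → ρ eu w = w

def FdStmt : Prop := ∀ (F W : Type) [Field F] [CharP F 3] [AddCommGroup W] [Module F W]
  [FiniteDimensional F W] (B : LinearMap.BilinForm F W) (ρ : S7 →* Module.End F W),
  (∀ v w, B v w = B w v) → (∀ v, (∀ w, B v w = 0) → v = 0) →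
  (∀ g v w, B (ρ g v) (ρ g w) = B v w) → NoFix ρ →
  finrank F (Fx ρ [ey, es, ev]) + finrank F (Fx ρ [ey, es, eu]) +
    finrank F ((Fx ρ [ex]).map (tauD ρ)) ≤ finrank F (Fx ρ [ey, es])

def FfStmt : Prop := ∀ (F W : Type) [Field F] [CharP F 3] [AddCommGroup W] [Module F W]
  [FiniteDimensional F W] (ρ : S7 →* Module.End F W), NoFix ρ →
  finrank F (Fx ρ [ex]) ≤ finrank F ((Fx ρ [ex]).map (tauD ρ)) + 2 * finrank F (Fx ρ [ex, eu])

def FgStmt : Prop := ∀ (F W : Type) [Field F] [CharP F 3] [AddCommGroup W] [Module F W]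
  [FiniteDimensional F W] (B : LinearMap.BilinForm F W) (ρ : S7 →* Module.End F W),
  (∀ v w, B v w = B w v) → (∀ v, (∀ w, B v w = 0) → v = 0) →
  (∀ g v w, B (ρ g v) (ρ g w) = B v w) → ρ (-1) = 1 →
  finrank F (Fx ρ [ey, es, ev]) + finrank F (Fx ρ [ey ^ 2, es]) =
    finrank F (Fx ρ [ey ^ 2, es] ⊓ LinearMap.ker (ρ ev - 1) ⊓ LinearMap.ker (ρ ey + 1) :
      Submodule F W) + 2 * finrank F (Fx ρ [ey, es]) ∧
  finrank F (Fx ρ [ey, es, eu]) + finrank F (Fx ρ [ey ^ 2, es * ey]) =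
    finrank F (Fx ρ [ey ^ 2, es * ey] ⊓ LinearMap.ker (ρ eu - 1) ⊓ LinearMap.ker (ρ ey + 1) :
      Submodule F W) + 2 * finrank F (Fx ρ [ey, es])

def IneqStmt : Prop := ∀ (F W : Type) [Field F] [CharP F 3] [AddCommGroup W] [Module F W]
  [FiniteDimensional F W] (B : LinearMap.BilinForm F W) (ρ : S7 →* Module.End F W),
  (∀ v w, B v w = B w v) → (∀ v, (∀ w, B v w = 0) → v = 0) →
  (∀ g v w, B (ρ g v) (ρ g w) = B v w) → NoFix ρ →
  finrank F (Fx ρ [ex]) + 3 * finrank F (Fx ρ [ey, es]) ≤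
    finrank F (Fx ρ [ey ^ 2, es]) + finrank F (Fx ρ [ey ^ 2, es * ey])

theorem ineq_of (b : FbStmt) (d : FdStmt) (f : FfStmt) (g : FgStmt) : IneqStmt := by
  intro F W _ _ _ _ _ B ρ h1 h2 h3 h4
  have := b F W ρ h4
  have := d F W B ρ h1 h2 h3 h4
  have := f F W ρ h4
  have := g F W B ρ h1 h2 h3 h4.1
  omega

end Cfsg.Agent.H89.L27
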