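import Cfsg.Agent.H42.PcDefs

/-! Project PC, piece TR: a transfer argument in the extension of a perfect group. -/

set_option autoImplicit false
set_option linter.unusedVariables false

namespace Cfsg.Agent.H89.PcTr

open Subgroup Cfsg.Agent.H42.Pc
open scoped commutatorElement

universe u

section
variable {G : Type u} [Group G]

theorem mem_ext {X : Subgroup G} {y : G} (hn : y ∈ normalizer (X : Set G)) (h2 : y * y ∈ X)
    {g : G} (hg : g ∈ X ⊔ zpowers y) : g ∈ X ∨ y⁻¹ * g ∈ X := by
  have c1 : ∀ a ∈ X, y⁻¹ * a * y ∈ X := fun a ha => (mem_normalizer_iff''.1 hn a).1 ha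
  let Y : Subgroup G :=
    { carrier := {g | g ∈ X ∨ y⁻¹ * g ∈ X}
      one_mem' := Or.inl (one_mem X)
      mul_mem' := by
        rintro a b (ha | ha) (hb | hb)
        · exact Or.inl (mul_mem ha hb)
        · right
          have := mul_mem (c1 a ha) hb
          simpa [mul_assoc] using this
        · right
          have := mul_mem ha hb
          simpa [mul_assoc] using this
        · left
          have := mul_mem (mul_mem h2 (c1 _ ha)) hb
          simpa [mul_assoc] using this
      inv_mem' := by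
        rintro a (ha | ha)
        · exact Or.inl (inv_mem ha)
        · right
          have := mul_mem (c1 _ (inv_mem ha)) (inv_mem h2)
          simpa [mul_assoc] using this }
  have hle : X ⊔ zpowers y ≤ Y :=
    sup_le (fun a ha => Or.inl ha) (zpowers_le.2 (Or.inr (by simp)))
  exact hle hg

theorem idx2 {X : Subgroup G} {y : G} (hn : y ∈ normalizer (X : Set G)) (h2 : y * y ∈ X)
    (hy : y ∉ X) : (X.subgroupOf (X ⊔ zpowers y)).index = 2 := by
  have hyY : y ∈ X ⊔ zpowers y := (le_sup_right : zpowers y ≤ _) (mem_zpowers y)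
  refine index_eq_two_iff'.2 ⟨(⟨y, hyY⟩ : ↥(X ⊔ zpowers y))⁻¹, fun b => ?_⟩
  have key : ¬ (y⁻¹ * b ∈ X ∧ (b : G) ∈ X) := by
    rintro ⟨h3, h4⟩
    have := inv_mem (mul_mem h3 (inv_mem h4))
    exact hy (by simpa using this)
  rcases mem_ext hn h2 b.2 with h | h
  · exact Or.inr ⟨h, fun h3 => key ⟨h3, h⟩⟩
  · exact Or.inl ⟨h, fun h3 => key ⟨h, h3⟩⟩

end

theorem sign_transfer {K : Type u} [Group K] [Finite K] (H : Subgroup K) (χ : K →* ℤˣ) (g : K) :
    Abelianization.lift (χ.comp H.subtype) (MonoidHom.transfer (Abelianization.of (G := H)) g) =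
      χ g ^ H.index := by
  classical
  letI : Fintype (Quotient (MulAction.orbitRel (zpowers g) (K ⧸ H))) := Fintype.ofFinite _
  rw [MonoidHom.transfer_eq_prod_quotient_orbitRel_zpowers_quot, map_prod,
    H.index_eq_sum_minimalPeriod g, ← Finset.prod_pow_eq_pow_sum]
  refine Finset.prod_congr rfl fun q _ => ?_
  rw [Abelianization.lift_apply_of]
  simp only [MonoidHom.comp_apply, coe_subtype, map_mul, map_inv, map_pow]
  rw [mul_comm, ← mul_assoc, mul_inv_cancel, one_mul]

theorem tr : TrStmt.{u} := by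
  intro G _ _ S hS T y hp syl hn hy h2
  classical
  obtain ⟨hTS, -, hodd⟩ := syl
  have hnS : y ∈ normalizer (S : Set G) := by
    rw [normalizer_eq_top]
    trivial
  have hyT : y ∉ T := fun h => hy (hTS h)
  have iS := idx2 hnS (hTS h2) hy
  have iT := idx2 hn h2 hyT
  have hle : T ⊔ zpowers y ≤ S ⊔ zpowers y := sup_le_sup_right hTS _
  have hyK : y ∈ S ⊔ zpowers y := (le_sup_right : zpowers y ≤ _) (mem_zpowers y)
  let H : Subgroup ↥(S ⊔ zpowers y) := (T ⊔ zpowers y).subgroupOf (S ⊔ zpowers y)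
  have hH : Odd H.index := by
    have e1 := relIndex_mul_relIndex T (T ⊔ zpowers y) (S ⊔ zpowers y) le_sup_left hle
    have e2 := relIndex_mul_relIndex T S (S ⊔ zpowers y) hTS le_sup_left
    have e3 : T.relIndex (T ⊔ zpowers y) = 2 := iT
    have e4 : S.relIndex (S ⊔ zpowers y) = 2 := iS
    have e5 : (T ⊔ zpowers y).relIndex (S ⊔ zpowers y) = H.index := rfl
    rw [e3, e5] at e1
    rw [e4] at e2
    have : H.index = T.relIndex S := by omega
    rwa [this]
  let χ : ↥(S ⊔ zpowers y) →* ℤˣ := MonoidHom.mk' (fun g => if (g : G) ∈ S then 1 else -1) (by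
    intro a b
    have := mul_mem_iff_of_index_two iS (a := a) (b := b)
    simp only [mem_subgroupOf] at this
    by_cases ha : (a : G) ∈ S <;> by_cases hb : (b : G) ∈ S <;> simp_all)
  have hχ : ∀ g, χ g = if (g : G) ∈ S then 1 else -1 := fun _ => rfl
  let V := MonoidHom.transfer (Abelianization.of (G := H))
  have hV : S ≤ V.ker.map (S ⊔ zpowers y).subtype := by
    conv_lhs => rw [← hp]
    refine commutator_le.2 fun a ha b hb => ?_
    refine ⟨⁅(⟨a, (le_sup_left : S ≤ S ⊔ zpowers y) ha⟩ : ↥(S ⊔ zpowers y)),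
      (⟨b, (le_sup_left : S ≤ S ⊔ zpowers y) hb⟩ : ↥(S ⊔ zpowers y))⁆, ?_, rfl⟩
    change V _ = 1
    rw [map_commutatorElement, commutatorElement_eq_one_iff_mul_comm, mul_comm]
  have h1 : V ⟨y, hyK⟩ * V ⟨y, hyK⟩ = 1 := by
    obtain ⟨k, hk, e⟩ := hV (hTS h2)
    have : k = ⟨y, hyK⟩ * ⟨y, hyK⟩ := Subtype.ext e
    rw [← map_mul, ← this]
    exact hk
  obtain ⟨a, ha⟩ : ∃ a : H, Abelianization.of a = V ⟨y, hyK⟩ :=
    QuotientGroup.mk'_surjective (commutator H) _
  have h3 := sign_transfer H χ ⟨y, hyK⟩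
  change Abelianization.lift _ (V _) = _ at h3
  rw [← ha, Abelianization.lift_apply_of, hχ ⟨y, hyK⟩, if_neg hy, hH.neg_one_pow] at h3
  have haS : ((a : ↥(S ⊔ zpowers y)) : G) ∉ S := by
    intro h
    have h4 : χ a = -1 := h3
    rw [hχ, if_pos h] at h4
    exact absurd h4 (by decide)
  have haT : ((a : ↥(S ⊔ zpowers y)) : G) ∈ T ⊔ zpowers y := a.2
  refine ⟨y⁻¹ * (a : ↥(S ⊔ zpowers y)),
    (mem_ext hn h2 haT).resolve_left fun h => haS (hTS h), ?_⟩
  rw [mul_inv_cancel_left]
  have h5 : a * a ∈ commutator H := by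
    rw [← Abelianization.ker_of, MonoidHom.mem_ker, map_mul, ha, h1]
  have h6 : commutator H ≤ (Dr T y).comap ((S ⊔ zpowers y).subtype.comp H.subtype) := by
    refine commutator_le.2 fun b _ c _ => ?_
    rw [mem_comap, map_commutatorElement]
    exact commutator_mem_commutator b.2 c.2
  exact h6 h5

end Cfsg.Agent.H89.PcTr
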