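import Cfsg.Agent.H53.UwDefs

/-! Project UW: generators and linear characters of `CX X`. -/

set_option autoImplicit false

namespace Cfsg.Agent.H89.UwForm

open Module Cfsg.Agent.H31 Cfsg.Agent.H53.Uw

universe u

section

variable {E V : Type u} [Field E] [AddCommGroup V] [Module E V] {σ : E →+* E}
  {B : V →ₛₗ[σ] V →ₗ[E] E} {X : Submodule E V}

theorem eich_sub {x y : V} {z : V ≃ₗ[E] V} (hz : IsEich B x y 0 z) (v : V) :
    z v - v = B x v • y - B y v • x := by
  rw [hz v]; module

theorem eich_of {x y : V} {z : V ≃ₗ[E] V} (hz : ∀ v, z v - v = B x v • y - B y v • x) :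
    IsEich B x y 0 z := fun v => by
  rw [sub_eq_iff_eq_add.1 (hz v)]; module

theorem eich_mem {x y : V} (hx : x ∈ X) (hy : y ∈ X) {z : isom B} (hz : IsEich B x y 0 z.1) :
    z ∈ CX B X := mem_CX.2 fun v hv => by
  rw [← sub_eq_zero, eich_sub hz, hv x hx, hv y hy, zero_smul, zero_smul, sub_self]

theorem eich_ex (h : IsHerm B) (hX : TotIso B X) {x y : V} (hx : x ∈ X) (hy : y ∈ X) :
    ∃ z : isom B, IsEich B x y 0 z.1 := by
  obtain ⟨g, g1, g2⟩ := h.toIsHermSymm.exists_isEich (c := 0) (hX x hx x hx) (hX x hx y hy)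
    (by rw [hX y hy y hy]; simp)
  exact ⟨⟨g, sisom_le_isom g1.1⟩, g2⟩

theorem mul_sub [FiniteDimensional E V] (h : IsHerm B) (hX : TotIso B X) {z z' : isom B}
    (hz : z ∈ CX B X) (hz' : z' ∈ CX B X) (v : V) :
    (z * z').1 v - v = (z.1 v - v) + (z'.1 v - v) := by
  have := mem_CX.1 hz _ (totIso_iff_le_perp.1 hX (sub_mem_of_CX h hz' v))
  rw [map_sub] at this
  rw [mul_ap, ← this]; abel

theorem le_of [FiniteDimensional E V] (h : IsHerm B) (hX : TotIso B X) (K : Subgroup (isom B))
    (hK : ∀ x ∈ X, ∀ y ∈ X, ∀ z : isom B, IsEich B x y 0 z.1 → z ∈ K) : CX B X ≤ K := by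
  intro z hz
  let b := finBasis E X
  let N : V →ₗ[E] X := LinearMap.codRestrict X ((z.1 : V →ₗ[E] V) - LinearMap.id)
    (sub_mem_of_CX h hz)
  have hN : ∀ v, (N v : V) = z.1 v - v := fun _ => rfl
  choose e he using fun i => h.exists_rep (b.coord i ∘ₗ N)
  have eX : ∀ i, e i ∈ X := fun i => by
    rw [← h.perp_perp X, h.toIsHermSymm.mem_perp']
    intro v hv
    have : N v = 0 := Subtype.ext (by rw [hN, mem_CX.1 hz v hv, sub_self]; rfl)
    rw [he, LinearMap.comp_apply, this, map_zero]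
  have s1 : ∀ v, z.1 v - v = ∑ i, B (e i) v • (b i : V) := fun v => by
    rw [← hN, ← congrArg Subtype.val (b.sum_repr (N v)), Submodule.coe_sum]
    exact Finset.sum_congr rfl fun i _ => by rw [he]; rfl
  have s2 : ∀ v, z.1 v - v = -∑ i, B (b i : V) v • e i := fun v => by
    refine h.ext_right fun u => ?_
    have i1 := mem_isom.1 z.2 u v
    have i2 := hX _ (sub_mem_of_CX h hz u) _ (sub_mem_of_CX h hz v)
    have i3 : B (z.1 u - u) v = B u (∑ i, B (b i : V) v • e i) := by
      rw [s1, map_sum, map_sum, LinearMap.sum_apply]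
      exact Finset.sum_congr rfl fun i _ => by rw [smul_left, smul_right, h.symm, mul_comm]
    rw [map_neg, ← i3]
    simp only [map_sub, LinearMap.sub_apply] at i2 ⊢
    linear_combination i1 - i2
  obtain ⟨δ, hδ⟩ := h.inv.exists_trace_eq (map_one σ)
  have key : ∀ s : Finset (Fin (finrank E X)), ∃ k ∈ K, k ∈ CX B X ∧ ∀ v, k.1 v - v =
      ∑ i ∈ s, (B (b i : V) v • (-δ • e i) - B (-δ • e i) v • (b i : V)) := fun s => by
    induction s using Finset.induction_on with
    | empty => exact ⟨1, one_mem _, one_mem _, fun v => by simp⟩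
    | insert i s hi ih =>
      obtain ⟨k, k1, k2, k3⟩ := ih
      have m := X.smul_mem (-δ) (eX i)
      obtain ⟨g, hg⟩ := eich_ex h hX (b i).2 m
      have g2 := eich_mem (b i).2 m hg
      exact ⟨g * k, mul_mem (hK _ (b i).2 _ m g hg) k1, mul_mem g2 k2, fun v => by
        rw [mul_sub h hX g2 k2, Finset.sum_insert hi, k3, eich_sub hg]⟩
  obtain ⟨k, k1, -, k3⟩ := key Finset.univ
  have : z = k := isom_ext fun v => by
    rw [← sub_left_inj (a := v), k3, ← one_smul E (z.1 v - v), ← hδ, add_smul]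
    nth_rewrite 1 [s2]
    rw [s1, Finset.sum_sub_distrib, smul_neg, Finset.smul_sum, Finset.smul_sum,
      ← Finset.sum_neg_distrib, sub_eq_add_neg, ← Finset.sum_neg_distrib]
    congr 1 <;> refine Finset.sum_congr rfl fun i _ => ?_
    · module
    · rw [smul_left, map_neg]; module
  exact this ▸ k1

/-- `c ↦ ψ (c - σ c)` -/
def psi1 (σ : E →+* E) (ψ : AddChar E ℂ) : AddChar E ℂ where
  toFun c := ψ (c - σ c)
  map_zero_eq_one' := by simp
  map_add_eq_mul' a b := by
    rw [← AddChar.map_add_eq_mul, map_add]; congr 1; ring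

theorem psi1_apply (ψ : AddChar E ℂ) (c : E) : psi1 σ ψ c = ψ (c - σ c) := rfl

theorem psi1_prim (h : IsInvol σ) {ψ : AddChar E ℂ} (hψ : Sk σ ψ) : (psi1 σ ψ).IsPrimitive := by
  refine AddChar.IsPrimitive.of_ne_one fun e => ?_
  obtain ⟨a, a1, a2⟩ := hψ
  obtain ⟨δ, hδ⟩ := h.exists_trace_eq (map_one σ)
  have := DFunLike.congr_fun e (δ * a)
  rw [psi1_apply, map_mul, show δ * a - σ δ * σ a = a by linear_combination a * hδ - σ δ * a1]
    at this
  exact a2 this

end

theorem gen : GenStmt.{u} := by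
  intro E V _ _ _ _ _ σ B q st X hX
  have : FiniteDimensional E V := Module.Finite.of_finite
  exact ⟨fun x hx y hy => (eich_ex st.herm hX hx hy).imp fun z hz => ⟨eich_mem hx hy hz, hz⟩,
    fun z hz z' hz' => mul_sub st.herm hX hz hz', le_of st.herm hX⟩

theorem form0 : FormStmt.{u} := by
  intro E V _ _ _ _ _ σ B q st ψ X l hψ hX l1 lm
  have : FiniteDimensional E V := Module.Finite.of_finite
  have h := st.herm
  have inj := AddChar.to_mulShift_inj_of_isPrimitive (psi1_prim h.inv hψ)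
  have uq : ∀ b b' : E, (∀ c, psi1 σ ψ (b * c) = psi1 σ ψ (b' * c)) → b = b' := fun b b' e =>
    inj (DFunLike.ext _ _ e)
  have sur := ((Fintype.bijective_iff_injective_and_card _).2 ⟨inj, AddChar.card_eq.symm⟩).2
  choose e he using fun x y : X => eich_ex h hX x.2 y.2
  have em : ∀ x y, e x y ∈ CX B X := fun x y => eich_mem x.2 y.2 (he x y)
  have es : ∀ x y v, (e x y).1 v - v = B x v • (y : V) - B y v • (x : V) := fun x y =>
    eich_sub (he x y)
  have ee : ∀ {z z' : isom B}, (∀ v, z.1 v - v = z'.1 v - v) → z = z' := fun e =>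
    isom_ext fun v => sub_left_inj.1 (e v)
  have lmul : ∀ (x y x' y' : X) (z : isom B), (∀ v, z.1 v - v = (B x v • (y : V) - B y v • (x : V)) +
      (B x' v • (y' : V) - B y' v • (x' : V))) → l z = l (e x y) * l (e x' y') :=
    fun x y x' y' z hz => by
      rw [← lm _ (em x y) _ (em x' y')]
      exact congrArg l (ee fun v => by rw [hz, mul_sub h hX (em x y) (em x' y'), es, es])
  choose β hβ using fun x y : X => sur
    { toFun := fun c => l (e x (c • y))
      map_zero_eq_one' := by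
        rw [← l1]; exact congrArg l (ee fun v => by rw [es]; simp)
      map_add_eq_mul' := fun a b => lmul _ _ _ _ _ fun v => by
        simp only [es, Submodule.coe_smul, smul_left, map_add]; module }
  replace hβ : ∀ x y c, psi1 σ ψ (β x y * c) = l (e x (c • y)) := fun x y c =>
    DFunLike.congr_fun (hβ x y) c
  have hs : ∀ x y, σ (β x y) = β y x := fun x y => uq _ _ fun c => by
    have i1 := lmul y (c • x) x (σ c • y) 1 fun v => by
      simp only [Submodule.coe_smul, smul_left, h.inv.invol]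
      change v - v = _
      module
    rw [l1, ← hβ, ← hβ] at i1
    have i2 : psi1 σ ψ (σ (β x y) * c) * psi1 σ ψ (β x y * σ c) = 1 := by
      rw [← AddChar.map_add_eq_mul, psi1_apply, map_add, map_mul, map_mul, h.inv.invol,
        h.inv.invol, show ∀ a b : E, a + b - (b + a) = 0 from fun a b => by ring,
        AddChar.map_zero_eq_one]
    exact mul_right_cancel₀ (right_ne_zero_of_mul_eq_one i2) (i2.trans i1)
  have a2 : ∀ x y y', β x (y + y') = β x y + β x y' := fun x y y' => uq _ _ fun c => by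
    rw [add_mul, AddChar.map_add_eq_mul, hβ, hβ, hβ]
    exact lmul _ _ _ _ _ fun v => by
      simp only [es, Submodule.coe_smul, Submodule.coe_add, smul_left, add_left]; module
  have m2 : ∀ (a : E) x y, β x (a • y) = a * β x y := fun a x y => uq _ _ fun c => by
    rw [hβ, smul_smul, ← hβ]; congr 1; ring
  let γ : X →ₛₗ[σ] X →ₗ[E] E := LinearMap.mk₂'ₛₗ σ (RingHom.id E) β
    (fun x x' y => by rw [← hs, a2, map_add, hs, hs])
    (fun a x y => by rw [← hs, m2, map_mul, hs, smul_eq_mul]) a2 m2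
  have hγ : ∀ x y, γ x y = β x y := fun _ _ => rfl
  have main : ∀ (x y : X) (z : isom B), IsEich B x y 0 z.1 → l z = ψ (γ x y - γ y x) :=
    fun x y z hz => by
      rw [hγ, hγ, ← hs x y, ← psi1_apply, ← mul_one (β x y), hβ, one_smul]
      exact congrArg l (Subtype.ext (hz.ext (he x y)))
  refine ⟨γ, ⟨h.inv, hs⟩, main, fun g0 z hz => ?_, fun x y hxy => ?_, fun k t ht hl x y => ?_⟩
  · let K : Subgroup (isom B) :=
      { carrier := {z | z ∈ CX B X ∧ l z = 1}
        one_mem' := ⟨one_mem _, l1⟩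
        mul_mem' := fun {a b} ha hb => ⟨mul_mem ha.1 hb.1, by rw [lm a ha.1 b hb.1, ha.2, hb.2, mul_one]⟩
        inv_mem' := fun {a} ha => ⟨inv_mem ha.1, by
          have := lm _ (inv_mem ha.1) a ha.1
          rwa [inv_mul_cancel, l1, ha.2, mul_one, eq_comm] at this⟩ }
    exact (le_of h hX K (fun x hx y hy z hz => ⟨eich_mem hx hy hz, by
      rw [main ⟨x, hx⟩ ⟨y, hy⟩ z hz, g0]; simp⟩) hz).2
  · by_contra c
    push Not at c
    refine hxy (uq _ _ fun a => ?_)
    rw [zero_mul, AddChar.map_zero_eq_one, psi1_apply, ← c a, hγ, hγ, hγ, ← hs x (a • y), m2,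
      mul_comm]
  · refine uq _ _ fun c => ?_
    rw [hγ, hγ, hβ, hβ, ← hl _ (em _ _)]
    refine congrArg l (ee fun v => ?_)
    apply k.1.injective
    have i := es (t x) (c • t y) (k.1 v)
    rw [← map_smul t, ← ht, ← ht, mem_isom.1 k.2, mem_isom.1 k.2] at i
    rw [es, map_sub, map_sub, map_smul, map_smul, ← i, map_smul t, mul_ap, mul_ap]
    exact congrArg (· - k.1 v) (apply_inv_apply k.1 _)

theorem form (_ : GenStmt.{u}) : FormStmt.{u} := form0

end Cfsg.Agent.H89.UwForm
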