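import Cfsg.Agent.H49.BN2Defs
import Cfsg.Agent.H7.PBasic

/-! `Q x ⊓ Q x'` is transitive on short paths. -/

set_option autoImplicit false

namespace Cfsg.Agent.H89.BnT1

open Cfsg.Agent.H49.BN2 MulAction

universe u

variable {n p : ℕ} {X G : Type u} [Group G] [MulAction G X] [Finite G] (S : Sys n p X G)

omit [Finite G] in
theorem pre (b1 : S.toPol.Bas) {x y0 y u0 a v : X} {k : ℕ} (h0 : S.d x y0 = 1)
    (h1 : S.d x y = 1) (hne : y0 ≠ y) (hk : 2 * (k + 2) ≤ n + 1) (a1 : S.d u0 x = k + 2)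
    (a2 : S.d u0 y0 = k + 1) (a3 : S.d a x = k + 1) (a4 : S.d a y0 = k) (f1 : S.d x v = k + 2)
    (f2 : S.d y v = k + 1) : ∃ w, S.d w v = 1 ∧ S.d x w = k + 1 ∧
      S.d y w = k ∧ S.d a w = 2 * k + 2 ∧ S.d u0 w = 2 * k + 3 ∧ S.d a v = 2 * k + 3 ∧
      (2 * k + 3 ≠ n → S.d u0 v = 2 * k + 3 + 1) := by
  obtain ⟨w, f3, f4⟩ := b1.geo_ex y v k (by omega)
  have f5 : S.d x w = k + 1 := by
    have := b1.tri x y w
    have := b1.tri x w v
    omega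
  refine ⟨w, by omega, f5, f3, ?_, ?_, ?_, fun _ => ?_⟩ <;>
    rw [b1.glue _ y0 x y _ h0 h1 hne (by omega) (by omega) (by omega)] <;> omega

set_option maxHeartbeats 4000000 in
omit [Finite G] in
/-- the first edge at `u0` moves `u` to `u'` and fixes the path up to `y` -/
theorem move (b1 : S.toPol.Bas) (b2 : S.Bas) {x y0 y u0 u u' : X} {k : ℕ} (h0 : S.d x y0 = 1)
    (h1 : S.d x y = 1) (hne : y0 ≠ y) (hk : 2 * (k + 2) ≤ n + 1) (a1 : S.d x u0 = k + 2)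
    (a2 : S.d y0 u0 = k + 1) (c1 : S.d x u = k + 2) (c2 : S.d y u = k + 1) (c3 : S.d x u' = k + 2)
    (c4 : S.d y u' = k + 1) : ∃ g ∈ S.V x y0, g • u0 = u0 ∧ g • y = y ∧ g • u = u' := by
  have sy := S.d_symm
  rw [sy] at a1 a2
  obtain ⟨a, e1, e2⟩ := b1.geo_ex u0 y0 1 (by omega)
  have s2 : S.d y0 x = 1 := (sy y0 x).trans h0
  have a4 : S.d a y0 = k := by omega
  have a3 : S.d a x = k + 1 := by
    have t1 := b1.tri a y0 x
    have t2 := b1.tri u0 a x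
    omega
  obtain ⟨w, w1, w2, w3, w4, w5, w6, w7⟩ := pre S b1 h0 h1 hne hk a1 a2 a3 a4 c1 c2
  obtain ⟨w', v1, v2, v3, v4, v5, v6, v7⟩ := pre S b1 h0 h1 hne hk a1 a2 a3 a4 c3 c4
  obtain ⟨g, g1, g2, g3⟩ : ∃ g ∈ S.V u0 a, g • w = w' ∧ g • u = u' := by
    by_cases hn : 2 * k + 3 = n
    · exact S.V_tr u0 a w u w' u' ⟨e1, w1, w5.trans hn, w6.trans hn⟩
        ⟨e1, v1, v5.trans hn, v6.trans hn⟩
    obtain ⟨g, g1, g2⟩ := b2.tr u0 a u u' (2 * k + 3) e1 (w7 hn) w6 (v7 hn) v6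
    clear w7 v7
    have ga := S.V_fix a u0 ((sy a u0).trans e1) g ((S.V_symm u0 a).le g1)
    have i1 := S.d_smul g a w
    have i2 := S.d_smul g w u
    rw [ga] at i1
    rw [g2] at i2
    refine ⟨g, g1, b1.geo_uniq a u' _ _ (by omega) ?_ ?_ ?_, g2⟩
    · rw [i1, i2, w4, w1, v6]
    · rw [v4, v1, v6]
    · rw [i1, w4, v4]
  clear w7 v7
  have ga := S.V_fix a u0 ((sy a u0).trans e1) g ((S.V_symm u0 a).le g1)
  have gu := S.V_fix u0 a e1 g g1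
  have fix : ∀ t, S.d a t + S.d t w = S.d a w → S.d t w' = S.d t w → g • t = t := fun t f1 f2 => by
    have i1 := S.d_smul g a t
    have i2 := S.d_smul g t w
    rw [ga] at i1
    rw [g2] at i2
    exact b1.geo_uniq a w' _ _ (by omega) (by rw [i1, i2, f1, w4, v4]) (by rw [f2, f1, w4, v4]) i1
  have gx := fix x (by omega) (v2.trans w2.symm)
  have t3 := b1.tri a x y
  have t4 := b1.tri a y w
  exact ⟨g, b2.uni u0 a x y0 e1 h0 g g1 gx
    (b2.geo_fix g u0 x y0 gu gx (by omega) (by omega)), gu, fix y (by omega) (v3.trans w3.symm), g3⟩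

theorem stab_le {H : Subgroup G} {a b : X} {g : G} (hg : g ∈ H) (e : g • a = b)
    (h : ∀ w ∈ H, w • a = a → w • b = b) : ∀ w ∈ H, w • b = b → w • a = a := fun w hw e' => by
  have h1 : H ⊓ stabilizer G a = H ⊓ stabilizer G b := by
    refine Subgroup.eq_of_le_of_card_ge (fun w hw => ⟨hw.1, h w hw.1 hw.2⟩)
      (Nat.card_le_card_of_injective (fun w => ⟨g⁻¹ * w * g,
        H.mul_mem (H.mul_mem (H.inv_mem hg) w.2.1) hg, mem_stabilizer_iff.2 ?_⟩)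
        fun w w' e => Subtype.ext (by simpa using congrArg Subtype.val e))
    rw [mul_smul, mul_smul, e, show (w : G) • b = b from w.2.2, ← e, inv_smul_smul]
  exact (h1.ge ⟨hw, e'⟩).2

theorem ta (hn : 3 ≤ n) (b1 : S.toPol.Bas) (b2 : S.Bas) {x x' y u u' : X} {k : ℕ}
    (hQ : ¬ S.Q 1 x' ≤ S.Q 1 x) (h : S.d x x' = 1) (h1 : S.d x y = 1) (hne : y ≠ x')
    (hk : 2 * (k + 1) ≤ n + 1) (c1 : S.d x u = k + 1) (c2 : S.d y u = k) (c3 : S.d x u' = k + 1)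
    (c4 : S.d y u' = k) : ∃ g ∈ S.Q 1 x ⊓ S.Q 1 x', g • u = u' := by
  have sy := S.d_symm
  have z0 : ∀ a, S.d a a = 0 := fun a => (S.d_zero a a).2 rfl
  rcases k with _ | k
  · exact ⟨1, one_mem _, by rw [one_smul, ← (S.d_zero y u).1 c2, (S.d_zero y u').1 c4]⟩
  have h' : S.d x' x = 1 := sy x x' ▸ h
  have fx : ∀ g ∈ S.V x x', g • x = x := S.V_fix x x' h
  have fx' : ∀ g ∈ S.V x x', g • x' = x' := fun g hg => S.V_fix x' x h' g (S.V_symm x x' ▸ hg)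
  have hle : S.Q 1 x' ≤ S.V x x' := S.V_symm x' x ▸ b2.Q_le 1 x' x h'
  have := Fact.mk S.hp
  have := (S.V_p x x' h).isNilpotent
  have : ((S.Q 1 x').subgroupOf (S.V x x')).Normal := ⟨fun a ha g => by
    have := b2.Q_conj 1 x' g a ha
    rwa [fx' g g.2] at this⟩
  obtain ⟨⟨e, eV⟩, e1, e2, e3⟩ := H7.exists_central_mod_of_nilpotent
    (M := (S.Q 1 x').subgroupOf (S.V x x')) (N := (S.Q 1 x ⊓ S.Q 1 x').subgroupOf (S.V x x'))
    fun a => hQ fun g hg => (a (x := ⟨g, hle hg⟩) hg).1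
  replace e1 : e ∈ S.Q 1 x' := e1
  have e4 : ∀ g ∈ S.V x x', e * g * e⁻¹ * g⁻¹ ∈ S.Q 1 x ⊓ S.Q 1 x' := fun g hg => e3 ⟨g, hg⟩
  have d2 : ∀ t, S.d x t = 1 → t ≠ x' → S.d x' t = 2 := fun t a b => by
    rw [b1.away x x' t x' h a b.symm (by rw [z0]; omega) (by omega), h']
  have mv : e⁻¹ • y ≠ y := fun a => e2 ⟨b2.mem_Q 1 x x' le_rfl h e eV fun t ht => by
    rcases Nat.le_one_iff_eq_zero_or_eq_one.1 ht with b | b
    · exact (S.d_zero x t).1 b ▸ fx e eV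
    by_cases c : t = x'
    · exact c ▸ fx' e eV
    obtain ⟨g, g1, rfl⟩ := b2.tr x' x y t 1 h' (d2 y h1 hne) h1 (d2 t b c) b
    have := (e4 g (S.V_symm x' x ▸ g1)).1.2 _ b.le
    rwa [mul_smul, inv_smul_smul, mul_smul, a, mul_smul] at this, e1⟩
  have tr : ∀ a b, S.d (e⁻¹ • a) (e⁻¹ • b) = S.d a b := S.d_smul _
  have ex := fx _ (inv_mem eV)
  have a0 := tr x y
  have a1 := tr x u
  have a2 := tr y u
  rw [ex] at a0 a1
  have y0x : e⁻¹ • y ≠ x' := fun a => hne (by rw [inv_smul_eq_iff.1 a, fx' e eV])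
  have h0 : S.d x (e⁻¹ • y) = 1 := a0.trans h1
  have key : ∀ w ∈ S.V x x', w • e⁻¹ • u = e⁻¹ • u → ∃ g ∈ S.Q 1 x ⊓ S.Q 1 x', g • u = w • u :=
    fun w a b => ⟨_, inv_mem (e4 w a), by
      rw [inv_smul_eq_iff, mul_smul, inv_smul_smul, mul_smul, mul_smul, b, smul_inv_smul]⟩
  obtain ⟨c, k1, k2⟩ := S.ex (e⁻¹ • u) x fun a => by rw [a, z0] at a1; omega
  have s1 := sy (e⁻¹ • u) x
  have s2 := sy (e⁻¹ • u) (e⁻¹ • y)
  have s3 := sy x (e⁻¹ • y)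
  have cy : S.d c (e⁻¹ • y) + 1 = S.d c x := by
    obtain ⟨c', l1, l2⟩ := b1.geo_ex (e⁻¹ • u) (e⁻¹ • y) 1 (by omega)
    have := b1.tri c' (e⁻¹ • y) x
    have := b1.tri (e⁻¹ • u) c' x
    obtain rfl := S.uniq _ c c' x (by omega) k1 l1 (by omega) (by omega)
    omega
  have far : ∀ t, S.d x t = 1 → t ≠ e⁻¹ • y →
      S.d (e⁻¹ • u) t = k + 2 + 1 ∧ S.d c t = k + 2 := fun t a b =>
    ⟨by rw [b1.away x _ t _ h0 a b.symm (by omega) (by omega)]; omega,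
      by rw [b1.away x _ t c h0 a b.symm (by omega) (by omega)]; omega⟩
  obtain ⟨g, g1, g2⟩ := b2.tr _ c x' y (k + 2) k1 (far x' h y0x.symm).1 (far x' h y0x.symm).2
    (far y h1 mv.symm).1 (far y h1 mv.symm).2
  have gc := S.V_fix c _ (sy _ c ▸ k1) g (S.V_symm _ c ▸ g1)
  have gu := S.V_fix _ c k1 g g1
  have gx : g • x = x := by
    have i1 := S.d_smul g c x
    have i2 := S.d_smul g x x'
    rw [gc] at i1
    rw [g2] at i2
    have := (far y h1 mv.symm).2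
    exact b1.geo_uniq c y _ _ (by omega) (by omega) (by omega) i1
  obtain ⟨w, w1, w2, w3, rfl⟩ := move S b1 b2 h0 h1 mv hk (a1.trans c1) (a2.trans c2) c1 c2 c3 c4
  refine key w (S.V_uni x _ x' h0 h w w1 (stab_le (H := S.V x (e⁻¹ • y) ⊓ stabilizer G (e⁻¹ • u))
    ⟨b2.uni _ c x _ k1 h0 g g1 gx (b2.geo_fix g _ x _ gu gx (by omega) (by omega)), gu⟩ g2
    (fun w a b => ?_) w ⟨w1, w2⟩ w3)) w2
  have hw := S.V_uni x _ x' h0 h w a.1 b
  obtain ⟨ν, n1, n2⟩ := key w hw a.2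
  have i1 := S.d_smul w x y
  have i2 := S.d_smul w y u
  have i3 := S.d_smul ν y u
  have i4 := S.d_smul w x u
  rw [fx w hw] at i1 i4
  rw [n1.1.2 y h1.le, n2] at i3
  exact S.uniq x _ _ (w • u) (by omega) (i1.trans h1) h1 (by omega) (by omega)

theorem tb (hn : 3 ≤ n) (b1 : S.toPol.Bas) (b2 : S.Bas) (hz : S.Zt) {a b : X} (h : S.d a b = 1) :
    ¬ S.Q 1 a ≤ S.Q 1 b := fun hQ => by
  have sy := S.d_symm
  have z0 : ∀ a, S.d a a = 0 := fun a => (S.d_zero a a).2 rfl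
  have p1 : ∀ a b, S.d a b = 1 → S.Q 1 a ≤ S.Q 1 b → ∀ y, S.d a y = 1 → S.Q 1 a ≤ S.Q 1 y :=
    fun a b h hQ y hy t ht => by
      obtain ⟨g, g1, rfl⟩ := b2.flag a b a y h hy (by rw [z0]; exact Even.zero)
      have h1 := b2.Q_conj 1 a g⁻¹ t ht
      rw [inv_smul_eq_iff.2 g1.symm] at h1
      simpa [mul_assoc] using b2.Q_conj 1 b g _ (hQ h1)
  have p2 : ∀ a b, S.d a b = 1 → S.Q 1 a ≤ S.Q 1 b → S.Q 1 b ≤ S.Q 1 a := fun a b h hQ => by
    by_contra c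
    obtain ⟨y, y1, y2, -⟩ := S.thick a b b
    obtain ⟨u, u1, u2, -⟩ := S.thick y a a
    obtain ⟨v, v1, v2, v3⟩ := S.thick y a u
    have d2 : ∀ t, S.d y t = 1 → t ≠ a → S.d a t = 1 + 1 := fun t e f => by
      rw [b1.away y a t a (sy a y ▸ y1) e f.symm (by rw [z0]; omega) (by omega), y1]
    obtain ⟨g, g1, g2⟩ := ta S hn b1 b2 c h y1 y2 (k := 1) (by omega) (d2 u u1 u2) u1 (d2 v v1 v2) v1
    exact v3 (g2.symm.trans ((p1 a b h hQ y y1 g1.1).2 u u1.le))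
  have p3 : ∀ k v, S.d v a = k → S.Q 1 a ≤ S.Q 1 v ∧ ∀ t, S.d v t = 1 → S.Q 1 v ≤ S.Q 1 t := by
    intro k
    induction k with
    | zero => intro v e; rw [(S.d_zero v a).1 e]; exact ⟨le_rfl, p1 a b h hQ⟩
    | succ k ih =>
      intro v e
      obtain ⟨w, w1, w2⟩ := S.ex v a fun c => by rw [c, z0] at e; omega
      obtain ⟨i1, i2⟩ := ih w (by omega)
      have i3 := i2 v (sy v w ▸ w1)
      exact ⟨i1.trans i3, p1 v w w1 (p2 w v (sy v w ▸ w1) i3)⟩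
  obtain ⟨z, z1, z2⟩ := b2.Z_ne a b h
  have z3 := b2.Q_mono _ 1 a a le_rfl (by rw [z0]; omega) (hz a b h z1)
  exact z2 (S.faith z fun v => ((p3 _ v rfl).1 z3).2 v (by rw [z0]; omega))

theorem t1 : T1Stmt.{u} := by
  intro n p X G _ _ _ _ S hn b1 b2 hz x x' y u u' k h h1 hne hk
  exact ta S hn b1 b2 (tb S hn b1 b2 hz (S.d_symm x x' ▸ h)) h h1 hne hk

end Cfsg.Agent.H89.BnT1
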