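import Cfsg.Agent.H49.BN2Defs

/-! The centre of `V x y` fixes large balls. -/

set_option autoImplicit false

namespace Cfsg.Agent.H89.BnZt

open Cfsg.Agent.H49.BN2

universe u

variable {n p : ℕ} {X G : Type u} [Group G] [MulAction G X] (S : Sys n p X G)

theorem claim (b1 : S.toPol.Bas) (b2 : S.Bas) {x y : X} (h : S.d x y = 1) {z : G}
    (hz : z ∈ S.Z x y) (k : ℕ) : ∀ u, S.d x u = k + 1 → S.d y u = k → 2 * (k + 1) ≤ n + 1 →
      z • u = u := by
  have sy := S.d_symm
  have fx : ∀ g ∈ S.V x y, g • x = x := S.V_fix x y h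
  have fy : ∀ g ∈ S.V x y, g • y = y := fun g hg => S.V_fix y x (sy x y ▸ h) g (S.V_symm x y ▸ hg)
  induction k with
  | zero => intro u _ h2 _; exact (S.d_zero y u).1 h2 ▸ fy z hz.1
  | succ k ih =>
  intro u h1 h2 h3
  obtain ⟨w, w1, w2⟩ := S.ex u y fun e => by rw [e, (S.d_zero y y).2 rfl] at h2; omega
  rw [sy w y, sy u y] at w2
  have t1 := b1.tri x y w
  have t2 := b1.tri x w u
  rw [sy w u] at t2
  have hw := ih w (by omega) (by omega) (by omega)
  by_contra hne
  obtain ⟨e, e1, e2⟩ := b1.ext x u (n - (k + 2)) (by omega)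
  have e3 : S.d y e + 1 = n := by
    have := S.step x y e h
    have := S.d_le y e
    omega
  have tr : ∀ a b, S.d (z • a) (z • b) = S.d a b := S.d_smul z
  have a1 := tr w u
  have a2 := tr u e
  have a3 := tr y u
  have a4 := tr y e
  have a5 := tr w e
  rw [hw] at a1 a5
  rw [fy z hz.1] at a3 a4
  set F : Set X := {a | ∀ g ∈ {g | g ∈ S.V x y ∧ g • e = e}, g • a = a}
  have hF : S.toPol.Conv F := b2.conv _
  have m1 : y ∈ F := fun g hg => fy g hg.1
  have m2 : e ∈ F := fun g hg => hg.2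
  have m3 : z • e ∈ F := fun g hg => by rw [← mul_smul, hz.2 g hg.1, mul_smul, hg.2]
  have m4 : u ∈ F := hF y m1 e m2 u (by omega) (by omega)
  have m5 : z • u ∈ F := hF y m1 _ m3 _ (by omega) (by omega)
  obtain ⟨b, c1, c2⟩ := b1.geo_ex e u 1 (by rw [sy]; omega)
  obtain ⟨d, d1, d2⟩ := b1.geo_ex (z • u) (z • e) (k + 1) (by omega)
  obtain ⟨c, d3, d4⟩ := b1.geo_ex d (z • u) 1 (by rw [sy]; omega)
  have m6 : b ∈ F := hF e m2 u m4 b (by rw [sy]; omega) c2
  have m7 : d ∈ F := hF _ m5 _ m3 d (by omega) d2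
  have m8 : c ∈ F := hF d m7 _ m5 c (by rw [sy]; omega) d4
  have s1 := sy e u
  have s2 := sy d (z • u)
  have s3 := sy c (z • u)
  have s4 := sy w u
  have s5 := sy e w
  have s6 := sy c d
  have s7 := sy u b
  have u1 := b1.tri y w e
  have u2 := b1.tri w u e
  have u3 := b1.tri e b w
  have u4 := b1.tri b u w
  have u5 := b1.tri w d (z • e)
  have u6 := b1.tri w (z • u) d
  have u7 := b1.tri w c d
  have u8 := b1.tri w (z • u) c
  have u9 := b1.tri y u b
  have g1 := b1.glue e u w (z • u) c (by omega) (by omega) (Ne.symm hne) (by omega) (by omega)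
    (by omega)
  have g2 := b1.glue b u w (z • u) d (by omega) (by omega) (Ne.symm hne) (by omega) (by omega)
    (by omega)
  obtain ⟨v, v1, v2, v3⟩ := b1.fix2 F hF
    ⟨e, m2, b, m6, c, m8, d, m7, c1, by omega, by omega, by omega⟩ e m2 b
  obtain ⟨v', v4, v5, v6⟩ := S.thick e b v
  have op : ∀ v, S.d e v = 1 → v ≠ b → S.toPol.Opp x y e v := fun v a b' =>
    ⟨h, a, by omega, by rw [b1.away e b v y c1 a b'.symm (by omega) (by omega), e3]⟩
  obtain ⟨g, k1, k2, k3⟩ := S.V_tr x y e v e v' (op v v2 v3) (op v' v4 v5)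
  exact v6 (k3.symm.trans (v1 g ⟨k1, k2⟩))

theorem zt : ZtStmt.{u} := by
  intro n p X G _ _ _ _ S hn b1 b2 x y h z hz
  refine b2.mem_Q _ x y (by omega) h z hz.1 fun v hv => ?_
  rcases S.step x y v h with e | e
  · exact claim S b1 b2 (S.d_symm x y ▸ h) (b2.Z_symm x y ▸ hz) _ v e rfl (by omega)
  · exact claim S b1 b2 h hz _ v e rfl (by omega)

end Cfsg.Agent.H89.BnZt
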