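import Cfsg.Agent.H45.IvDefs

/-! Project CY, chapter IV, piece LA: first structure of a line group that is `2`-by-`p`. -/

set_option autoImplicit false
set_option linter.unusedVariables false

namespace Cfsg.Agent.H89.CyLa

open Subgroup MulAction Cfsg.Agent.H11.Cy Cfsg.Agent.H45.Iv
open scoped commutatorElement Pointwise

theorem eq_one_of_pows {M : Type*} [Group M] {g : M} {p k : ℕ} (hp : p.Prime) (h2 : p ≠ 2)
    (h1 : g ^ p = 1) (h3 : g ^ 2 ^ k = 1) : g = 1 := by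
  have hc : Nat.Coprime p (2 ^ k) :=
    Nat.Coprime.pow_right k ((Nat.coprime_primes hp Nat.prime_two).2 h2)
  have := Nat.dvd_gcd (orderOf_dvd_of_pow_eq_one h1) (orderOf_dvd_of_pow_eq_one h3)
  rw [hc.gcd_eq_one, Nat.dvd_one] at this
  exact orderOf_eq_one_iff.1 this

theorem mem_comm_iff {G : Type*} [Group G] (F : Subgroup G) (g : F) :
    (g : G) ∈ ⁅F, F⁆ ↔ Abelianization.of g = 1 := by
  rw [← MonoidHom.mem_ker, Abelianization.ker_of, ← Subgroup.map_subtype_commutator]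
  constructor
  · rintro ⟨a, ha, e⟩
    have : a = g := Subtype.ext e
    exact this ▸ ha
  · intro h
    exact ⟨g, h, rfl⟩

theorem la : LaStmt := by
  intro G _ _ Ω _ _ p A h p2 ep t2 x y hxy
  haveI : Fact p.Prime := ⟨h.pp⟩
  obtain ⟨R0, hR2, hRn, hF⟩ := t2 x y hxy
  have powA : ∀ c, ∀ a ∈ A c, a ^ p = 1 := by
    intro c a ha
    have := pow_card_eq_one' (G := A c) (x := ⟨a, ha⟩)
    rw [h.card c] at this
    exact congrArg Subtype.val this
  have comA : ∀ a ∈ A x, ∀ b ∈ A x, a * b = b * a := by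
    intro a ha b hb
    haveI : IsCyclic (A x) := isCyclic_of_prime_card (h.card x)
    have := (IsCyclic.isMulCommutative (α := A x)).is_comm.comm ⟨a, ha⟩ ⟨b, hb⟩
    exact congrArg Subtype.val this
  have hAF : A x ≤ Fl A x y := le_sup_left
  have hR0F : R0 ≤ Fl A x y := by
    rw [hF]
    exact le_sup_left
  have dec0 : ∀ g ∈ Fl A x y, ∃ r ∈ R0, ∃ a ∈ A x, g = r * a := by
    intro g hg
    rw [hF] at hg
    have e := Subgroup.coe_mul_of_right_le_normalizer_left R0 (A x) (hAF.trans hRn)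
    have hg' : g ∈ ((R0 ⊔ A x : Subgroup G) : Set G) := hg
    rw [e] at hg'
    obtain ⟨r, hr, a, ha, rfl⟩ := hg'
    exact ⟨r, hr, a, ha, rfl⟩
  have nrm0 : ∀ g ∈ Fl A x y, ∀ r ∈ R0, g * r * g⁻¹ ∈ R0 := fun g hg r hr =>
    (mem_normalizer_iff.1 (hRn hg) r).1 hr
  have le1 : Rl A x y ≤ R0 := by
    refine Subgroup.commutator_le.2 fun g1 h1 g2 h2 => ?_
    obtain ⟨r1, hr1, a1, ha1, rfl⟩ := dec0 g1 h1
    obtain ⟨r2, hr2, a2, ha2, rfl⟩ := dec0 g2 h2
    have e : ⁅r1 * a1, r2 * a2⁆ =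
        r1 * (a1 * r2 * a1⁻¹) * ((a1 * a2) * a1⁻¹ * r1⁻¹ * a2⁻¹) * r2⁻¹ := by
      rw [commutatorElement_def]; group
    have e2 : (a1 * a2) * a1⁻¹ * r1⁻¹ * a2⁻¹ = a2 * r1⁻¹ * a2⁻¹ := by
      rw [comA a1 ha1 a2 ha2]; group
    rw [e, e2]
    exact mul_mem (mul_mem (mul_mem hr1 (nrm0 a1 (hAF ha1) r2 hr2))
      (nrm0 a2 (hAF ha2) _ (inv_mem hr1))) (inv_mem hr2)
  have expo : ∀ g : Fl A x y, (Abelianization.of g) ^ p = 1 := by
    let ψ : Fl A x y →* Abelianization (Fl A x y) := (powMonoidHom p).comp Abelianization.of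
    have key : ∀ c, A c ≤ Fl A x y → A c ≤ ψ.ker.map (Fl A x y).subtype := by
      intro c hc a ha
      refine ⟨⟨a, hc ha⟩, ?_, rfl⟩
      change (Abelianization.of (⟨a, hc ha⟩ : Fl A x y)) ^ p = 1
      rw [← map_pow]
      have : (⟨a, hc ha⟩ : Fl A x y) ^ p = 1 := Subtype.ext (powA c a ha)
      rw [this, map_one]
    intro g
    have hle : Fl A x y ≤ ψ.ker.map (Fl A x y).subtype :=
      sup_le (key x le_sup_left) (key y le_sup_right)
    obtain ⟨a, ha, e⟩ := hle g.2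
    have : a = g := Subtype.ext e
    subst this
    exact ha
  have two_mem : ∀ g ∈ Fl A x y, ∀ k : ℕ, g ^ 2 ^ k = 1 → g ∈ Rl A x y := by
    intro g hg k hk
    refine (mem_comm_iff (Fl A x y) ⟨g, hg⟩).2 (eq_one_of_pows (k := k) h.pp p2 (expo _) ?_)
    rw [← map_pow]
    have : (⟨g, hg⟩ : Fl A x y) ^ 2 ^ k = 1 := Subtype.ext hk
    rw [this, map_one]
  have le2 : R0 ≤ Rl A x y := by
    intro r hr
    obtain ⟨k, hk⟩ := hR2 ⟨r, hr⟩
    exact two_mem r (hR0F hr) k (congrArg Subtype.val hk)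
  have eR : Rl A x y = R0 := le_antisymm le1 le2
  have disj : ∀ c, ∀ a ∈ A c, a ∈ R0 → a = 1 := by
    intro c a ha hr
    obtain ⟨k, hk⟩ := hR2 ⟨a, hr⟩
    exact eq_one_of_pows (k := k) h.pp p2 (powA c a ha) (congrArg Subtype.val hk)
  -- `A x` is a Sylow subgroup of the line group
  have hcomp : IsComplement' (R0.subgroupOf (Fl A x y)) ((A x).subgroupOf (Fl A x y)) := by
    refine isComplement'_of_disjoint_and_mul_eq_univ ?_ ?_
    · rw [Subgroup.disjoint_def]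
      intro a h1 h2
      exact Subtype.ext (disj x a h2 h1)
    · refine Set.eq_univ_of_forall fun g => ?_
      obtain ⟨r, hr, a, ha, e⟩ := dec0 g g.2
      exact ⟨⟨r, hR0F hr⟩, hr, ⟨a, hAF ha⟩, ha, Subtype.ext e.symm⟩
  have hidx : ¬ p ∣ ((A x).subgroupOf (Fl A x y)).index := by
    rw [hcomp.index_eq_card, Nat.card_congr (Subgroup.subgroupOfEquivOfLe hR0F).toEquiv]
    obtain ⟨k, hk⟩ := IsPGroup.iff_card.1 hR2
    rw [hk]
    intro hd
    exact p2 ((Nat.prime_dvd_prime_iff_eq h.pp Nat.prime_two).1 (h.pp.dvd_of_dvd_pow hd))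
  have hpA : IsPGroup p ((A x).subgroupOf (Fl A x y)) := by
    intro a
    refine ⟨1, Subtype.ext (Subtype.ext ?_)⟩
    simpa using powA x _ a.2
  have conj : ∀ b ∈ Fl A x y, b ^ p = 1 → ∃ f ∈ Fl A x y, b ∈ A (f • x) := by
    intro b hb hbp
    have hB : IsPGroup p (zpowers (⟨b, hb⟩ : Fl A x y)) := by
      rintro ⟨_, n, rfl⟩
      refine ⟨1, Subtype.ext (Subtype.ext ?_)⟩
      simp only [pow_one, SubgroupClass.coe_pow, SubgroupClass.coe_zpow, OneMemClass.coe_one]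
      rw [← zpow_natCast, ← zpow_mul, mul_comm, zpow_mul, zpow_natCast, hbp, one_zpow]
    obtain ⟨Q, hQ⟩ := hB.exists_le_sylow
    obtain ⟨f, hf⟩ := MulAction.exists_smul_eq (Fl A x y) (hpA.toSylow hidx) Q
    have h1 : (⟨b, hb⟩ : Fl A x y) ∈ (Q : Subgroup (Fl A x y)) := hQ (mem_zpowers _)
    rw [← hf, Sylow.coe_subgroup_smul, Subgroup.mem_pointwise_smul_iff_inv_smul_mem] at h1
    have h2 : (f : G)⁻¹ * b * f ∈ A x := by
      have h3 : ((MulAut.conj f)⁻¹ • (⟨b, hb⟩ : Fl A x y)) ∈ (A x).subgroupOf (Fl A x y) := h1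
      rw [mem_subgroupOf] at h3
      simpa using h3
    refine ⟨f, f.2, ?_⟩
    have := h.eqv f x _ h2
    simpa [mul_assoc] using this
  have lnf : ∀ f ∈ Fl A x y, f • x ∈ Ln A x y := by
    intro f hf b hb
    have h1 := h.eqv f⁻¹ _ b hb
    rw [inv_smul_smul] at h1
    have := mul_mem (mul_mem hf (hAF h1)) (inv_mem hf)
    simpa [mul_assoc] using this
  have out : ∀ g ∈ Fl A x y, g ∉ Rl A x y → ∃ c ∈ Ln A x y, (∀ w, g • w = w ↔ w = c) ∧
      ∃ k : ℕ, g ^ k ∈ A c ∧ g ^ k ≠ 1 := by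
    intro g hg hgR
    have h1 : g ^ p ∈ R0 := by
      have h0 := (mem_comm_iff (Fl A x y) ((⟨g, hg⟩ : Fl A x y) ^ p)).2 (by
        rw [map_pow]
        exact expo _)
      exact le1 h0
    obtain ⟨k, hk⟩ := hR2 ⟨_, h1⟩
    have hk' : (g ^ p) ^ 2 ^ k = 1 := congrArg Subtype.val hk
    have hne : g ^ 2 ^ k ≠ 1 := fun e => hgR (two_mem g hg k e)
    obtain ⟨f, hf, hb⟩ := conj (g ^ 2 ^ k) (pow_mem hg _) (by
      rw [← pow_mul, mul_comm, pow_mul, hk'])
    refine ⟨f • x, lnf f hf, fun w => ⟨fun hw => ?_, ?_⟩, 2 ^ k, hb, hne⟩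
    · have : g ^ 2 ^ k • w = w := pow_mem (show g ∈ stabilizer G w from hw) _
      exact (h.semi _ w _ hb this).resolve_left hne
    · rintro rfl
      refine (h.semi _ _ _ hb ?_).resolve_left hne
      rw [← mul_smul, ← pow_succ, pow_succ', mul_smul, h.fix _ _ hb]
  refine ⟨eR ▸ hR2, by rw [eR, ← hF], fun g hg => eR ▸ dec0 g hg,
    fun c a ha hr => disj c a ha (le1 hr), ?_, ?_, out⟩
  · intro z hz
    by_contra hzR
    obtain ⟨c, -, hc, -⟩ := out z hz.1 hzR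
    have hfix := (ep.kfix x y hxy z).1 hz.2
    have e1 : x = c := (hc x).1 (hfix x (show A x ≤ Fl A x y from le_sup_left))
    have e2 : y = c := (hc y).1 (hfix y (show A y ≤ Fl A x y from le_sup_right))
    exact hxy (e1.trans e2.symm)
  · intro c hc
    have hnt : Nontrivial (A c) := by
      rw [← Finite.one_lt_card_iff_nontrivial, h.card c]
      exact h.pp.one_lt
    obtain ⟨b, hb1⟩ := exists_ne (1 : A c)
    obtain ⟨f, hf, hb⟩ := conj b (hc b.2) (powA c b b.2)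
    have e : f • x = c :=
      (h.semi c _ b b.2 (h.fix _ _ hb)).resolve_left fun e => hb1 (Subtype.ext e)
    obtain ⟨r, hr, a, ha, rfl⟩ := dec0 f hf
    refine ⟨r, le2 hr, ?_⟩
    rw [← e, mul_smul, h.fix x a ha]

end Cfsg.Agent.H89.CyLa
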