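import Cfsg.Agent.H45.GdDefs

/-! Project CY, chapter IV, piece Q3: the line structure passes to the quotient system. -/

set_option autoImplicit false
set_option linter.unusedVariables false

namespace Cfsg.Agent.H89.CyQ3

open Subgroup MulAction Cfsg.Agent.H11.Cy Cfsg.Agent.H45.Iv Cfsg.Agent.H45.Gd
open scoped commutatorElement

theorem q3 : Q3Stmt := by
  intro G _ _ Ω _ _ H _ _ Θ _ _ p A P B π ρ h p2 ep sk ls sub pj pm bs v w hvw
  obtain ⟨x, hx, rfl⟩ := pj.rsurj v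
  obtain ⟨y, hy, rfl⟩ := pj.rsurj w
  have hxy : x ≠ y := fun e => hvw (congrArg ρ e)
  obtain ⟨la, lb, lc, -⟩ := ls x y hxy
  have FM : Fl A x y ≤ Ms A P := (sk.fle P x hx y hy).1
  have RF : Rl A x y ≤ Fl A x y := by
    rw [← la.sup]
    exact le_sup_left
  have AF : A x ≤ Fl A x y := le_sup_left
  have rl := pm.rl x hx y hy
  have zl := pm.zl x hx y hy hvw
  refine ⟨⟨?_, ?_, ?_⟩, ⟨?_, ?_, ?_, ?_⟩⟩
  · intro r hr c hc e
    obtain ⟨g, hg, rfl⟩ := (rl r).1 hr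
    obtain ⟨c, hc', rfl⟩ := (pm.ln x hx y hy hvw c).1 hc
    have hcP : c ∈ P := sub x hx y hy hxy hc'
    have hgc : (g : G) • c ∈ Ln A x y := by
      intro b hb
      have h1 := h.eqv (g : G)⁻¹ _ b hb
      rw [inv_smul_smul] at h1
      have := mul_mem (mul_mem (RF hg) (hc' h1)) (inv_mem (RF hg))
      simpa [mul_assoc] using this
    have e2 : (g : G) • c = c :=
      pm.lninj x hx y hy hvw _ hgc _ hc' (by rw [pm.eqv g c hcP, e])
    exact (zl _).2 ⟨g, lb.stab _ hg c hc' e2, rfl⟩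
  · intro r hr s hs
    obtain ⟨g, hg, rfl⟩ := (rl r).1 hr
    obtain ⟨k, hk, rfl⟩ := (rl s).1 hs
    exact (zl _).2 ⟨⁅g, k⁆, lb.com _ hg _ hk, map_commutatorElement π g k⟩
  · intro r hr
    obtain ⟨g, hg, rfl⟩ := (rl r).1 hr
    exact (zl _).2 ⟨g * g, lb.sq _ hg, map_mul π g g⟩
  · intro z hz
    obtain ⟨g, hg, rfl⟩ := (zl z).1 hz
    have key : ⁅Rl A x y, Rl A x y⁆ ≤
        ((⁅Rl B (ρ x) (ρ y), Rl B (ρ x) (ρ y)⁆ : Subgroup H).comap π).map (Ms A P).subtype := by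
      refine Subgroup.commutator_le.2 fun a ha b hb => ?_
      refine ⟨⁅(⟨a, FM (RF ha)⟩ : Ms A P), (⟨b, FM (RF hb)⟩ : Ms A P)⁆, ?_, rfl⟩
      change π _ ∈ (⁅Rl B (ρ x) (ρ y), Rl B (ρ x) (ρ y)⁆ : Subgroup H)
      rw [map_commutatorElement]
      exact commutator_mem_commutator ((rl _).2 ⟨_, ha, rfl⟩) ((rl _).2 ⟨_, hb, rfl⟩)
    obtain ⟨k, hk, e⟩ := key (lc.zd hg)
    have : k = g := Subtype.ext e
    subst this
    exact hk
  · intro z hz
    obtain ⟨g, hg, rfl⟩ := (zl z).1 hz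
    have : g * g = 1 := Subtype.ext (lc.zsq _ hg)
    rw [← map_mul, this, map_one]
  · intro W hZ hR hinv
    have memW : ∀ g : Ms A P, (g : G) ∈ (W.comap π).map (Ms A P).subtype ↔ π g ∈ W := by
      intro g
      constructor
      · rintro ⟨k, hk, e⟩
        have : k = g := Subtype.ext e
        subst this
        exact hk
      · intro hg
        exact ⟨g, hg, rfl⟩
    rcases lc.irr (Rl A x y ⊓ (W.comap π).map (Ms A P).subtype) (by
      intro z hz
      refine ⟨la.zle hz, (memW ⟨z, FM hz.1⟩).2 (hZ ((zl _).2 ⟨_, hz, rfl⟩))⟩) inf_le_left (by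
      intro a ha r hr
      have e : a * r * a⁻¹ = ⁅a, r⁆ * r := by rw [commutatorElement_def]; group
      refine ⟨?_, ?_⟩
      · rw [e]
        exact mul_mem (commutator_mem_commutator (AF ha) (RF hr.1)) hr.1
      · have h1 := (memW ⟨r, FM (RF hr.1)⟩).1 hr.2
        have h2 := hinv (π ⟨a, FM (AF ha)⟩) ((pj.hB x hx _).2 ⟨_, ha, rfl⟩) _ h1
        rw [← map_inv, ← map_mul, ← map_mul] at h2
        exact (memW _).2 h2) with e | e
    · left
      refine le_antisymm (fun u hu => ?_) hZ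
      obtain ⟨g, hg, rfl⟩ := (rl u).1 (hR hu)
      have : (g : G) ∈ Zl A x y := by
        rw [← e]
        exact ⟨hg, (memW g).2 hu⟩
      exact (zl _).2 ⟨g, this, rfl⟩
    · right
      refine le_antisymm hR fun u hu => ?_
      obtain ⟨g, hg, rfl⟩ := (rl u).1 hu
      rw [← e] at hg
      exact (memW g).1 hg.2
  · intro a ha a1 r hr
    obtain ⟨b, hb, rfl⟩ := (pj.hB x hx a).1 ha
    obtain ⟨g, hg, rfl⟩ := (rl r).1 hr
    have b1 : (b : G) ≠ 1 := by
      intro e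
      apply a1
      have : b = 1 := Subtype.ext e
      rw [this, map_one]
    obtain ⟨s, hs, hz⟩ := lc.surj b hb b1 g hg
    refine ⟨π ⟨s, FM (RF hs)⟩, (rl _).2 ⟨_, hs, rfl⟩, (zl _).2
      ⟨g⁻¹ * ⁅b, (⟨s, FM (RF hs)⟩ : Ms A P)⁆, hz, ?_⟩⟩
    rw [map_mul, map_inv, map_commutatorElement]

end Cfsg.Agent.H89.CyQ3
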