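import Cfsg.Agent.H56.SpDefs

/-! Project CY, chapter SP, piece OD: the normaliser of a line group has odd index. -/

set_option autoImplicit false
set_option linter.unusedVariables false

namespace Cfsg.Agent.H89.CySpOd

open Subgroup MulAction Cfsg.Agent.H11.Cy Cfsg.Agent.H56.Sp
open Cfsg.Agent.H45.Iv (Fx Sub Ms)

theorem semi_dvd {G : Type} [Group G] [Finite G] {Ω : Type} [Finite Ω] [MulAction G Ω]
    (P : Subgroup G) (Φ : Set Ω) (hinv : ∀ g ∈ P, ∀ w ∈ Φ, g • w ∈ Φ)
    (hs : ∀ g ∈ P, ∀ w ∈ Φ, g • w = w → g = 1) : Nat.card P ∣ Φ.ncard := by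
  let S : SubMulAction P Ω := ⟨Φ, fun g w hw => hinv g g.2 w hw⟩
  have h1 : ∀ b : S, stabilizer P b = ⊥ := by
    intro b
    refine (eq_bot_iff_forall _).2 fun g hg => Subtype.ext (hs g g.2 b b.2 ?_)
    exact congrArg Subtype.val hg
  have e := Nat.card_congr (MulAction.selfEquivOrbitsQuotientProd h1)
  rw [Nat.card_prod] at e
  have e2 : Nat.card S = Φ.ncard := Nat.card_coe_set_eq Φ
  rw [← e2, e]
  exact Dvd.intro_left _ rfl

theorem ncard_off {Ω : Type} [Finite Ω] (Φ : Set Ω) :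
    Φ.offDiag.ncard = Φ.ncard * (Φ.ncard - 1) := by
  classical
  obtain ⟨s, rfl⟩ := (Set.toFinite Φ).exists_finset_coe
  rw [← Finset.coe_offDiag, Set.ncard_coe_finset, Set.ncard_coe_finset, Finset.offDiag_card,
    Nat.mul_sub_one]

theorem card_tr2 {G : Type} [Group G] [Finite G] {Ω : Type} [Finite Ω] [MulAction G Ω]
    (X : Subgroup G) (Φ : Set Ω) (hinv : ∀ g ∈ X, ∀ w ∈ Φ, g • w ∈ Φ) (tr : Tr2 X Φ) {x y : Ω}
    (hx : x ∈ Φ) (hy : y ∈ Φ) (hxy : x ≠ y) (hH : Hs G x y ≤ X) :
    Nat.card X = Φ.ncard * (Φ.ncard - 1) * Nat.card (Hs G x y) := by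
  have e1 : orbit X (x, y) = Φ.offDiag := by
    ext ⟨u, v⟩
    constructor
    · rintro ⟨g, hg⟩
      have h1 : (g : G) • x = u := congrArg Prod.fst hg
      have h2 : (g : G) • y = v := congrArg Prod.snd hg
      refine ⟨h1 ▸ hinv g g.2 x hx, h2 ▸ hinv g g.2 y hy, fun e => hxy ?_⟩
      have e' : u = v := e
      exact MulAction.injective (g : G) (h1.trans (e'.trans h2.symm))
    · rintro ⟨hu, hv, huv⟩
      obtain ⟨g, hg, h1, h2⟩ := tr x hx y hy u hu v hv hxy huv
      exact ⟨⟨g, hg⟩, Prod.ext h1 h2⟩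
  have e2 : stabilizer X (x, y) = (Hs G x y).subgroupOf X := by
    ext g
    constructor
    · intro hg
      exact ⟨congrArg Prod.fst hg, congrArg Prod.snd hg⟩
    · rintro ⟨h1, h2⟩
      exact Prod.ext h1 h2
  have e3 := (stabilizer X (x, y)).index_mul_card
  rw [index_stabilizer, e1, ncard_off, e2,
    Nat.card_congr (subgroupOfEquivOfLe hH).toEquiv] at e3
  exact e3.symm

theorem od : OdStmt := by
  intro G _ _ Ω _ _ p A h hy x y hxy
  have ep := hy.mc.ep
  have lf := hy.lf x y hxy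
  have hodd : p % 2 = 1 := h.pp.eq_two_or_odd.resolve_left hy.mc.p2
  have hp2 := h.pp.two_le
  have hH : Hs G x y ≤ Nl A x y := by
    intro g hg
    refine mem_normalizer_fintype fun n hn => ?_
    have key : Fl A x y ≤ (Fl A x y).comap (MulAut.conj g).toMonoidHom := by
      refine sup_le (fun a ha => ?_) (fun a ha => ?_)
      · have := h.eqv g x a ha
        rw [show g • x = x from hg.1] at this
        exact (le_sup_left : A x ≤ Fl A x y) this
      · have := h.eqv g y a ha
        rw [show g • y = y from hg.2] at this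
        exact (le_sup_right : A y ≤ Fl A x y) this
    exact key hn
  have cG := card_tr2 (⊤ : Subgroup G) Set.univ (fun _ _ _ _ => trivial) h.two trivial trivial hxy
    le_top
  rw [Set.ncard_univ, card_top] at cG
  have cN := card_tr2 (Nl A x y) (Ln A x y) (fun g hg => (ep.nrm x y hxy g).1 hg) (ep.tr x y hxy)
    lf.mem.1 lf.mem.2 hxy hH
  rw [lf.ln, Nat.add_sub_cancel] at cN
  have e0 : Nat.card Ω * (Nat.card Ω - 1) = p * (p + 1) * (Nl A x y).index := by
    have e := (Nl A x y).index_mul_card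
    rw [cG, cN] at e
    refine Nat.eq_of_mul_eq_mul_right (Nat.card_pos (α := Hs G x y)) ?_
    rw [← e]
    ring
  have e1 : p ∣ Nat.card Ω - 1 := by
    have := semi_dvd (A x) ({x}ᶜ : Set Ω) (fun g hg w hw e => hw (by
      have e' : g • w = x := e
      exact MulAction.injective g (e'.trans (h.fix x g hg).symm)))
      (fun g hg w hw e => (h.semi x w g hg e).resolve_right hw)
    rwa [h.card x, Set.ncard_compl, Set.ncard_singleton] at this
  refine ⟨?_, e0, e1⟩
  obtain ⟨b, m, hm, hb⟩ := Nat.exists_eq_two_pow_mul_odd (n := p + 1) (by omega)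
  have hdvd : 2 ^ (b + 1) ∣ Nat.card (Fl A x y) := by
    rw [lf.crd]
    obtain ⟨q, rfl⟩ : ∃ q, p = 2 * q + 1 := ⟨p / 2, by omega⟩
    have e : (2 * q + 1) ^ 2 - 1 = (2 * q + 1 + 1) * (2 * q) := by
      have : (2 * q + 1) ^ 2 = (2 * q + 1 + 1) * (2 * q) + 1 := by ring
      omega
    rw [e, hb]
    exact Dvd.intro ((2 * q + 1) * m * q) (by ring)
  obtain ⟨K, hK⟩ := Sylow.exists_subgroup_card_pow_prime 2 hdvd
  have hKF : K.map (Fl A x y).subtype ≤ Fl A x y := map_subtype_le _
  have cK : Nat.card (K.map (Fl A x y).subtype) = 2 ^ (b + 1) := by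
    rw [card_map_of_injective (Fl A x y).subtype_injective, hK]
  have e2 := semi_dvd (K.map (Fl A x y).subtype) (Ln A x y)ᶜ (by
      intro g hg w hw e
      have := (ep.nrm x y hxy g⁻¹).1 (inv_mem (le_normalizer (hKF hg))) _ e
      rw [inv_smul_smul] at this
      exact hw this) (by
      intro g hg w hw e
      by_contra g1
      have ho : orderOf g ∣ 2 ^ (b + 1) := cK ▸ orderOf_dvd_natCard _ hg
      obtain ⟨j, -, hj⟩ := (Nat.dvd_prime_pow Nat.prime_two).1 ho
      have h2 : 2 ∣ orderOf g := by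
        rw [hj]
        refine dvd_pow_self 2 fun j0 => g1 ?_
        rw [j0, pow_zero] at hj
        exact orderOf_eq_one_iff.1 hj
      have hz : orderOf (g ^ (orderOf g / 2)) = 2 :=
        orderOf_pow_orderOf_div (orderOf_pos g).ne' h2
      have hZ : IsZ A x y (g ^ (orderOf g / 2)) := by
        refine ⟨pow_mem (hKF hg) _, fun e => ?_, ?_⟩
        · rw [e, orderOf_one] at hz
          exact absurd hz (by decide)
        · have := pow_orderOf_eq_one (g ^ (orderOf g / 2))
          rwa [hz, pow_two] at this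
      have hw' : w ∈ Fx Ω (g ^ (orderOf g / 2)) := pow_mem (show g ∈ stabilizer G w from e) _
      rw [hy.fz x y hxy _ hZ] at hw'
      exact hw hw')
  rw [cK, Set.ncard_compl, lf.ln] at e2
  have hle : p + 1 ≤ Nat.card Ω := by
    rw [← lf.ln]
    exact Set.ncard_le_card _
  obtain ⟨t, ht⟩ := e2
  have hn : Nat.card Ω = 2 ^ b * (m + 2 * t) := by
    have : Nat.card Ω = p + 1 + 2 ^ (b + 1) * t := by omega
    rw [this, hb]
    ring
  have hev : Even (Nat.card Ω) := by
    have h1 : Nat.card Ω = p + 1 + 2 * (2 ^ b * t) := by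
      have : 2 ^ (b + 1) * t = 2 * (2 ^ b * t) := by ring
      omega
    exact ⟨(p + 1) / 2 + 2 ^ b * t, by omega⟩
  have hn1 : Odd (Nat.card Ω - 1) := Nat.Even.sub_odd (by omega) hev odd_one
  have e3 : (m + 2 * t) * (Nat.card Ω - 1) = p * m * (Nl A x y).index := by
    refine Nat.eq_of_mul_eq_mul_left (pow_pos two_pos b) ?_
    rw [← mul_assoc, ← hn, e0, hb]
    ring
  have ho : Odd ((m + 2 * t) * (Nat.card Ω - 1)) := (hm.add_even (even_two_mul t)).mul hn1
  rw [e3] at ho
  exact (Nat.odd_mul.1 ho).2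

end Cfsg.Agent.H89.CySpOd
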