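import Cfsg.Agent.H98.GbH

/-! Project GB, piece DER: `perp` by a primitive function is a derivation. -/

set_option autoImplicit false

namespace Cfsg.Agent.H89.GbDer

open Cfsg Finset Cfsg.Agent.H98.GB
open scoped MatrixGroups

universe u

variable {F : Type u} [Field F] [Fintype F] [DecidableEq F]

/-- `perp1` as an additive map -/
noncomputable def pA {m k n : ℕ} (h : m + k = n) (P : GL (Fin m) F → ℂ) :
    (GL (Fin n) F → ℂ) →+ (GL (Fin k) F → ℂ) where
  toFun := perp1 h P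
  map_zero' := by
    funext v
    simp [perp1, res, classInner]
  map_add' f f' := by
    funext v
    simp only [perp1, res, classInner, Pi.add_apply, sum_add_distrib, mul_add, add_mul]

omit [Fintype F] [DecidableEq F] in
theorem stdS_ne {m k n : ℕ} (h : m + k = n) (hm : 0 < m) : stdS F n m ≠ ⊥ := by
  intro e
  have h0 : 0 < n := by omega
  have h1 : (Pi.single ⟨0, h0⟩ 1 : Fin n → F) ∈ stdS F n m := fun i hi =>
    Pi.single_eq_of_ne (fun e => by rw [e] at hi; simp at hi; omega) _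
  rw [e, Submodule.mem_bot] at h1
  simpa using congrFun h1 ⟨0, h0⟩

theorem cmp_split (η : Fˣ →* ℂˣ) {a b n : ℕ} (h : a + b = n) (f : GL (Fin a) F → ℂ)
    (f' : GL (Fin b) F → ℂ) (S₁ S₂ S₃ : GL (Fin n) F → Prop)
    (hS : ∀ x, (S₁ x ∧ ¬ S₂ x ∧ ¬ S₃ x) ∨ (¬ S₁ x ∧ S₂ x ∧ ¬ S₃ x) ∨ (¬ S₁ x ∧ ¬ S₂ x ∧ S₃ x)) :
    cmp η h f f' = cmpS S₁ η h f f' + cmpS S₂ η h f f' + cmpS S₃ η h f f' := by
  funext g
  rw [Pi.add_apply, Pi.add_apply]
  unfold H98.GB.cmp cmpS
  rw [← mul_add, ← mul_add, ← sum_add_distrib, ← sum_add_distrib]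
  refine congrArg _ (sum_congr rfl fun x _ => ?_)
  rw [← sum_add_distrib, ← sum_add_distrib]
  refine sum_congr rfl fun u _ => ?_
  rw [← sum_add_distrib, ← sum_add_distrib]
  refine sum_congr rfl fun c _ => ?_
  rw [← sum_add_distrib, ← sum_add_distrib]
  refine sum_congr rfl fun v _ => ?_
  rcases hS x with ⟨h1, h2, h3⟩ | ⟨h1, h2, h3⟩ | ⟨h1, h2, h3⟩ <;>
    simp only [h1, h2, h3, true_and, false_and, if_false, add_zero, zero_add]

theorem der (h0 : DER0Stmt.{u}) (h1 : DER1Stmt.{u}) (h2 : DER2Stmt.{u}) : DERStmt.{u} := by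
  intro F _ _ _ η m P x y hP tP tx ty
  funext k
  have hU : stdS F (m + k) m ≠ ⊥ := stdS_ne rfl hP.1
  have e0 : perp m P (mul η x y) k = ∑ ab : antidiagonal (m + k),
      (perp1 rfl P (cmpS (fun z => stdS F (m + k) m ≤ imS ab.1.1 z) η
        (mem_antidiagonal.1 ab.2) (x ab.1.1) (y ab.1.2)) +
      perp1 rfl P (cmpS (fun z => stdS F (m + k) m ⊓ imS ab.1.1 z = ⊥) η
        (mem_antidiagonal.1 ab.2) (x ab.1.1) (y ab.1.2))) := by
    show pA rfl P (∑ ab : antidiagonal (m + k), _) = _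
    rw [map_sum]
    refine sum_congr rfl fun ab _ => ?_
    rw [cmp_split η _ _ _ (fun z => stdS F (m + k) m ≤ imS ab.1.1 z)
      (fun z => stdS F (m + k) m ⊓ imS ab.1.1 z = ⊥)
      (fun z => ¬ stdS F (m + k) m ≤ imS ab.1.1 z ∧ stdS F (m + k) m ⊓ imS ab.1.1 z ≠ ⊥), map_add,
      map_add]
    · have := h0 F η ab.1.1 ab.1.2 m k (m + k) (mem_antidiagonal.1 ab.2) rfl P (x ab.1.1) (y ab.1.2)
        hP tP
      change perp1 _ _ _ + perp1 _ _ _ + perp1 _ _ _ = _
      rw [this, add_zero]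
    · intro z
      by_cases a1 : stdS F (m + k) m ≤ imS ab.1.1 z
      · have a2 : ¬ stdS F (m + k) m ⊓ imS ab.1.1 z = ⊥ := by rwa [inf_of_le_left a1]
        exact Or.inl ⟨a1, a2, fun h => h.1 a1⟩
      · by_cases a2 : stdS F (m + k) m ⊓ imS ab.1.1 z = ⊥
        · exact Or.inr (Or.inl ⟨a1, a2, fun h => h.2 a2⟩)
        · exact Or.inr (Or.inr ⟨a1, a2, a1, a2⟩)
  rw [e0, sum_add_distrib, Pi.add_apply]
  congr 1
  · symm
    refine Fintype.sum_of_injective (fun ab : antidiagonal k => (⟨(m + ab.1.1, ab.1.2), by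
      have := mem_antidiagonal.1 ab.2
      rw [HasAntidiagonal.mem_antidiagonal]; simp only; omega⟩ : antidiagonal (m + k))) ?_ _ _ ?_ ?_
    · intro p q e
      have e1 := congrArg (fun r : antidiagonal (m + k) => r.1.1) e
      have e2 := congrArg (fun r : antidiagonal (m + k) => r.1.2) e
      simp only at e1 e2
      exact Subtype.ext (Prod.ext (by omega) e2)
    · rintro ⟨⟨a, b⟩, hab⟩ hn
      have hab' : a + b = m + k := mem_antidiagonal.1 hab
      have ha : a < m := by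
        by_contra hc
        refine hn ⟨⟨(a - m, b), by rw [HasAntidiagonal.mem_antidiagonal]; simp only; omega⟩, Subtype.ext ?_⟩
        simp only [Prod.mk.injEq, and_true]; omega
      rw [(h1 F η a b m k (m + k) hab' rfl P (x a) (y b) tP (tx a) (ty b)).2 ha]
      exact map_zero (pA rfl P)
    · rintro ⟨⟨a, b⟩, hab⟩
      exact ((h1 F η (m + a) b m k (m + k) _ rfl P (x (m + a)) (y b) tP (tx _) (ty b)).1 a rfl
        (mem_antidiagonal.1 hab)).symm
  · symm
    refine Fintype.sum_of_injective (fun ab : antidiagonal k => (⟨(ab.1.1, m + ab.1.2), by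
      have := mem_antidiagonal.1 ab.2
      rw [HasAntidiagonal.mem_antidiagonal]; simp only; omega⟩ : antidiagonal (m + k))) ?_ _ _ ?_ ?_
    · intro p q e
      have e1 := congrArg (fun r : antidiagonal (m + k) => r.1.1) e
      have e2 := congrArg (fun r : antidiagonal (m + k) => r.1.2) e
      simp only at e1 e2
      exact Subtype.ext (Prod.ext e1 (by omega))
    · rintro ⟨⟨a, b⟩, hab⟩ hn
      have hab' : a + b = m + k := mem_antidiagonal.1 hab
      have hb : b < m := by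
        by_contra hc
        refine hn ⟨⟨(a, b - m), by rw [HasAntidiagonal.mem_antidiagonal]; simp only; omega⟩, Subtype.ext ?_⟩
        simp only [Prod.mk.injEq, true_and]; omega
      rw [(h2 F η a b m k (m + k) hab' rfl P (x a) (y b) tP (tx a) (ty b)).2 hb]
      exact map_zero (pA rfl P)
    · rintro ⟨⟨a, b⟩, hab⟩
      exact ((h2 F η a (m + b) m k (m + k) _ rfl P (x a) (y (m + b)) tP (tx a) (ty _)).1 b rfl
        (mem_antidiagonal.1 hab)).symm

end Cfsg.Agent.H89.GbDer
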