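import Cfsg.Agent.H89.L27Geo

/-! Assembly: a subgroup of `E₈(3)` with generalized Fitting subgroup `L₂(7)` is not maximal. -/

set_option autoImplicit false

namespace Cfsg.Agent.H89.L27

open Equiv Cfsg.Lie H37 H40 H34 H29 Module Cfsg.Agent.H50.E83
open scoped MatrixGroups

universe u

theorem fx_eq (ψ : S7 →* G0) (L : List S7) (S : Set GK) (h : ∀ g, g ∈ S ↔ ∃ a ∈ L, ι (ψ a) = g) :
    Fx (act.comp (ι.comp ψ)) L = H50.E83.Fix S := by
  ext v
  rw [mem_Fx, mem_Fix]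
  exact ⟨fun h1 g hg => by obtain ⟨a, ha, rfl⟩ := (h g).1 hg; exact h1 a ha,
    fun h1 a ha => h1 _ ((h _).2 ⟨a, ha, rfl⟩)⟩

theorem fx_two (ψ : S7 →* G0) (a b : S7) :
    Fx (act.comp (ι.comp ψ)) [a, b] = H50.E83.Fix {ι (ψ a), ι (ψ b)} :=
  fx_eq ψ _ _ fun g => ⟨by
    rintro (rfl | rfl)
    exacts [⟨a, List.mem_cons_self, rfl⟩, ⟨b, List.mem_cons_of_mem _ List.mem_cons_self, rfl⟩], by
    rintro ⟨c, hc, rfl⟩
    rcases List.mem_pair.1 hc with rfl | rfl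
    exacts [Or.inl rfl, Or.inr rfl]⟩

theorem fx_one (ψ : S7 →* G0) (a : S7) : Fx (act.comp (ι.comp ψ)) [a] = eig (ι (ψ a)) 1 := by
  ext v
  rw [mem_Fx, mem_eig, one_smul]
  exact ⟨fun h => h a List.mem_cons_self, fun h c hc => by rw [List.mem_singleton.1 hc]; exact h⟩

theorem fix_pos (kp : KapStmt) (dm : DimStmt) (iq : IneqStmt) (ψ : S7 →* G0)
    (hψ : ∀ g, ψ g = 1 ↔ g = 1 ∨ g = -1) (h38 : mu (ι (ψ ex)) 1 = 38) :
    0 < finrank K (H50.E83.Fix {ι (ψ es), ι (ψ ex)}) := by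
  refine Nat.pos_of_ne_zero fun h0 => ?_
  rw [Submodule.finrank_eq_zero] at h0
  obtain ⟨h1, B, h2, h3, h4⟩ := kp K
  have h5 := iq K V B (act.comp (ι.comp ψ)) h3 h4
    (fun g v w => by
      rw [h2, h2]
      exact (congrArg₂ kap (act_apply _ v) (act_apply _ w)).trans (h1 _ v w))
    ⟨by simp [(hψ _).2 (Or.inr rfl)], fun v a b => by
      have : v ∈ H50.E83.Fix {ι (ψ es), ι (ψ ex)} := mem_Fix.2 (by
        rintro g (rfl | rfl)
        exacts [a, b])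
      rwa [h0, Submodule.mem_bot] at this⟩
  have h6 := dm (ψ ey) (ψ es) (by rw [← map_pow, hψ]; decide) (by rw [← map_pow, Ne, hψ]; decide)
    (by rw [← map_pow, hψ]; decide) (by rw [← map_mul, ← map_pow, hψ]; decide)
    (by
      rw [← map_pow]
      exact ψ.map_isConj (isConj_iff.2 ⟨⟨!![0, 2; 3, 1], by decide⟩, by decide⟩))
    (by
      rw [← map_pow, ← map_mul]
      exact ψ.map_isConj (isConj_iff.2 ⟨⟨!![2, 1; 4, 6], by decide⟩, by decide⟩))
  rw [fx_one, fx_two, fx_two, fx_two, map_pow ψ, map_mul ψ] at h5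
  rw [mu] at h38
  omega

theorem final (kp : KapStmt) (bc : BcStmt) (c7 : C7Stmt) (ge : GeoStmt) (dm : DimStmt)
    (sc : Sc80Stmt) (ln : LineStmt) (eg : EigStmt) (em : EmbStmt.{u}) (au : AutStmt) (gn : GenStmt)
    (iq : IneqStmt) {F : Type u} [Field F] [Fintype F] (hF : Fintype.card F = 7) (H : Subgroup G0)
    (hH : Nonempty (generalizedFittingSubgroup H ≃* PSL(2, F))) : ¬ IsCoatom H := by
  intro hm
  obtain ⟨φ, hφ⟩ := em F hF H hH
  obtain ⟨a1, a2, a3⟩ := au H φ hφ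
  let ψ : S7 →* G0 := H.subtype.comp φ
  have hψ : ∀ g, ψ g = 1 ↔ g = 1 ∨ g = -1 := fun g => by
    rw [← hφ.1]; exact OneMemClass.coe_eq_one
  have hx : ψ ex ≠ 1 := by rw [Ne, hψ]; decide
  obtain ⟨l1, l2⟩ := ln H hm fun e => hx (Subgroup.mem_bot.1 (e ▸ (φ ex).2))
  obtain ⟨Z, z1, z2, z3⟩ := eg H (act0.comp H.subtype) φ.range hφ.2.1 (by omega)
    (Fix0 {ψ es, ψ ex}) (fun v => by
      rw [mem_Fix0]
      refine ⟨?_, fun h => ?_⟩
      · rintro h _ ⟨g, rfl⟩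
        have hg : g ∈ Subgroup.closure {es, ex} := by rw [gn]; trivial
        show act0 (ψ g) v = v
        induction hg using Subgroup.closure_induction with
        | mem a ha =>
          rcases ha with rfl | rfl
          exacts [h _ (Or.inl rfl), h _ (Or.inr rfl)]
        | one => rw [map_one, map_one]; rfl
        | mul a b _ _ ha hb => rw [map_mul, map_mul, Module.End.mul_apply, hb, ha]
        | inv a _ ha =>
          conv_lhs => rw [← ha]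
          rw [← Module.End.mul_apply, ← map_mul, ← map_mul, inv_mul_cancel, map_one, map_one]
          rfl
      · rintro _ (rfl | rfl)
        exacts [h _ ⟨es, rfl⟩, h _ ⟨ex, rfl⟩])
  have z4 : ∀ v ∈ Z, ∀ h ∈ H, act0 h v = v ∨ act0 h v = -v := fun v hv h hh => z3 v hv ⟨h, hh⟩
  have b1 := bc.1 {ψ es, ψ ex}
  rw [Set.image_pair] at b1
  obtain ⟨ζ, hζ⟩ : ∃ ζ : Kˣ, IsPrimitiveRoot ζ 7 := by
    have : NeZero ((7 : ℕ) : K) := ⟨by rw [Ne, CharP.cast_eq_zero_iff K 3]; decide⟩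
    obtain ⟨z, hz⟩ := HasEnoughRootsOfUnity.exists_primitiveRoot K 7
    exact ⟨(hz.isUnit (by norm_num)).unit, IsPrimitiveRoot.coe_units_iff.1 (by simpa using hz)⟩
  rcases c7 (ψ ex) ζ hζ (by rw [← map_pow, hψ]; decide) hx with h80 | ⟨h38, h, hc, hl⟩
  · have := sc (ψ es) (ψ ex) (by rw [← map_pow, hψ]; decide) (by rw [Ne, hψ]; decide)
      (by rw [← map_mul, ← map_pow, hψ]; decide) h80
    have := l2 a2 Z z4
    omega
  · have := fix_pos kp dm iq ψ hψ h38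
    obtain ⟨v, hv, hv0⟩ := Submodule.exists_mem_ne_zero_of_ne_bot
      (p := Z) fun e => by rw [e, finrank_bot] at z1; omega
    obtain ⟨y, y1, y2, y3⟩ := ge (ψ ex) ζ h hζ hl hc v (mem_Fix0.1 (z2 hv) _ (Or.inr rfl))
    obtain ⟨j, hj⟩ := Subgroup.mem_zpowers_iff.1
      (a1 ⟨y, l1 v hv0 (z4 v hv) y y2⟩ (Subtype.ext y1.eq))
    exact y3 (Subgroup.mem_zpowers_iff.2 ⟨j, congrArg Subtype.val hj⟩)

end Cfsg.Agent.H89.L27
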