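import Cfsg.Agent.H89.L27Defs

/-! An element of order seven with fixed space of dimension `38`: every fixed vector is fixed by an
element of the centraliser outside the cyclic group. -/

set_option autoImplicit false

namespace Cfsg.Agent.H89.L27

open Equiv Cfsg.Lie H37 H40 H34 H29 Module Cfsg.Agent.H50.E83

theorem act_mul (a b : GK) (v : V) : act (a * b) v = act a (act b v) := by
  rw [map_mul]; rfl

theorem act_inv_act (a : GK) (v : V) : act a⁻¹ (act a v) = v := by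
  rw [← act_mul, inv_mul_cancel, map_one]; rfl

theorem act_act_inv (a : GK) (v : V) : act a (act a⁻¹ v) = v := by
  rw [← act_mul, mul_inv_cancel, map_one]; rfl

theorem σG_lab {ζ : Kˣ} {h : GK} {f : Rt → ℤ} (hl : Lab C8 ζ h f) : σG h = h ^ 3 := by
  obtain ⟨-, c, rfl, -⟩ := hl
  rw [σG, C8.fieldHom_tg_pow fr_apply, map_pow]

theorem exists_fix (kp : KapStmt) (bc : BcStmt) (tu : TwUStmt) (tt : TwTStmt) (ds : DistStmt)
    (ac : ActStmt) (cn : CntStmt) {ζ : Kˣ} {h n : GK} (hζ : IsPrimitiveRoot ζ 7)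
    (hl : Lab C8 ζ h f7) (hn : n ∈ P8.N) (hs : Sw (P8.ν n)) {v : V} (hv : v ∈ eig h 1)
    (hv' : act n (σV v) = v) :
    ∃ z ∈ AG, z ≠ 1 ∧ n * σG z * n⁻¹ = z ∧ act z v = v := by
  classical
  obtain ⟨⟨YU, hU, hU'⟩, YV, hV, hV'⟩ := tu n hn hs
  obtain ⟨YT, hT, hT'⟩ := tt n hn hs
  let m : GK × GK × GK → GK := fun p => p.1 * p.2.1 * p.2.2
  have hm : ∀ p ∈ YV ×ˢ YT ×ˢ YU, m p ∈ AG ∧ n * σG (m p) * n⁻¹ = m p := fun p hp => by
    simp only [Finset.mem_product] at hp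
    obtain ⟨a1, -, a2⟩ := hV' _ hp.1
    obtain ⟨b1, -, b2⟩ := hT' _ hp.2.1
    obtain ⟨c1, -, c2⟩ := hU' _ hp.2.2
    refine ⟨mul_mem (mul_mem a1 b1) c1, ?_⟩
    simp only [m, map_mul]
    conv_rhs => rw [← a2, ← b2, ← c2]
    group
  have hc := cn n hn hs v hv' ((YV ×ˢ YT ×ˢ YU).image fun p => act (m p) v) (fun w hw => by
    obtain ⟨p, hp, rfl⟩ := Finset.mem_image.1 hw
    obtain ⟨h1, h2⟩ := hm p hp
    refine ⟨(ac ζ h hζ hl _ h1).2.1 v hv, ?_, ?_⟩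
    · rw [bc.2.2.1, ← act_mul]
      conv_rhs => rw [← h2, ← hv', act_mul, act_inv_act, act_mul]
      rw [act_mul]
    · rw [act_apply]
      exact (kp K).1 _ v v)
  have hlt : ((YV ×ˢ YT ×ˢ YU).image fun p => act (m p) v).card < (YV ×ˢ YT ×ˢ YU).card := by
    rw [Finset.card_product, Finset.card_product]
    have : 27 * (8 * 27) ≤ YV.card * (YT.card * YU.card) :=
      Nat.mul_le_mul hV (Nat.mul_le_mul hT hU)
    omega
  obtain ⟨p, hp, q, hq, hne, e⟩ := Finset.exists_ne_map_eq_of_card_lt_of_maps_to hlt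
    (f := fun p => act (m p) v) fun p hp => Finset.mem_image_of_mem _ hp
  obtain ⟨h1, h2⟩ := hm p hp
  obtain ⟨h3, h4⟩ := hm q hq
  refine ⟨(m q)⁻¹ * m p, mul_mem (inv_mem h3) h1, fun e1 => hne ?_, ?_, ?_⟩
  · simp only [Finset.mem_product] at hp hq
    obtain ⟨e2, e3, e4⟩ := ds _ (hV' _ hq.1).2.1 _ (hV' _ hp.1).2.1 _ (hT' _ hq.2.1).2.1 _
      (hT' _ hp.2.1).2.1 _ (hU' _ hq.2.2).2.1 _ (hU' _ hp.2.2).2.1 (inv_mul_eq_one.1 e1)
    exact Prod.ext e2.symm (Prod.ext e3.symm e4.symm)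
  · rw [map_mul, map_inv]
    conv_rhs => rw [← h2, ← h4]
    group
  · rw [act_mul, show act (m p) v = act (m q) v from e, act_inv_act]

theorem geo (kp : KapStmt) (bc : BcStmt) (w1 : W1Stmt) (cj : ConjStmt) (tu : TwUStmt)
    (tt : TwTStmt) (ds : DistStmt) (ac : ActStmt) (cn : CntStmt) : GeoStmt := by
  intro x ζ h hζ hl hc v hv
  obtain ⟨w, hw, hf, hs⟩ := w1
  obtain ⟨n, hn, rfl⟩ := P8.exists_lift hw
  obtain ⟨k₀, hk₀⟩ : ∃ k : GK, k⁻¹ * σG k = n := C8.lang_field (q := 3) (by norm_num) fr_apply n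
  have h3 : n⁻¹ * h * n = h ^ 3 :=
    ((hl.conj hn).eq_iff (hl.pow 3)).2 fun r => (zpow_eq_iff hζ).2 (by
      rw [hf r, Int.cast_mul, Int.cast_natCast, Nat.cast_ofNat])
  have hfix : n * σG h * n⁻¹ = h := by rw [σG_lab hl, ← h3]; group
  obtain ⟨x₁, hx₁⟩ := (bc.2.2.2.2.2 _).1 ((fix_conj_iff σG hk₀ h).2 hfix)
  have h7 : x₁ ^ 7 = 1 := ι_injective (by
    rw [map_pow, hx₁, conj_pow, hl.pow_eq_one hζ, map_one]; group)
  obtain ⟨g, hg⟩ := isConj_iff.1 (cj x₁ x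
    (Nat.Coprime.coprime_dvd_left (orderOf_dvd_of_pow_eq_one h7) (by norm_num))
    ((isConj_iff.2 ⟨k₀, hx₁.symm⟩).symm.trans hc))
  obtain ⟨k, hk, hx⟩ : ∃ k : GK, k⁻¹ * σG k = n ∧ k * h * k⁻¹ = ι x :=
    ⟨ι g * k₀, by rw [map_mul, (bc.2.2.2.2.2 _).2 ⟨g, rfl⟩, ← hk₀]; group,
      by rw [← hg, map_mul, map_mul, map_inv, hx₁]; group⟩
  have hxv : act (ι x) (up v) = up v := by rw [bc.2.1, hv]
  obtain ⟨z, hz, hz1, hz2, hz3⟩ := exists_fix kp bc tu tt ds ac cn hζ hl hn hs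
    (v := act k⁻¹ (up v)) (by
      rw [mem_eig, one_smul, ← act_mul, show h * k⁻¹ = k⁻¹ * ι x by rw [← hx]; group, act_mul, hxv])
    (by rw [bc.2.2.1, bc.2.2.2.1, ← act_mul, ← hk, map_inv, mul_inv_cancel_right])
  obtain ⟨y, hy⟩ := (bc.2.2.2.2.2 _).1 ((fix_conj_iff σG hk z).2 hz2)
  obtain ⟨a1, -, a3⟩ := ac ζ h hζ hl z hz
  refine ⟨y, ι_injective ?_, bc.2.2.2.2.1 ?_, fun hm => hz1 (a3 ?_)⟩
  · rw [map_mul, map_mul, hy, ← hx]
    calc _ = k * (z * h) * k⁻¹ := by group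
      _ = _ := by rw [← a1.eq]; group
  · rw [← bc.2.1, hy, act_mul, act_mul, hz3, act_act_inv]
  · obtain ⟨j, hj⟩ := Subgroup.mem_zpowers_iff.1 hm
    refine Subgroup.mem_zpowers_iff.2 ⟨j, ?_⟩
    have := congrArg ι hj
    rw [map_zpow, hy, ← hx, conj_zpow] at this
    exact mul_left_cancel (mul_right_cancel this)

end Cfsg.Agent.H89.L27
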