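import Cfsg.Agent.H46.L40Defs
import Cfsg.Agent.S1754
import Cfsg.Agent.H52.FStar

/-! Project L40, piece WR: the wreath product case. -/

set_option autoImplicit false

namespace Cfsg.Agent.H89.L40Wr

open Subgroup Cfsg

universe u

variable {G : Type u} [Group G]

/-- `(a, b) ↦ a · b^t` -/
def pr (Y : Subgroup G) (t : G) (hc : ∀ a ∈ Y, ∀ b ∈ Y, a * (t * b * t⁻¹) = t * b * t⁻¹ * a) :
    Y × Y →* G where
  toFun p := p.1 * (t * p.2 * t⁻¹)
  map_one' := by simp
  map_mul' p q := by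
    have h := hc q.1 q.1.2 p.2 p.2.2
    simp only [Prod.fst_mul, Prod.snd_mul, Subgroup.coe_mul]
    calc (p.1 : G) * q.1 * (t * (p.2 * q.2) * t⁻¹)
        = p.1 * (q.1 * (t * p.2 * t⁻¹)) * (t * q.2 * t⁻¹) := by group
      _ = _ := by rw [h]; group

theorem pr_apply (Y : Subgroup G) (t : G)
    (hc : ∀ a ∈ Y, ∀ b ∈ Y, a * (t * b * t⁻¹) = t * b * t⁻¹ * a) (p : Y × Y) :
    pr Y t hc p = p.1 * (t * p.2 * t⁻¹) := rfl

theorem wr : Cfsg.Agent.H46.L40.WrS.{u} := by
  intro G _ _ _ L Y t hL t2 hs na ⟨e⟩ hc0 hi0 hE hC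
  have tt : t * t = 1 := by rw [← pow_two, ← t2, pow_orderOf_eq_one]
  have ti : t⁻¹ = t := inv_eq_of_mul_eq_one_right tt
  have mY : ∀ b ∈ Y, t * b * t⁻¹ ∈ Y.map (MulAut.conj t).toMonoidHom := fun b hb => ⟨b, hb, rfl⟩
  have hc : ∀ a ∈ Y, ∀ b ∈ Y, a * (t * b * t⁻¹) = t * b * t⁻¹ * a :=
    fun a ha b hb => hc0 a ha _ (mY b hb)
  have hi : ∀ a ∈ Y, ∀ b ∈ Y, a = t * b * t⁻¹ → a = 1 := fun a ha b hb h => by
    have : a ∈ Y ⊓ Y.map (MulAut.conj t).toMonoidHom := ⟨ha, h ▸ mY b hb⟩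
    rwa [hi0, mem_bot] at this
  set φ := pr Y t hc with hφ
  have φa : ∀ p : Y × Y, φ p = p.1 * (t * p.2 * t⁻¹) := fun p => rfl
  have φi : Function.Injective φ := by
    rw [injective_iff_map_eq_one]
    intro p hp
    rw [φa] at hp
    have h1 : (p.1 : G) = t * (p.2 : G)⁻¹ * t⁻¹ := by
      rw [eq_inv_of_mul_eq_one_left hp]; group
    have h2 := hi _ p.1.2 _ (inv_mem p.2.2) h1
    rw [h2] at hp
    have h3 : (p.2 : G) = 1 := by
      calc (p.2 : G) = t⁻¹ * (1 * (t * p.2 * t⁻¹)) * t := by group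
        _ = 1 := by rw [hp]; group
    exact Prod.ext (Subtype.ext h2) (Subtype.ext h3)
  have φr : φ.range = layer G := by
    rw [← hE]
    apply le_antisymm
    · rintro _ ⟨p, rfl⟩
      rw [φa]
      exact mul_mem (mem_sup_left p.1.2) (mem_sup_right (mY _ p.2.2))
    · apply sup_le
      · intro a ha
        exact ⟨(⟨a, ha⟩, 1), by simp [φa]⟩
      · rintro _ ⟨b, hb, rfl⟩
        exact ⟨(1, ⟨b, hb⟩), by simp [φa]⟩
  let δ : Y →* G := φ.comp ((MonoidHom.id Y).prod (MonoidHom.id Y))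
  have δa : ∀ a : Y, δ a = a * (t * a * t⁻¹) := fun a => rfl
  have δp : ∀ a : Y, δ a = φ (a, a) := fun a => rfl
  have δi : Function.Injective δ := fun a b h => congrArg Prod.fst (φi (show φ (a, a) = φ (b, b) from h))
  have sw : ∀ a b : Y, t * φ (a, b) * t⁻¹ = φ (b, a) := fun a b => by
    rw [φa, φa, hc _ b.2 _ a.2]
    calc t * ((a : G) * (t * b * t⁻¹)) * t⁻¹ = t * a * t * b * (t * t)⁻¹ := by group
      _ = _ := by rw [tt, ti]; group
  have dC : ∀ x, x ∈ δ.range ↔ x ∈ layer G ∧ t * x * t⁻¹ = x := fun x => by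
    constructor
    · rintro ⟨a, rfl⟩
      exact ⟨φr ▸ ⟨(a, a), rfl⟩, by rw [δp, sw]⟩
    · rintro ⟨h1, h2⟩
      rw [← φr] at h1
      obtain ⟨⟨a, b⟩, rfl⟩ := h1
      rw [sw] at h2
      have : b = a := congrArg Prod.fst (φi h2)
      exact ⟨a, by rw [δp, this]⟩
  have tL : t ∈ centralizer (L : Set G) := hC ▸ mem_zpowers t
  have En : (layer G).Normal := H52.layer_normal
  have lt : ∀ l ∈ L, t * l * t⁻¹ = l := fun l hl => by
    rw [← tL l hl]; group
  have LD : ∀ l ∈ L, ∀ d ∈ δ.range, l * d * l⁻¹ ∈ δ.range := fun l hl d hd => by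
    rw [dC] at hd ⊢
    refine ⟨En.conj_mem _ hd.1 _, ?_⟩
    calc t * (l * d * l⁻¹) * t⁻¹ = (t * l * t⁻¹) * (t * d * t⁻¹) * (t * l * t⁻¹)⁻¹ := by group
      _ = _ := by rw [lt l hl, hd.2]
  have DL : ∀ d ∈ δ.range, ∀ l ∈ L, d * l * d⁻¹ ∈ L := fun d hd l hl => by
    have h1 : d ∈ centralizer ({t} : Set G) := by
      rw [mem_centralizer_singleton_iff]
      have := ((dC d).1 hd).2
      calc d * t = t * d * t⁻¹ * t := by rw [this]
        _ = t * d := by group
    exact (mem_normalizer_iff.1 ((S1754.result L hL t t2 tL).1 h1) l).1 hl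
  have Ls : IsSimpleGroup L := e.symm.isSimpleGroup
  have nD : (δ.range.subgroupOf L).Normal := ⟨fun n hn g => by
    rw [mem_subgroupOf] at hn ⊢
    exact LD g g.2 n hn⟩
  have LeD : L = δ.range := by
    rcases nD.eq_bot_or_eq_top with h | h
    · exfalso
      apply na
      have hd : ∀ d ∈ δ.range, d ∈ zpowers t := fun d hd => by
        rw [← hC, mem_centralizer_iff]
        intro l hl
        have h1 : l * d * l⁻¹ * d⁻¹ ∈ L := by
          have := mul_mem hl (DL d hd l⁻¹ (inv_mem hl))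
          convert this using 1; group
        have h2 : (⟨_, h1⟩ : L) ∈ δ.range.subgroupOf L := by
          rw [mem_subgroupOf]
          exact mul_mem (LD l hl d hd) (inv_mem hd)
        rw [h, mem_bot] at h2
        have h3 : l * d * l⁻¹ * d⁻¹ = 1 := congrArg Subtype.val h2
        calc l * d = l * d * l⁻¹ * d⁻¹ * (d * l) := by group
          _ = d * l := by rw [h3, one_mul]
      refine ⟨⟨fun a b => δi ?_⟩⟩
      obtain ⟨i, hi⟩ := hd _ ⟨a, rfl⟩
      obtain ⟨j, hj⟩ := hd _ ⟨b, rfl⟩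
      rw [map_mul, map_mul, ← hi, ← hj]
      exact zpow_mul_comm t i j
    · apply eq_of_le_of_card_ge (subgroupOf_eq_top.1 h)
      rw [← Nat.card_congr e.toEquiv, ← Nat.card_congr (MonoidHom.ofInjective δi).toEquiv]
  have LE : L ≤ layer G := fun l hl => ((dC l).1 (LeD ▸ hl)).1
  have YE : Y ≤ layer G := hE ▸ le_sup_left
  have cE : centralizer (layer G : Set G) = ⊥ := by
    rw [eq_bot_iff]
    intro x hx
    have h1 : x ∈ zpowers t := hC ▸ centralizer_le LE hx
    rw [mem_bot]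
    by_contra hne
    have h2 : x = t := by
      obtain ⟨i, rfl⟩ := h1
      rcases Int.even_or_odd' i with ⟨k, rfl | rfl⟩
      · exact absurd (show t ^ (2 * k) = 1 by rw [zpow_mul, zpow_two, tt, one_zpow]) hne
      · show t ^ (2 * k + 1) = t
        rw [zpow_add, zpow_mul, zpow_two, tt, one_zpow, one_mul, zpow_one]
    subst h2
    apply na
    have h3 : ∀ a : Y, a = 1 := fun a => Subtype.ext (hi _ a.2 _ a.2 (by
      rw [← hx a (YE a.2)]; group))
    exact ⟨⟨fun a b => by rw [h3 a, h3 b]⟩⟩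
  have fE : generalizedFittingSubgroup G = layer G :=
    le_antisymm (sup_le le_rfl ((commutator_eq_bot_iff_le_centralizer.1
      (H52.commutator_eq_bot_symm H52.commutator_layer_fitting)).trans (cE.le.trans bot_le)))
      H52.layer_le_fstar
  rw [fE]
  refine ⟨?_, ⟨(MulEquiv.subgroupCongr φr.symm).trans
    ((MonoidHom.ofInjective φi).symm.trans (e.prodCongr e))⟩⟩
  have YN : Y ≤ normalClosure (L : Set G) := by
    have nN : ((normalClosure (L : Set G)).subgroupOf Y).Normal := inferInstance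
    rcases nN.eq_bot_or_eq_top with h | h
    · exfalso
      apply na
      refine ⟨⟨fun a b => ?_⟩⟩
      have h1 : δ a ∈ normalClosure (L : Set G) := subset_normalClosure (LeD ▸ ⟨a, rfl⟩)
      have h2 : δ a * (b * (δ a)⁻¹ * (b : G)⁻¹) ∈ normalClosure (L : Set G) :=
        mul_mem h1 (normalClosure_normal.conj_mem _ (inv_mem h1) _)
      have h3 : δ a * (b * (δ a)⁻¹ * (b : G)⁻¹) = (a * b * a⁻¹ * b⁻¹ : Y) := by
        have := hc b b.2 a a.2
        rw [δa]
        push_cast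
        calc (a : G) * (t * a * t⁻¹) * (b * ((a : G) * (t * a * t⁻¹))⁻¹ * (b : G)⁻¹)
            = a * (t * a * t⁻¹ * b) * (t * a * t⁻¹)⁻¹ * (a : G)⁻¹ * (b : G)⁻¹ := by group
          _ = _ := by rw [← this]; group
      have h4 : (a * b * a⁻¹ * b⁻¹ : Y) ∈ (normalClosure (L : Set G)).subgroupOf Y := by
        rw [mem_subgroupOf, ← h3]; exact h2
      rw [h, mem_bot] at h4
      calc a * b = a * b * a⁻¹ * b⁻¹ * (b * a) := by group
        _ = b * a := by rw [h4, one_mul]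
    · exact subgroupOf_eq_top.1 h
  apply le_antisymm (normalClosure_le_normal LE)
  rw [← hE]
  apply sup_le YN
  rintro _ ⟨b, hb, rfl⟩
  exact normalClosure_normal.conj_mem _ (YN hb) t

end Cfsg.Agent.H89.L40Wr
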