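import Cfsg.Agent.H54.O84Defs

/-! An element of the Weyl group preserving `D₄ D₄` fixes or interchanges the two components. -/

set_option autoImplicit false

namespace Cfsg.Agent.H89.O84Half

open Equiv Cfsg.Lie H37 H40 H34 H29 Cfsg.Agent.H54.O84

theorem conn0 : ∀ r ∈ d0L, ∀ s ∈ d0L, ∃ t ∈ d0L, t < 240 ∧ pr r t ≠ 0 ∧ pr t s ≠ 0 := by
  decide +kernel

theorem conn1 : ∀ r ∈ d1L, ∀ s ∈ d1L, ∃ t ∈ d1L, t < 240 ∧ pr r t ≠ 0 ∧ pr t s ≠ 0 := by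
  decide +kernel

/-- A component. -/
def Comp (A : Set Rt) : Prop := A ⊆ Ψ0 ∧
  (∀ r ∈ A, ∀ s ∈ A, ∃ t ∈ A, C8.R.pair r t ≠ 0 ∧ C8.R.pair t s ≠ 0) ∧
  ∀ r ∈ A, ∀ s ∈ Ψ0, C8.R.pair r s ≠ 0 → s ∈ A

theorem comp0 : Comp Δ0 := ⟨Set.subset_union_left, fun r hr s hs => by
    obtain ⟨t, h1, h2, h3, h4⟩ := conn0 r (mem_Δ0.1 hr) s (mem_Δ0.1 hs)
    exact ⟨⟨t, h2⟩, mem_Δ0.2 h1, by rwa [H54.O84.pair_eq], by rwa [H54.O84.pair_eq]⟩,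
  fun r hr s hs h => hs.resolve_right fun h1 => h (h1 r hr)⟩

theorem comp1 : Comp Δ1 := ⟨Set.subset_union_right, fun r hr s hs => by
    obtain ⟨t, h1, h2, h3, h4⟩ := conn1 r (mem_Δ1.1 hr) s (mem_Δ1.1 hs)
    exact ⟨⟨t, h2⟩, mem_Δ1.2 h1, by rwa [H54.O84.pair_eq], by rwa [H54.O84.pair_eq]⟩,
  fun r hr s hs h => hs.resolve_left fun h1 => h ((pair_symm r s).trans (hr s h1))⟩

theorem map_mem {u : Perm Rt} (hu : u ∈ C8.S.W) (h : ∀ r ∈ Ψ0, u r ∈ Ψ0) {A B : Set Rt}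
    (hA : Comp A) (hB : Comp B) {r : Rt} (hr : r ∈ A) (hr' : u r ∈ B) {s : Rt} (hs : s ∈ A) :
    u s ∈ B := by
  obtain ⟨t, h1, h2, h3⟩ := hA.2.1 r hr s hs
  exact hB.2.2 _ (hB.2.2 _ hr' _ (h t (hA.1 h1)) (by rwa [C8.R.pair_W hu])) _ (h s (hA.1 hs))
    (by rwa [C8.R.pair_W hu])

theorem half : HalfStmt := by
  intro u hu e
  have h1 : ∀ r ∈ Ψ0, u r ∈ Ψ0 := fun r hr => e ▸ Set.mem_image_of_mem _ hr
  have h2 : ∀ r ∈ Ψ0, u⁻¹ r ∈ Ψ0 := fun r hr => by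
    rw [← e] at hr
    obtain ⟨s, hs, rfl⟩ := hr
    simpa using hs
  have h0 : (⟨130, by decide⟩ : Rt) ∈ Δ0 := mem_Δ0.2 (by decide)
  have key : ∀ A, Comp A → u⁻¹ ⟨130, by decide⟩ ∈ A → u '' A = Δ0 := fun A hA ha =>
    Set.Subset.antisymm (by
      rintro _ ⟨s, hs, rfl⟩
      exact map_mem hu h1 hA comp0 ha (by simpa using h0) hs)
      fun s hs => ⟨u⁻¹ s, map_mem (inv_mem hu) h2 comp0 hA h0 ha hs, by simp⟩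
  exact (h2 _ (Or.inl h0)).imp (key _ comp0) (key _ comp1)

end Cfsg.Agent.H89.O84Half
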