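import Cfsg.Agent.H89.ShawNT
import Cfsg.Agent.H38.Higman1
import Cfsg.Agent.H92.FrobAut
import Cfsg.Agent.S3774

/-! Two-groups with an odd order semilinear group of automorphisms transitive on involutions:
module lemmas and abelian invariant subgroups. -/

set_option autoImplicit false

namespace Cfsg.Agent.H89.Shaw

open H38 H4.Ext

local notation "cm(" a ", " b ")" => a⁻¹ * b⁻¹ * a * b

variable {P : Type*} [Group P]

theorem exists_add {V W : Type*} [AddCommGroup V] [AddCommGroup W] {C : Subgroup P} {π : P → V}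
    {g : P → W} (h1 : ∀ u ∈ C, ∀ v ∈ C, π (u * v) = π u + π v) (h2 : ∀ y, ∃ u ∈ C, π u = y)
    (h3 : ∀ u ∈ C, ∀ v ∈ C, g (u * v) = g u + g v) (h4 : ∀ u ∈ C, π u = 0 → g u = 0) :
    ∃ ψ : V →+ W, ∀ u ∈ C, ψ (π u) = g u := by
  choose s hs hs' using h2
  have wd : ∀ u ∈ C, ∀ v ∈ C, π u = π v → g u = g v := fun u hu v hv e => by
    have m := C.mul_mem (C.inv_mem hu) hv
    have a1 := h3 u hu _ m
    rw [mul_inv_cancel_left, h4 _ m (by
      rw [h1 _ (C.inv_mem hu) _ hv, additive_inv h1 hu, e, neg_add_cancel]), add_zero] at a1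
    exact a1.symm
  refine ⟨AddMonoidHom.mk' (fun y => g (s y)) fun y z => ?_, fun u hu => wd _ (hs _) _ hu (hs' _)⟩
  rw [← h3 _ (hs y) _ (hs z)]
  exact wd _ (hs _) _ (C.mul_mem (hs y) (hs z)) (by rw [h1 _ (hs y) _ (hs z), hs', hs', hs'])

theorem surj_of_card [Finite P] {V : Type*} [AddCommGroup V] [Finite V] {A C : Subgroup P}
    {π : P → V} (h1 : ∀ u ∈ C, ∀ v ∈ C, π (u * v) = π u + π v)
    (h2 : ∀ u ∈ C, π u = 0 → u ∈ A) (h3 : Nat.card A * Nat.card V ≤ Nat.card C) (y : V) :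
    ∃ u ∈ C, π u = y := by
  let f : C →* Multiplicative V := MonoidHom.mk' (fun x => Multiplicative.ofAdd (π x))
    (fun x y => congrArg Multiplicative.ofAdd (h1 x x.2 y y.2))
  have e1 : Nat.card f.ker ≤ Nat.card A := Nat.card_le_card_of_injective
    (fun x => (⟨x.1.1, h2 _ x.1.2 x.2⟩ : A)) fun x y e =>
      Subtype.ext (Subtype.ext (congrArg (fun z : A => (z : P)) e))
  have e2 := f.ker.card_mul_index
  rw [Subgroup.index_ker] at e2
  have e3 : Nat.card V ≤ Nat.card f.range := by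
    refine Nat.le_of_mul_le_mul_left (h3.trans ?_) (Nat.card_pos (α := A))
    rw [← e2]
    exact Nat.mul_le_mul_right _ e1
  have e4 : f.range = ⊤ := Subgroup.eq_top_of_le_card _ e3
  obtain ⟨u, hu⟩ := e4.ge (Subgroup.mem_top (Multiplicative.ofAdd y))
  exact ⟨u, u.2, hu⟩

/-- kernel of a function additive on `C` -/
def kerOn {V : Type*} [AddCommGroup V] (C : Subgroup P) (π : P → V)
    (h : ∀ u ∈ C, ∀ v ∈ C, π (u * v) = π u + π v) : Subgroup P := preimSub C π h ⊥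

theorem mem_kerOn {V : Type*} [AddCommGroup V] {C : Subgroup P} {π : P → V}
    {h : ∀ u ∈ C, ∀ v ∈ C, π (u * v) = π u + π v} {x : P} :
    x ∈ kerOn C π h ↔ x ∈ C ∧ π x = 0 := Iff.rfl

variable {F : Type*} [Field F] [Fintype F] [CharP F 2] {X : Type*} [Group X]
  {φ : X →* MulAut P}

omit [Fintype F] [CharP F 2] in
theorem coef_zero {s : Finset (F ≃+* F)} (hs : ∀ σ, σ ∈ s) {c : (F ≃+* F) → F}
    (h : ∀ x, ∑ σ ∈ s, c σ * σ x = 0) (σ : F ≃+* F) : c σ = 0 := by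
  have hli := linearIndependent_ringEquiv (F := F)
  rw [linearIndependent_iff'] at hli
  refine hli s c ?_ σ (hs σ)
  funext y
  simpa [Finset.sum_apply] using h y

theorem alt_zero {l : F} (hl : NT l) (B : F →+ F →+ F)
    (h : ∀ x y, B (l * x) (l * y) = l * B x y) (halt : ∀ x, B x x = 0) (x y : F) : B x y = 0 := by
  have : Fact (Nat.Prime 2) := ⟨Nat.prime_two⟩
  obtain ⟨s, c, -, hc, h1⟩ := exists_sum_pair_equivariant B h
  have hr : ∀ z : F, (frobeniusEquiv F 2).symm z * (frobeniusEquiv F 2).symm z = z := fun z => by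
    rw [← sq]; exact (frobeniusEquiv F 2).apply_symm_apply z
  rw [← halt ((frobeniusEquiv F 2).symm (x * y)), hc, hc]
  refine Finset.sum_congr rfl fun p _ => ?_
  by_cases h0 : c p = 0
  · simp [h0]
  · rw [(hl.2 _ _ _ _ ((h1 p h0).trans (hr l).symm)).2 rfl, ← map_mul, ← map_mul, hr]

theorem nozd [Finite P] (hq : 2 < Fintype.card F) {A C : Subgroup P} (hAC : A ≤ C) (hC : Inv φ C)
    (irr : ∀ L : Subgroup P, Inv φ L → A ≤ L → L ≤ C → L = A ∨ L = C)
    (hcard : Nat.card A * Nat.card F ≤ Nat.card C) (β : P → F →+ F)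
    (hadd : ∀ u ∈ C, ∀ v ∈ C, β (u * v) = β u + β v) (h0 : ∀ a ∈ A, β a = 0)
    (semi : ∀ g, ∃ (a : F) (τ : F ≃+* F), a ≠ 0 ∧
      ∀ u ∈ C, ∀ y, β (φ g u) (a * τ y) = a * τ (β u y))
    (nt : ∃ g l, NT l ∧ ∀ u ∈ C, ∀ y, β (φ g u) (l * y) = l * β u y) :
    (∀ u ∈ C, β u = 0) ∨ ((∀ u ∈ C, ∀ y, β u y = 0 → u ∈ A ∨ y = 0) ∧
      ∀ u ∈ C, ∃ y, β u y ≠ y) := by
  classical
  obtain ⟨s, -, hs, -⟩ := exists_sum_ringEquiv (0 : F →+ F)
  have h1 : ∀ f : F →+ F, ∃ c : (F ≃+* F) → F, ∀ y, f y = ∑ τ ∈ s, c τ * τ y := by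
    intro f
    obtain ⟨s', c, hs', h⟩ := exists_sum_ringEquiv f
    have : s' = s := Finset.ext fun σ => iff_of_true (hs' σ) (hs σ)
    exact ⟨c, this ▸ h⟩
  choose c hc using h1
  have cadd : ∀ σ, ∀ u ∈ C, ∀ v ∈ C, c (β (u * v)) σ = c (β u) σ + c (β v) σ := by
    intro σ u hu v hv
    refine sub_eq_zero.1 (coef_zero hs
      (c := fun σ => c (β (u * v)) σ - (c (β u) σ + c (β v) σ)) (fun y => ?_) σ)
    simp only [sub_mul, add_mul, Finset.sum_sub_distrib, Finset.sum_add_distrib, ← hc]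
    rw [hadd u hu v hv, AddMonoidHom.add_apply, sub_self]
  have czero : ∀ σ, ∀ a ∈ A, c (β a) σ = 0 := fun σ a ha =>
    coef_zero hs (fun y => by rw [← hc, h0 a ha]; rfl) σ
  have csemi : ∀ (u u' : P) (a : F) (τ : F ≃+* F), (∀ y, β u' (a * τ y) = a * τ (β u y)) →
      ∀ σ, c (β u') σ * σ a = a * τ (c (β u) σ) := by
    intro u u' a τ h σ
    refine sub_eq_zero.1 (coef_zero hs
      (c := fun σ => c (β u') σ * σ a - a * τ (c (β u) σ)) (fun y => ?_) σ)
    obtain ⟨y, rfl⟩ := τ.surjective y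
    have := h y
    rw [hc, hc (β u), map_sum, Finset.mul_sum, ← sub_eq_zero, ← Finset.sum_sub_distrib] at this
    rw [← this]
    exact Finset.sum_congr rfl fun σ _ => by rw [map_mul, map_mul, aut_comm τ σ]; ring
  by_cases hz : ∀ σ, ∀ u ∈ C, c (β u) σ = 0
  · left
    intro u hu
    ext y
    rw [hc]
    simp [hz _ u hu]
  right
  push Not at hz
  obtain ⟨σ, u₀, hu₀, hz⟩ := hz
  have hker : ∀ u ∈ C, c (β u) σ = 0 → u ∈ A := by
    rcases irr (kerOn C _ (cadd σ)) (fun g u hu => ⟨hC g u hu.1, by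
      obtain ⟨a, τ, ha, h⟩ := semi g
      have := csemi _ _ _ _ (h u hu.1) σ
      rw [(mem_kerOn.1 hu).2, map_zero, mul_zero] at this
      exact (mul_eq_zero.1 this).resolve_right (by simpa using ha)⟩)
      (fun a ha => ⟨hAC ha, czero σ a ha⟩) (fun u hu => hu.1) with e | e
    · exact fun u hu h => e.le ⟨hu, h⟩
    · exact absurd (mem_kerOn.1 (e.ge hu₀)).2 hz
  have hsurj := surj_of_card (cadd σ) hker hcard
  obtain ⟨g, l, hl, hg⟩ := nt
  have hoth : ∀ σ', σ' ≠ σ → ∀ u ∈ C, c (β u) σ' = 0 := by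
    intro σ' hne
    obtain ⟨ψ, hψ⟩ := exists_add (cadd σ) hsurj (cadd σ') fun u hu h => czero _ _ (hker u hu h)
    have hσ : ∀ ρ : F ≃+* F, ρ l ≠ 0 := fun ρ => by simpa using hl.1
    have e1 : ∀ ρ : F ≃+* F, ∀ u ∈ C, c (β (φ g u)) ρ = l / ρ l * c (β u) ρ := fun ρ u hu => by
      have := csemi u _ l (RingEquiv.refl F) (hg u hu) ρ
      rw [div_mul_eq_mul_div, eq_div_iff (hσ ρ)]
      exact this
    have e2 : ∀ ρ, c ψ ρ = 0 := fun ρ => by
      by_contra h
      have := coef_zero hs (c := fun ρ => c ψ ρ * (ρ (l / σ l) - l / σ' l)) (fun y => by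
        obtain ⟨u, hu, rfl⟩ := hsurj y
        have e3 := hψ _ (hC g u hu)
        rw [e1 _ u hu, e1 _ u hu, ← hψ u hu, hc, hc ψ, Finset.mul_sum, ← sub_eq_zero,
          ← Finset.sum_sub_distrib] at e3
        rw [← e3]
        exact Finset.sum_congr rfl fun ρ _ => by rw [map_mul]; ring) ρ
      have e4 := sub_eq_zero.1 ((mul_eq_zero.1 this).resolve_left h)
      rw [map_div₀, div_eq_div_iff (show ρ (σ l) ≠ 0 from hσ (σ.trans ρ)) (hσ σ')] at e4
      exact hne (RingEquiv.ext fun x => ρ.injective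
        ((hl.2 ρ σ' (RingEquiv.refl F) (σ.trans ρ) e4).1 x))
    intro u hu
    rw [← hψ u hu, hc]
    simp [e2]
  have hβ : ∀ u ∈ C, ∀ y, β u y = c (β u) σ * σ y := fun u hu y => by
    rw [hc, Finset.sum_eq_single σ (fun σ' _ h => by rw [hoth σ' h u hu, zero_mul])
      (fun h => absurd (hs σ) h)]
  refine ⟨fun u hu y h => ?_, fun u hu => ?_⟩
  · rw [hβ u hu] at h
    exact (mul_eq_zero.1 h).imp (hker u hu) (by simp)
  by_contra hid
  push Not at hid
  have e1 : c (β u) σ = 1 := by simpa [hβ u hu] using hid 1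
  have e2 : ∀ y, σ y = y := fun y => by simpa [hβ u hu, e1] using hid y
  have h2 : (2 : F) = 0 := CharTwo.two_eq_zero
  have hadd' : ∀ u ∈ C, ∀ v ∈ C, c (β (u * v)) σ * c (β (u * v)) σ + c (β (u * v)) σ =
      (c (β u) σ * c (β u) σ + c (β u) σ) + (c (β v) σ * c (β v) σ + c (β v) σ) := by
    intro u hu v hv
    rw [cadd σ u hu v hv]
    linear_combination (c (β u) σ * c (β v) σ) * h2
  rcases irr (kerOn C (fun u => c (β u) σ * c (β u) σ + c (β u) σ) hadd') (fun g u hu => ⟨hC g u hu.1, by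
      obtain ⟨a, τ, ha, h⟩ := semi g
      have := csemi _ _ _ _ (h u hu.1) σ
      rw [e2, mul_comm] at this
      have e3 := congrArg τ (mem_kerOn.1 hu).2
      rw [map_add, map_mul, map_zero, ← mul_left_cancel₀ ha this] at e3
      exact e3⟩)
      (fun a ha => mem_kerOn.2 ⟨hAC ha, by simp [czero σ a ha]⟩) (fun u hu => hu.1) with e | e
  · have := czero σ u (e.le (mem_kerOn.2 ⟨hu, by rw [e1]; linear_combination h2⟩))
    rw [e1] at this
    exact one_ne_zero this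
  · have : Finset.univ ⊆ ({0, 1} : Finset F) := fun y _ => by
      obtain ⟨v, hv, rfl⟩ := hsurj y
      have := (mem_kerOn.1 (e.ge hv)).2
      rw [← mul_add_one, mul_eq_zero] at this
      rcases this with h | h
      · simp [h]
      · have : c (β v) σ = 1 := by linear_combination h - h2
        simp [this]
    have h1 := Finset.card_le_card this
    have h3 := Finset.card_le_two (a := (0 : F)) (b := 1)
    rw [Finset.card_univ] at h1
    omega

/-- The group `X` of odd order acts on the two-group `P`, transitively on the involutions, and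
semilinearly on them in the coordinate `ζ`. -/
structure Su (φ : X →* MulAut P) (ζ : P → F) : Prop where
  two : IsPGroup 2 P
  odd : (Nat.card X).Coprime 2
  trans : ∀ x y : P, x ≠ 1 → x * x = 1 → y ≠ 1 → y * y = 1 → ∃ g, φ g x = y
  big : 2 < Fintype.card F
  add : ∀ x y : P, x * x = 1 → y * y = 1 → ζ (x * y) = ζ x + ζ y
  zero : ∀ x : P, x * x = 1 → (ζ x = 0 ↔ x = 1)
  surj : ∀ c, ∃ x : P, x * x = 1 ∧ ζ x = c
  semi : ∀ g, ∃ (a : F) (σ : F ≃+* F), a ≠ 0 ∧ ∀ x : P, x * x = 1 → ζ (φ g x) = a * σ (ζ x)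
  nt : ∃ g l, NT l ∧ ∀ x : P, x * x = 1 → ζ (φ g x) = l * ζ x

variable [Finite P] {ζ : P → F}

namespace Su

omit [CharP F 2]

theorem central (h : Su φ ζ) {x : P} (hx : x * x = 1) (y : P) : Commute x y := by
  by_cases h1 : x = 1
  · simp [h1]
  have := nontrivial_of_ne x 1 h1
  exact (Subgroup.mem_center_iff.1 ((S3774.result h.two fun x y a b c d => by
    obtain ⟨g, hg⟩ := h.trans x y a (by rwa [← sq]) c (by rwa [← sq])
    exact ⟨_, hg⟩).1 x (by rwa [sq])) y).symm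

/-- the subgroup of elements of square one -/
def omega (h : Su φ ζ) : Subgroup P where
  carrier := {x | x * x = 1}
  mul_mem' := fun {a b} ha hb => by
    have hc := (h.central ha b).eq
    have ha' : a * a = 1 := ha
    have hb' : b * b = 1 := hb
    show a * b * (a * b) = 1
    calc a * b * (a * b) = a * (b * a) * b := by group
      _ = (a * a) * (b * b) := by rw [← hc]; group
      _ = 1 := by rw [ha', hb', one_mul]
  one_mem' := one_mul 1
  inv_mem' := fun {a} ha => by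
    have ha' : a * a = 1 := ha
    show a⁻¹ * a⁻¹ = 1
    rw [← mul_inv_rev, ha', inv_one]

theorem mem_omega (h : Su φ ζ) {x : P} : x ∈ h.omega ↔ x * x = 1 := Iff.rfl

theorem omega_inv (h : Su φ ζ) : Inv φ h.omega := fun g x hx => by
  rw [mem_omega] at hx ⊢
  rw [← map_mul, hx, map_one]

theorem omega_normal (h : Su φ ζ) : h.omega.Normal := ⟨fun x hx g => by
  rw [← (h.central hx g).eq]; simpa using hx⟩

omit [Finite P] in
theorem one (h : Su φ ζ) : ζ 1 = 0 := (h.zero 1 (one_mul 1)).2 rfl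

omit [Finite P] in
theorem exists_invol (h : Su φ ζ) {B : Subgroup P} {b : P} (hb : b ∈ B) (hb1 : b ≠ 1) :
    ∃ z ∈ B, z ≠ 1 ∧ z * z = 1 := by
  obtain ⟨m, h1, h2⟩ := exists_pow_exact h.two (b := b) (j := 0) (by simpa using hb1)
  exact ⟨b ^ m, B.pow_mem hb m, by simpa using h1, by simpa [sq] using h2⟩

omit [Finite P] in
theorem omega_le (h : Su φ ζ) {B : Subgroup P} (hB : Inv φ B) {b : P} (hb : b ∈ B)
    (hb1 : b ≠ 1) {x : P} (hx : x * x = 1) : x ∈ B := by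
  obtain ⟨z, hz, hz1, hz2⟩ := h.exists_invol hb hb1
  by_cases h1 : x = 1
  · rw [h1]; exact B.one_mem
  · obtain ⟨k, rfl⟩ := h.trans z x hz1 hz2 h1 hx
    exact hB k z hz

theorem card_pow (h : Su φ ζ) {B : Subgroup P} (hB : Inv φ B) {b : P} (hb : b ∈ B)
    (hb1 : b ≠ 1) : ∃ m, Nat.card B = Nat.card F ^ m := by
  have : Nontrivial B := nontrivial_of_ne ⟨b, hb⟩ 1 fun e => hb1 (congrArg Subtype.val e)
  obtain ⟨m, hm⟩ := (S3774.result (h.two.to_subgroup B) fun x y a b c d => by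
    obtain ⟨g, hg⟩ := h.trans x y (by simpa using a) (by rw [← sq]; exact congrArg Subtype.val b)
      (by simpa using c) (by rw [← sq]; exact congrArg Subtype.val d)
    exact ⟨H92.resAut φ B hB g, Subtype.ext hg⟩).2
  refine ⟨m, hm.trans ?_⟩
  congr 1
  have hs : ∀ x : {z : B // z ^ 2 = 1}, (x.1 : P) * x.1 = 1 := fun x => by
    rw [← sq]; exact congrArg Subtype.val x.2
  refine Nat.card_congr (Equiv.ofBijective (fun x => ζ x.1) ⟨fun x y e => ?_, fun c => ?_⟩)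
  · have e1 := h.add _ _ (h.omega.inv_mem (hs x)) (hs y)
    have e2 := h.add _ _ (h.omega.inv_mem (hs x)) (hs x)
    rw [inv_mul_cancel, h.one] at e2
    rw [← show ζ x.1 = ζ y.1 from e, ← e2,
      h.zero _ (h.omega.mul_mem (h.omega.inv_mem (hs x)) (hs y)), inv_mul_eq_one] at e1
    exact Subtype.ext (Subtype.ext e1)
  · obtain ⟨x, hx, rfl⟩ := h.surj c
    exact ⟨⟨⟨x, h.omega_le hB hb hb1 hx⟩, Subtype.ext ((sq x).trans hx)⟩, rfl⟩

theorem card_le (h : Su φ ζ) {A C : Subgroup P} (hA : Inv φ A) (hC : Inv φ C) (hAC : A < C)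
    {b : P} (hb : b ∈ A) (hb1 : b ≠ 1) : Nat.card A * Nat.card F ≤ Nat.card C := by
  obtain ⟨i, hi⟩ := h.card_pow hA hb hb1
  obtain ⟨j, hj⟩ := h.card_pow hC (hAC.le hb) hb1
  have h1 : 1 < Nat.card F := Finite.one_lt_card
  have h2 : Nat.card A < Nat.card C := lt_of_le_of_ne (Subgroup.card_le_of_le hAC.le)
    fun e => hAC.ne (Subgroup.eq_of_le_of_card_ge hAC.le e.ge)
  rw [hi, hj] at h2 ⊢
  rw [← pow_succ]
  exact Nat.pow_le_pow_right h1.le ((Nat.pow_lt_pow_iff_right h1).1 h2)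

omit [Finite P] in
theorem homocyc (h : Su φ ζ) {A B : Subgroup P} (hA : ∀ a ∈ A, ∀ b ∈ A, Commute a b)
    (hBA : B ≤ A) (hB : Inv φ B) (j : ℕ) (hb : ∀ i < j, ∃ b ∈ B, b ^ 2 ^ i ≠ 1) :
    ∀ a ∈ A, a ^ 2 ^ j = 1 → a ∈ B := by
  induction j with
  | zero =>
    intro a _ ha
    rw [pow_zero, pow_one] at ha
    rw [ha]; exact B.one_mem
  | succ j ih =>
    intro a ha ha'
    have ih' := ih fun i hi => hb i (by omega)
    by_cases h1 : a ^ 2 ^ j = 1
    · exact ih' a ha h1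
    obtain ⟨b, hb1, hb2⟩ := hb j (by omega)
    obtain ⟨m, h2, h3⟩ := exists_pow_exact h.two hb2
    rw [pow_two_pow_succ] at h3 ha'
    obtain ⟨k, hk⟩ := h.trans _ _ h2 h3 h1 ha'
    have hc : φ k (b ^ m) ∈ B := hB k _ (B.pow_mem hb1 m)
    have := ih' (a * (φ k (b ^ m))⁻¹) (A.mul_mem ha (A.inv_mem (hBA hc))) (by
      rw [(hA _ ha _ (A.inv_mem (hBA hc))).mul_pow, inv_pow, ← map_pow, hk, mul_inv_cancel])
    simpa using B.mul_mem this hc

omit [Finite P] in
theorem exists_root (h : Su φ ζ) {A : Subgroup P} (hA : ∀ a ∈ A, ∀ b ∈ A, Commute a b)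
    (hAi : Inv φ A) {i j e : ℕ} {b : P} (hb : b ∈ A) (hb' : b ^ 2 ^ e ≠ 1)
    (hij : i + j ≤ e + 1) {a : P} (ha : a ∈ A) (ha' : a ^ 2 ^ j = 1) :
    ∃ d ∈ A, d ^ 2 ^ i = a := by
  apply h.homocyc hA (B := powSub A hA (2 ^ i)) _ _ j _ a ha ha'
  · rintro _ ⟨d, hd, rfl⟩
    exact A.pow_mem hd _
  · rintro g _ ⟨d, hd, rfl⟩
    exact ⟨φ g d, hAi g d hd, (map_pow (φ g) d _).symm⟩
  · intro i' hi'
    refine ⟨b ^ 2 ^ i, ⟨b, hb, rfl⟩, ?_⟩
    rw [← pow_mul, ← pow_add]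
    exact pow_two_pow_ne_of_le (by omega) hb'

theorem exists_exponent (h : Su φ ζ) {A : Subgroup P} {b : P} (hb : b ∈ A) (hb1 : b ≠ 1) :
    ∃ e : ℕ, (∀ a ∈ A, a ^ 2 ^ (e + 1) = 1) ∧ ∃ b ∈ A, b ^ 2 ^ e ≠ 1 := by
  classical
  have : Fact (Nat.Prime 2) := ⟨Nat.prime_two⟩
  have hex : ∃ e : ℕ, ∀ a ∈ A, a ^ 2 ^ e = 1 := by
    obtain ⟨n, hn⟩ := h.two.exists_card_eq
    exact ⟨n, fun a _ => by rw [← hn, pow_card_eq_one']⟩
  have h0 : Nat.find hex ≠ 0 := by
    intro e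
    have := Nat.find_spec hex b hb
    rw [e] at this
    exact hb1 (by simpa using this)
  obtain ⟨e, he⟩ := Nat.exists_eq_succ_of_ne_zero h0
  refine ⟨e, by have := Nat.find_spec hex; rwa [he] at this, ?_⟩
  have := Nat.find_min hex (m := e) (by omega)
  push Not at this
  exact this

end Su

end Cfsg.Agent.H89.Shaw
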