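import Cfsg.Agent.H89.ShawA

/-! Covers of an abelian invariant subgroup. -/

set_option autoImplicit false

namespace Cfsg.Agent.H89.Shaw

open H38 H4.Ext

local notation "cm(" a ", " b ")" => a⁻¹ * b⁻¹ * a * b

variable {P : Type*} [Group P] {F : Type*} [Field F] [Fintype F] [CharP F 2] {X : Type*} [Group X]
  {φ : X →* MulAut P} {ζ : P → F}

/-- an abelian invariant subgroup `A` of exponent `2 ^ (f + 2)` and an invariant subgroup `C`
normalising it with `C / A` irreducible -/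
structure Cov (φ : X →* MulAut P) (A C : Subgroup P) (f : ℕ) : Prop where
  comm : ∀ a ∈ A, ∀ b ∈ A, Commute a b
  invA : Inv φ A
  invC : Inv φ C
  exp : ∀ a ∈ A, a ^ 2 ^ (f + 2) = 1
  ex : ∃ b ∈ A, b ^ 2 ^ (f + 1) ≠ 1
  lt : A < C
  norm : ∀ u ∈ C, ∀ a ∈ A, u⁻¹ * a * u ∈ A
  sq_mem : ∀ u ∈ C, u * u ∈ A
  cm_mem' : ∀ u ∈ C, ∀ v ∈ C, cm(u, v) ∈ A
  irr : ∀ L : Subgroup P, Inv φ L → A ≤ L → L ≤ C → L = A ∨ L = C

namespace Cov

variable {A C : Subgroup P} {f : ℕ}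

theorem le (d : Cov φ A C f) : A ≤ C := d.lt.le

theorem cm_mem (d : Cov φ A C f) {u : P} (hu : u ∈ C) {a : P} (ha : a ∈ A) :
    cm(a, u) ∈ A := d.cm_mem' a (d.le ha) u hu

theorem hom (d : Cov φ A C f) {a : P} (ha : a ∈ A) :
    a ^ 2 ^ (f + 1) * a ^ 2 ^ (f + 1) = 1 := by rw [← pow_two_pow_succ, d.exp a ha]

variable [Finite P]

omit [CharP F 2] in
theorem card_le (h : Su φ ζ) (d : Cov φ A C f) : Nat.card A * Nat.card F ≤ Nat.card C := by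
  obtain ⟨b, hb, hb'⟩ := d.ex
  exact h.card_le d.invA d.invC d.lt hb fun e => hb' (by rw [e, one_pow])

omit [CharP F 2] in
theorem cm_pow (h : Su φ ζ) (d : Cov φ A C f) {u : P} (hu : u ∈ C) {a : P}
    (ha : a ∈ A) : cm(a, u) ^ 2 ^ (f + 1) = 1 := by
  rw [cm_pow_left d.comm ha (d.norm u hu a ha)]
  have : Commute (a ^ 2 ^ (f + 1)) u := h.central (d.hom ha) u
  rw [mul_assoc, mul_assoc, this.eq]; group

omit [CharP F 2] in
theorem cm_omega (h : Su φ ζ) (d : Cov φ A C f) {u : P} (hu : u ∈ C) {a : P}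
    (ha : a ∈ A) : cm(a, u) ^ 2 ^ f * cm(a, u) ^ 2 ^ f = 1 := by
  rw [← pow_two_pow_succ, d.cm_pow h hu ha]

omit [CharP F 2] [Finite P] in
theorem top_add (h : Su φ ζ) (d : Cov φ A C f) : ∀ x ∈ A, ∀ y ∈ A,
    ζ ((x * y) ^ 2 ^ (f + 1)) = ζ (x ^ 2 ^ (f + 1)) + ζ (y ^ 2 ^ (f + 1)) := fun x hx y hy => by
  rw [(d.comm x hx y hy).mul_pow, h.add _ _ (d.hom hx) (d.hom hy)]

omit [CharP F 2] [Finite P] in
theorem top_surj (h : Su φ ζ) (d : Cov φ A C f) (c : F) : ∃ a ∈ A, ζ (a ^ 2 ^ (f + 1)) = c := by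
  obtain ⟨b, hb, hb'⟩ := d.ex
  obtain ⟨z, hz, rfl⟩ := h.surj c
  obtain ⟨a, ha, e'⟩ := h.exists_root d.comm d.invA hb hb' (i := f + 1) (j := 1) le_rfl
    (h.omega_le d.invA hb (fun e' => hb' (by rw [e', one_pow])) hz) (by rw [pow_one, sq]; exact hz)
  exact ⟨a, ha, by rw [e']⟩

/-- the commutator map `C / A × A / A² → A² / A⁴` has no zero divisors -/
theorem beta (h : Su φ ζ) (d : Cov φ A C f) : ∃ β : P → F →+ F,
    (∀ u ∈ C, ∀ a ∈ A, β u (ζ (a ^ 2 ^ (f + 1))) = ζ (cm(a, u) ^ 2 ^ f)) ∧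
    (∀ u ∈ C, ∀ v ∈ C, β (u * v) = β u + β v) ∧
    ((∀ u ∈ C, ∀ a ∈ A, cm(a, u) ^ 2 ^ f = 1) ∨ ((∀ u ∈ C, ∀ y, β u y = 0 → u ∈ A ∨ y = 0) ∧
      ∀ u ∈ C, ∃ y, β u y ≠ y)) := by
  obtain ⟨b, hb, hb'⟩ := d.ex
  have h1 : ∀ u, ∃ ψ : F →+ F, u ∈ C →
      ∀ a ∈ A, ψ (ζ (a ^ 2 ^ (f + 1))) = ζ (cm(a, u) ^ 2 ^ f) := by
    intro u
    by_cases hu : u ∈ C
    swap
    · exact ⟨0, fun h => absurd h hu⟩
    obtain ⟨ψ, hψ⟩ := exists_add (g := fun a => ζ (cm(a, u) ^ 2 ^ f)) (d.top_add h)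
      (d.top_surj h) (fun a ha a' ha' => by
        have e1 : cm((a * a'), u) = a'⁻¹ * cm(a, u) * a' * cm(a', u) := by group
        rw [e1, mul_assoc a'⁻¹, (d.comm _ (d.cm_mem hu ha) _ ha').eq, inv_mul_cancel_left,
          (d.comm _ (d.cm_mem hu ha) _ (d.cm_mem hu ha')).mul_pow,
          h.add _ _ (d.cm_omega h hu ha) (d.cm_omega h hu ha')]) (fun a ha ha' => by
        obtain ⟨a', ha1, ha2⟩ := h.exists_root d.comm d.invA hb hb' (i := 1) (j := f + 1)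
          (by omega) ha ((h.zero _ (d.hom ha)).1 ha')
        rw [← ha2, ← cm_pow_left d.comm ha1 (d.norm u hu _ ha1), ← pow_mul, ← pow_add,
          add_comm 1 f, d.cm_pow h hu ha1, h.one])
    exact ⟨ψ, fun _ => hψ⟩
  choose β hβ using h1
  have hadd : ∀ u ∈ C, ∀ v ∈ C, β (u * v) = β u + β v := fun u hu v hv => by
    ext y
    obtain ⟨a, ha, rfl⟩ := d.top_surj h y
    have e1 : cm(a, (u * v)) = cm(a, v) * (v⁻¹ * cm(a, u) * v) := by group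
    have e2 : (v⁻¹ * cm(a, u) * v) ^ 2 ^ f = cm(a, u) ^ 2 ^ f := by
      rw [conj_pow', mul_assoc, (h.central (d.cm_omega h hu ha) v).eq]; group
    rw [AddMonoidHom.add_apply, hβ _ (C.mul_mem hu hv) a ha, hβ u hu a ha, hβ v hv a ha, e1,
      (d.comm _ (d.cm_mem hv ha) _ (d.norm v hv _ (d.cm_mem hu ha))).mul_pow, e2,
      h.add _ _ (d.cm_omega h hv ha) (d.cm_omega h hu ha), add_comm]
  have heq : ∀ (g : X) (ψ : F → F), (∀ x, x * x = 1 → ζ (φ g x) = ψ (ζ x)) →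
      ∀ u ∈ C, ∀ y, β (φ g u) (ψ y) = ψ (β u y) := fun g ψ hψ u hu y => by
    obtain ⟨a, ha, rfl⟩ := d.top_surj h y
    rw [hβ u hu a ha, ← hψ _ (d.hom ha), ← hψ _ (d.cm_omega h hu ha), map_pow,
      hβ _ (d.invC g u hu) _ (d.invA g a ha)]
    simp only [map_pow, map_mul, map_inv]
  refine ⟨β, hβ, hadd, (nozd h.big d.le d.invC d.irr (d.card_le h) β hadd (fun u hu => ?_)
    (fun g => ?_) ?_).imp_left fun h0 u hu a ha => ?_⟩
  · ext y
    obtain ⟨a, ha, rfl⟩ := d.top_surj h y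
    have : cm(a, u) = 1 := by rw [mul_assoc, mul_assoc, (d.comm a ha u hu).eq]; group
    rw [hβ u (d.le hu) a ha, this, one_pow, h.one]; rfl
  · obtain ⟨a, σ, ha, hg⟩ := h.semi g
    exact ⟨a, σ, ha, heq g (fun y => a * σ y) hg⟩
  · obtain ⟨g, l, hl, hg⟩ := h.nt
    exact ⟨g, l, hl, heq g (fun y => l * y) hg⟩
  · rw [← h.zero _ (d.cm_omega h hu ha), ← hβ u hu a ha, h0 u hu]; rfl

omit [CharP F 2] [Finite P] in
theorem not_cm_trivial (h : Su φ ζ) (d : Cov φ A C f)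
    (hsq : ∀ u ∈ C, ∃ a ∈ A, u * u = a * a) :
    ¬ ∀ u ∈ C, ∀ a ∈ A, cm(a, u) ^ 2 ^ f = 1 := by
  intro h0
  obtain ⟨b, hb, hb'⟩ := d.ex
  refine d.lt.not_ge fun u hu => ?_
  apply mem_of_sq_of_cm d.comm d.exp
    (fun x hx => h.omega_le d.invA hb (fun e' => hb' (by rw [e', one_pow])) hx) (d.norm u hu)
    (hsq u hu)
  intro a ha
  obtain ⟨x, hx, e⟩ := h.exists_root d.comm d.invA hb hb' (i := 2) (j := f) (by omega)
    (d.cm_mem hu ha) (h0 u hu a ha)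
  exact ⟨x, hx, e.symm⟩

theorem exp_four (h : Su φ ζ) (d : Cov φ A C f)
    (hsq : ∀ u ∈ C, ∃ a ∈ A, u * u = a * a) : f = 0 := by
  obtain ⟨β, h3, -, h4⟩ := d.beta h
  obtain ⟨h1, h2⟩ := h4.resolve_left (d.not_cm_trivial h hsq)
  have key : ∃ u ∈ C, u ∉ A ∧ ∃ a ∈ A, u * u = a * a ∧ ζ (a ^ 2 ^ (f + 1)) ≠ 0 := by
    obtain ⟨u, hu, hu1⟩ := SetLike.exists_of_lt d.lt
    obtain ⟨a, ha, e⟩ := hsq u hu
    by_cases h4 : ζ (a ^ 2 ^ (f + 1)) = 0
    swap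
    · exact ⟨u, hu, hu1, a, ha, e, h4⟩
    obtain ⟨y, hy⟩ := h2 u hu
    obtain ⟨b, hb, rfl⟩ := d.top_surj h y
    have hub := C.mul_mem hu (d.le hb)
    obtain ⟨a', ha', e'⟩ := hsq _ hub
    refine ⟨u * b, hub, fun hA => hu1 ((A.mul_mem_cancel_right hb).1 hA), a', ha', e', ?_⟩
    have e1 : a' * a' = (a * a) * ((b * b) * cm(b, u)) := by
      rw [← e', ← e]
      have := (d.comm _ hb _ (d.cm_mem hu hb)).eq
      calc u * b * (u * b) = u * u * (b * (cm(b, u) * b)) := by group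
        _ = _ := by rw [← this]; group
    have m1 := A.mul_mem ha ha
    have m2 := A.mul_mem hb hb
    have m3 := d.cm_mem hu hb
    rw [pow_two_pow_succ', e1, (d.comm _ m1 _ (A.mul_mem m2 m3)).mul_pow,
      (d.comm _ m2 _ m3).mul_pow, ← pow_two_pow_succ', ← pow_two_pow_succ',
      h.add _ _ (d.hom ha) (h.omega.mul_mem (d.hom hb) (d.cm_omega h hu hb)),
      h.add _ _ (d.hom hb) (d.cm_omega h hu hb), h4, zero_add, ← h3 u hu b hb]
    exact fun e => hy (CharTwo.add_eq_zero.1 e).symm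
  obtain ⟨u, hu, hu0, a, ha, e, ha0⟩ := key
  by_contra hf
  obtain ⟨f', rfl⟩ := Nat.exists_eq_succ_of_ne_zero hf
  have e1 : cm(a, u) ^ 2 = 1 := by
    rw [cm_pow_left d.comm ha (d.norm u hu a ha), sq, ← e]; group
  have e2 := h3 u hu a ha
  rw [pow_succ' 2 f', pow_mul, e1, one_pow, h.one] at e2
  exact (h1 u hu _ e2).elim hu0 ha0

theorem comm_of_sq (h : Su φ ζ) (d : Cov φ A C f) {u₀ : P} (hu₀ : u₀ ∈ C)
    (h0 : (u₀ * u₀) ^ 2 ^ (f + 1) ≠ 1) : ∀ u ∈ C, ∀ v ∈ C, Commute u v := by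
  have hu₀A : u₀ ∉ A := fun hA => h0 (by rw [← pow_two_pow_succ', d.exp _ hA])
  have hζ0 : ζ ((u₀ * u₀) ^ 2 ^ (f + 1)) ≠ 0 := fun e =>
    h0 ((h.zero _ (d.hom (d.sq_mem _ hu₀))).mp e)
  have hb : ∀ u ∈ C, ∀ a ∈ A, cm(a, u) ^ 2 ^ f = 1 := by
    obtain ⟨β, h3, -, h1 | ⟨h1, -⟩⟩ := d.beta h
    · exact h1
    · have := h3 u₀ hu₀ _ (d.sq_mem _ hu₀)
      rw [show cm((u₀ * u₀), u₀) = 1 by group, one_pow, h.one] at this
      exact ((h1 _ hu₀ _ this).elim hu₀A hζ0).elim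
  have hc : ∀ u ∈ C, ∀ v ∈ C, cm(u, v) ^ 2 ^ (f + 1) = 1 := by
    intro u hu v hv
    have hw := d.cm_mem' _ hu _ hv
    have e1 : cm((u * u), v) = (cm(u, v) * cm(u, v)) * cm(cm(u, v), u) := by
      have := (d.comm _ hw _ (d.cm_mem hu hw)).eq
      calc cm((u * u), v) = cm(u, v) * (cm(cm(u, v), u) * cm(u, v)) := by group
        _ = _ := by rw [← this]; group
    have := hb v hv _ (d.sq_mem _ hu)
    rwa [e1, (d.comm _ (A.mul_mem hw hw) _ (d.cm_mem hu hw)).mul_pow, hb u hu _ hw, mul_one,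
      ← pow_two_pow_succ'] at this
  have πadd : ∀ u ∈ C, ∀ v ∈ C, ζ ((u * v * (u * v)) ^ 2 ^ (f + 1)) =
      ζ ((u * u) ^ 2 ^ (f + 1)) + ζ ((v * v) ^ 2 ^ (f + 1)) := fun u hu v hv => by
    have e1 : u * v * (u * v) = (u * u) * (cm(u, v⁻¹) * (v * v)) := by group
    have m1 := d.sq_mem _ hu
    have m2 := d.cm_mem' _ hu _ (C.inv_mem hv)
    have m3 := d.sq_mem _ hv
    rw [e1, (d.comm _ m1 _ (A.mul_mem m2 m3)).mul_pow, (d.comm _ m2 _ m3).mul_pow,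
      hc u hu _ (C.inv_mem hv), one_mul, h.add _ _ (d.hom m1) (d.hom m3)]
  have πker : ∀ u ∈ C, ζ ((u * u) ^ 2 ^ (f + 1)) = 0 → u ∈ A := by
    rcases d.irr (kerOn C (fun u => ζ ((u * u) ^ 2 ^ (f + 1))) πadd)
      (fun g u hu => mem_kerOn.2 ⟨d.invC g u hu.1, by
        rw [← map_mul, ← map_pow, (h.zero _ (d.hom (d.sq_mem _ hu.1))).1 (mem_kerOn.1 hu).2,
          map_one, h.one]⟩)
      (fun a ha => mem_kerOn.2 ⟨d.le ha, by rw [← pow_two_pow_succ', d.exp _ ha, h.one]⟩)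
      (fun u hu => hu.1) with e | e
    · exact fun u hu h => e.le (mem_kerOn.2 ⟨hu, h⟩)
    · exact absurd (mem_kerOn.1 (e.ge hu₀)).2 hζ0
  have πsurj := surj_of_card (π := fun u => ζ ((u * u) ^ 2 ^ (f + 1))) πadd πker (d.card_le h)
  have key : ∀ j : ℕ, (∀ u ∈ C, ∀ v ∈ C, cm(u, v) ^ 2 ^ (j + 1) = 1) →
      ∀ u ∈ C, ∀ v ∈ C, cm(u, v) ^ 2 ^ j = 1 := by
    intro j hj
    have hom' : ∀ u ∈ C, ∀ v ∈ C, cm(u, v) ^ 2 ^ j * cm(u, v) ^ 2 ^ j = 1 := fun u hu v hv => by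
      rw [← pow_two_pow_succ, hj u hu v hv]
    have hconj : ∀ u ∈ C, ∀ v ∈ C, ∀ w : P,
        (w⁻¹ * cm(u, v) * w) ^ 2 ^ j = cm(u, v) ^ 2 ^ j := by
      intro u hu v hv w
      rw [conj_pow', mul_assoc, (h.central (hom' u hu v hv) w).eq]; group
    have hl : ∀ u ∈ C, ∀ u' ∈ C, ∀ v ∈ C,
        cm((u * u'), v) ^ 2 ^ j = cm(u, v) ^ 2 ^ j * cm(u', v) ^ 2 ^ j := by
      intro u hu u' hu' v hv
      have e1 : cm((u * u'), v) = (u'⁻¹ * cm(u, v) * u') * cm(u', v) := by group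
      rw [e1, (d.comm _ (d.norm _ hu' _ (d.cm_mem' _ hu _ hv)) _
        (d.cm_mem' _ hu' _ hv)).mul_pow, hconj u hu v hv]
    have hA0 : ∀ a ∈ A, ∀ v ∈ C, cm(a, v) ^ 2 ^ j = 1 := by
      let B : Subgroup P :=
        { carrier := {a | a ∈ A ∧ ∀ v ∈ C, cm(a, v) ^ 2 ^ j = 1}
          mul_mem' := fun {a b} ha hb => ⟨A.mul_mem ha.1 hb.1, fun v hv => by
            rw [hl _ (d.le ha.1) _ (d.le hb.1) v hv, ha.2 v hv, hb.2 v hv, one_mul]⟩
          one_mem' := ⟨A.one_mem, fun v _ => by simp⟩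
          inv_mem' := fun {a} ha => ⟨A.inv_mem ha.1, fun v hv => by
            have := hl _ (d.le (A.inv_mem ha.1)) _ (d.le ha.1) v hv
            rw [ha.2 v hv, mul_one, inv_mul_cancel] at this
            rw [← this]; simp⟩ }
      intro a ha
      refine (h.homocyc d.comm (B := B) (fun x hx => hx.1) (fun g x hx => ⟨d.invA g x hx.1,
        fun v hv => ?_⟩) (f + 2) (fun i hi => ⟨u₀ * u₀, ⟨d.sq_mem _ hu₀, fun v hv => ?_⟩,
          pow_two_pow_ne_of_le (by omega) h0⟩) a ha (d.exp a ha)).2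
      · have := congrArg (φ g) (hx.2 _ (d.invC g⁻¹ v hv))
        simpa only [map_pow, map_mul, map_inv, map_one, MulAut.apply_inv_self] using this
      · rw [hl _ hu₀ _ hu₀ v hv]
        exact hom' _ hu₀ v hv
    have h1 : ∀ v, ∃ ψ : F →+ F, v ∈ C →
        ∀ u ∈ C, ψ (ζ ((u * u) ^ 2 ^ (f + 1))) = ζ (cm(u, v) ^ 2 ^ j) := by
      intro v
      by_cases hv : v ∈ C
      swap
      · exact ⟨0, fun h => absurd h hv⟩
      obtain ⟨ψ, hψ⟩ := exists_add (π := fun u => ζ ((u * u) ^ 2 ^ (f + 1)))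
        (g := fun u => ζ (cm(u, v) ^ 2 ^ j)) πadd πsurj (fun u hu u' hu' => by
          rw [hl u hu u' hu' v hv, h.add _ _ (hom' u hu v hv) (hom' u' hu' v hv)])
        (fun u hu e => by rw [hA0 u (πker u hu e) v hv, h.one])
      exact ⟨ψ, fun _ => hψ⟩
    choose ψ hψ using h1
    obtain ⟨B, hB⟩ := exists_add (π := fun u => ζ ((u * u) ^ 2 ^ (f + 1))) (g := ψ) πadd πsurj
      (fun v hv v' hv' => by
        ext y
        obtain ⟨u, hu, rfl⟩ := πsurj y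
        have e1 : cm(u, (v * v')) = cm(u, v') * (v'⁻¹ * cm(u, v) * v') := by group
        rw [AddMonoidHom.add_apply, hψ _ (C.mul_mem hv hv') u hu, hψ v hv u hu, hψ v' hv' u hu, e1,
          (d.comm _ (d.cm_mem' _ hu _ hv') _ (d.norm _ hv' _ (d.cm_mem' _ hu _ hv))).mul_pow,
          hconj u hu v hv, h.add _ _ (hom' u hu v' hv') (hom' u hu v hv), add_comm])
      (fun a ha e => by
        ext y
        obtain ⟨u, hu, rfl⟩ := πsurj y
        rw [hψ a ha u hu, show cm(u, a) = (cm(a, u))⁻¹ by group, inv_pow,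
          hA0 a (πker a ha e) u hu, inv_one, h.one]; rfl)
    obtain ⟨g, l, hl, hg⟩ := h.nt
    have e1 : ∀ u ∈ C, l * ζ ((u * u) ^ 2 ^ (f + 1)) = ζ ((φ g u * φ g u) ^ 2 ^ (f + 1)) :=
      fun u hu => by rw [← hg _ (d.hom (d.sq_mem _ hu)), map_pow, map_mul]
    intro u hu v hv
    rw [← h.zero _ (hom' u hu v hv), ← hψ v hv u hu, ← hB v hv]
    refine alt_zero hl B (fun x y => ?_) (fun x => ?_) _ _
    · obtain ⟨v, hv, rfl⟩ := πsurj x
      obtain ⟨u, hu, rfl⟩ := πsurj y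
      rw [e1 u hu, e1 v hv, hB v hv, hB _ (d.invC g v hv), hψ v hv u hu,
        hψ _ (d.invC g v hv) _ (d.invC g u hu), ← hg _ (hom' u hu v hv)]
      simp only [map_pow, map_mul, map_inv]
    · obtain ⟨u, hu, rfl⟩ := πsurj x
      rw [hB u hu, hψ u hu u hu, show cm(u, u) = 1 by group, one_pow, h.one]
  have key2 : ∀ j : ℕ, (∀ u ∈ C, ∀ v ∈ C, cm(u, v) ^ 2 ^ j = 1) →
      ∀ u ∈ C, ∀ v ∈ C, cm(u, v) = 1 := by
    intro j
    induction j with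
    | zero => intro hj u hu v hv; simpa using hj u hu v hv
    | succ j ih => exact fun hj => ih (key j hj)
  intro u hu v hv
  have := key2 _ hc u hu v hv
  calc u * v = v * u * cm(u, v) := by group
    _ = v * u := by rw [this, mul_one]

end Cov

/-- the key commutator computation in the case of exponent four -/
theorem cm_sq_eq_one [Finite P] (h : Su φ ζ) {A C₁ C₂ : Subgroup P}
    (d₁ : Cov φ A C₁ 0) (d₂ : Cov φ A C₂ 0) (hall : ∀ x y : P, cm(x, y) ∈ A)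
    (s₁ : ∀ u ∈ C₁, ∃ a ∈ A, u * u = a * a) (s₂ : ∀ u ∈ C₂, ∃ a ∈ A, u * u = a * a)
    {u v : P} (hu : u ∈ C₁) (hv : v ∈ C₂) : cm(v, u) * cm(v, u) = 1 := by
  obtain ⟨β₁, h13, -, h1⟩ := d₁.beta h
  obtain ⟨-, h12⟩ := h1.resolve_left (d₁.not_cm_trivial h s₁)
  obtain ⟨β₂, h23, h24, h2⟩ := d₂.beta h
  obtain ⟨h21, -⟩ := h2.resolve_left (d₂.not_cm_trivial h s₂)
  have h4 : ∀ a ∈ A, (a * a) * (a * a) = 1 := fun a ha => by
    have := d₁.exp a ha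
    rwa [pow_two_pow_succ, pow_one, sq] at this
  simp only [pow_zero, pow_one, zero_add, sq] at h13 h23
  have inv1 : ∀ x y : P, (∃ a ∈ A, x * x = a * a) → cm(cm(y, x), x) = cm(y, x) * cm(y, x) := by
    rintro x y ⟨a, ha, e⟩
    have hc : Commute (x * x) y := h.central (by rw [e]; exact h4 a ha) y
    have e1 : cm(cm(y, x), x) = (cm(y, x) * cm(y, x))⁻¹ * cm(y, (x * x)) := by group
    have e2 : cm(y, (x * x)) = 1 := by
      rw [mul_assoc, mul_assoc, ← hc.eq]; group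
    rw [e1, e2, mul_one]
    exact inv_eq_of_mul_eq_one_right (h4 _ (hall y x))
  let b : P → F := fun w => ζ (cm(w, u) * cm(w, u))
  have β1 : ∀ w, β₁ u (b w) = b w := fun w => by
    rw [h13 u hu _ (hall w u), inv1 u w (s₁ u hu)]
  have β2 : ∀ w ∈ C₂, β₂ w (b w) = b w := fun w hw => by
    have e1 : cm(u, w) * cm(u, w) = cm(w, u) * cm(w, u) := by
      rw [← inv_eq_of_mul_eq_one_right (h4 _ (hall w u))]; group
    have := h23 w hw _ (hall u w)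
    rwa [inv1 w u (s₂ w hw), e1] at this
  have βadd : ∀ w w', b (w * w') = b w + b w' := by
    intro w w'
    have e1 : cm((w * w'), u) = (w'⁻¹ * cm(w, u) * w') * cm(w', u) := by group
    have m1 : w'⁻¹ * cm(w, u) * w' ∈ A := by
      have : w'⁻¹ * cm(w, u) * w' = cm(w, u) * cm(cm(w, u), w') := by group
      rw [this]; exact A.mul_mem (hall _ _) (hall _ _)
    have e2 : (w'⁻¹ * cm(w, u) * w') * (w'⁻¹ * cm(w, u) * w') = cm(w, u) * cm(w, u) := by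
      have hc := (h.central (h4 _ (hall w u)) w').eq
      calc (w'⁻¹ * cm(w, u) * w') * (w'⁻¹ * cm(w, u) * w')
          = w'⁻¹ * (cm(w, u) * cm(w, u) * w') := by group
        _ = _ := by rw [hc]; group
    have e3 := (d₁.comm _ m1 _ (hall w' u)).mul_pow 2
    simp only [sq] at e3
    simp only [b]
    rw [e1, e3, e2, h.add _ _ (h4 _ (hall w u)) (h4 _ (hall w' u))]
  by_contra hne
  have hy : b v ≠ 0 := fun e => hne ((h.zero _ (h4 _ (hall v u))).mp e)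
  have hker : ∀ w ∈ C₂, b w = 0 → w ∈ A := fun w hw e => by
    have := β2 _ (C₂.mul_mem hv hw)
    rw [βadd, e, add_zero, h24 v hv w hw, AddMonoidHom.add_apply, β2 v hv, add_eq_left] at this
    exact (h21 w hw _ this).resolve_right hy
  obtain ⟨y, hy⟩ := h12 u hu
  obtain ⟨w, -, rfl⟩ := surj_of_card (fun w _ w' _ => βadd w w') hker (d₂.card_le h) y
  exact hy (β1 w)

end Cfsg.Agent.H89.Shaw
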