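import Cfsg.Agent.H89.ShawB
import Cfsg.Agent.H71.PRel
import Cfsg.Agent.H61.Huppert2
import Cfsg.Agent.H2.Systems

/-! A non-abelian two-group with a solvable group of automorphisms transitive on its (at least two)
involutions has exponent four. -/

set_option autoImplicit false

namespace Cfsg.Agent.H89.Shaw

open H38 H4.Ext

local notation "cm(" a ", " b ")" => a⁻¹ * b⁻¹ * a * b

variable {P : Type*} [Group P] {F : Type*} [Field F] [Fintype F] [CharP F 2] {X : Type*} [Group X]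
  {ζ : P → F} [Finite P] [Finite X]

theorem maschke (φ : X →* MulAut P) (hX : (Nat.card X).Coprime 2) {C U : Subgroup P} [C.Normal]
    (hC : Inv φ C) (hU : Inv φ U) (hCU : C ≤ U) (hc : ∀ x y : P, cm(x, y) ∈ C)
    (hp : ∀ w, w * w ∈ C) : ∃ D : Subgroup P, Inv φ D ∧ D ⊓ U = C ∧ D ⊔ U = ⊤ := by
  have : Fact (Nat.Prime 2) := ⟨Nat.prime_two⟩
  let ψ := H92.quoAut φ C hC
  have h1 : ∀ K : Subgroup P, Inv φ K → Inv ψ (K.map (QuotientGroup.mk' C)) := by
    rintro K hK x _ ⟨k, hk, rfl⟩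
    exact ⟨φ x k, hK x k hk, rfl⟩
  have := finite_semidirect ψ
  obtain ⟨D, h2, h3, h4, h5⟩ := H71.maschke_elem (p := 2)
    (V := L ψ ((⊤ : Subgroup P).map (QuotientGroup.mk' C)))
    (U := L ψ (U.map (QuotientGroup.mk' C))) (A := R ψ ⊤) ⟨⟨⟨by
      rintro ⟨_, _, ⟨x, -, rfl⟩, rfl⟩ ⟨_, _, ⟨y, -, rfl⟩, rfl⟩
      have e : QuotientGroup.mk' C (x * y) = QuotientGroup.mk' C (y * x) :=
        QuotientGroup.eq.2 (by simpa [mul_assoc] using hc y x)
      refine Subtype.ext ?_
      show _ * _ = _ * _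
      simp only [← map_mul, e]⟩⟩, by
      rintro _ ⟨_, ⟨w, -, rfl⟩, rfl⟩
      rw [← map_pow, ← map_pow, QuotientGroup.mk'_apply, sq, (QuotientGroup.eq_one_iff _).2 (hp w),
        map_one]⟩ (Subgroup.map_mono (Subgroup.map_mono le_top))
    (by rwa [card_R, Subgroup.card_top])
    ((inv_iff ψ).1 (h1 ⊤ (inv_top φ))) ((inv_iff ψ).1 (h1 U hU))
  obtain ⟨D, rfl⟩ : ∃ D', D = L ψ D' :=
    ⟨D.comap _, (Subgroup.map_comap_eq_self (h2.trans (Subgroup.map_le_range _ _))).symm⟩
  rw [← Subgroup.map_inf_eq _ _ _ SemidirectProduct.inl_injective,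
    Subgroup.map_eq_bot_iff_of_injective _ SemidirectProduct.inl_injective] at h4
  rw [← Subgroup.map_sup, (L_injective ψ).eq_iff] at h5
  have h6 : ∀ K : Subgroup P, C ≤ K →
      (K.map (QuotientGroup.mk' C)).comap (QuotientGroup.mk' C) = K := fun K hK =>
    Subgroup.comap_map_eq_self (by rwa [QuotientGroup.ker_mk'])
  refine ⟨D.comap (QuotientGroup.mk' C), fun x a ha => (inv_iff ψ).2 h3 x _ ha, ?_, ?_⟩
  · rw [← h6 U hCU, ← Subgroup.comap_inf, inf_comm, h4, MonoidHom.comap_bot,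
      QuotientGroup.ker_mk']
  · rw [← h6 U hCU, Subgroup.comap_sup_eq _ _ _ (QuotientGroup.mk'_surjective C), sup_comm, h5,
      h6 ⊤ le_top]

variable {φ : X →* MulAut P}

namespace Su

omit [CharP F 2] [Finite X] in
/-- a chief factor between two normal invariant subgroups -/
theorem exists_cover (h : Su φ ζ) {A D : Subgroup P} [hAn : A.Normal] [hDn : D.Normal]
    (hA : Inv φ A) (hD : Inv φ D) (hAD : A < D) :
    ∃ C : Subgroup P, C.Normal ∧ Inv φ C ∧ A < C ∧ C ≤ D ∧
      (∀ c ∈ C, ∀ x : P, cm(c, x) ∈ A) ∧ (∀ c ∈ C, c * c ∈ A) ∧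
      ∀ L : Subgroup P, Inv φ L → A ≤ L → L ≤ C → L = A ∨ L = C := by
  have : Fact (Nat.Prime 2) := ⟨Nat.prime_two⟩
  obtain ⟨C, ⟨hCn, hCi, hAC, hCD⟩, hmin⟩ := (wellFounded_lt (α := Subgroup P)).has_min
    {C | C.Normal ∧ Inv φ C ∧ A < C ∧ C ≤ D} ⟨D, hDn, hD, hAD, le_rfl⟩
  let C₀ : Subgroup P :=
    { carrier := {c | c ∈ C ∧ (∀ x : P, cm(c, x) ∈ A) ∧ c * c ∈ A}
      mul_mem' := fun {c c'} hc hc' => ⟨C.mul_mem hc.1 hc'.1, fun x => by
        have e1 : cm((c * c'), x) = (c'⁻¹ * cm(c, x) * c'⁻¹⁻¹) * cm(c', x) := by group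
        rw [e1]
        exact A.mul_mem (hAn.conj_mem _ (hc.2.1 x) _) (hc'.2.1 x), by
        have e1 : c * c' * (c * c') = (c * c) * (cm(c, c'⁻¹) * (c' * c')) := by group
        rw [e1]
        exact A.mul_mem hc.2.2 (A.mul_mem (hc.2.1 _) hc'.2.2)⟩
      one_mem' := ⟨C.one_mem, fun x => by simp, by simp⟩
      inv_mem' := fun {c} hc => ⟨C.inv_mem hc.1, fun x => by
        have e1 : cm(c⁻¹, x) = c * (cm(c, x))⁻¹ * c⁻¹ := by group
        rw [e1]
        exact hAn.conj_mem _ (A.inv_mem (hc.2.1 x)) _, by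
        rw [← mul_inv_rev]; exact A.inv_mem hc.2.2⟩ }
  have hAC₀ : A ≤ C₀ := fun a ha => ⟨hAC.le ha, fun x => by
    have e1 : cm(a, x) = a⁻¹ * (x⁻¹ * a * x⁻¹⁻¹) := by group
    rw [e1]
    exact A.mul_mem (A.inv_mem ha) (hAn.conj_mem _ ha _), A.mul_mem ha ha⟩
  have hnorm : ∀ L : Subgroup P, A ≤ L → L ≤ C₀ → L.Normal := fun L h1 h2 => ⟨fun c hc g => by
    have e1 : g * c * g⁻¹ = c * cm(c, g⁻¹) := by group
    rw [e1]
    exact L.mul_mem hc (h1 ((h2 hc).2.1 _))⟩
  have hC₀i : Inv φ C₀ := fun g x hx => ⟨hCi g x hx.1, fun y => by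
    obtain ⟨y', rfl⟩ := (φ g).surjective y
    have := hA g _ (hx.2.1 y')
    simpa only [map_mul, map_inv] using this, by rw [← map_mul]; exact hA g _ hx.2.2⟩
  have hlt : A < C₀ := by
    obtain ⟨z, hz, hzc, hzo⟩ := H7.exists_mem_center_orderOf (h.two.to_quotient A)
      (M := C.map (QuotientGroup.mk' A)) (by
        intro e
        obtain ⟨x, hx, hx'⟩ := SetLike.exists_of_lt hAC
        have : QuotientGroup.mk' A x ∈ C.map (QuotientGroup.mk' A) := ⟨x, hx, rfl⟩
        rw [e] at this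
        exact hx' ((QuotientGroup.eq_one_iff x).mp this))
    obtain ⟨c, hc, rfl⟩ := hz
    refine lt_of_le_of_ne hAC₀ fun e => ?_
    have : c ∈ C₀ := by
      refine ⟨hc, fun x => ?_, ?_⟩
      · rw [← QuotientGroup.eq_one_iff]
        have := Subgroup.mem_center_iff.mp hzc (QuotientGroup.mk' A x)
        simp only [QuotientGroup.mk'_apply] at this
        simp only [QuotientGroup.mk_mul, QuotientGroup.mk_inv, mul_assoc, ← this]
        group
      · rw [← QuotientGroup.eq_one_iff, QuotientGroup.mk_mul, ← sq, ← hzo]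
        exact pow_orderOf_eq_one _
    rw [← e, ← QuotientGroup.eq_one_iff] at this
    simp only [QuotientGroup.mk'_apply] at hzo
    rw [this, orderOf_one] at hzo
    omega
  have hle : C₀ ≤ C := fun x hx => hx.1
  have heq : C₀ = C := by
    by_contra hne
    exact hmin C₀ ⟨hnorm C₀ hAC₀ le_rfl, hC₀i, hlt, hle.trans hCD⟩ (lt_of_le_of_ne hle hne)
  have hmem : ∀ c ∈ C, c ∈ C₀ := fun c hc => heq ▸ hc
  refine ⟨C, hCn, hCi, hAC, hCD, fun c hc => (hmem c hc).2.1, fun c hc => (hmem c hc).2.2, ?_⟩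
  intro L hL h1 h2
  by_contra hne
  push Not at hne
  exact hmin L ⟨hnorm L h1 (heq ▸ h2), hL, lt_of_le_of_ne h1 hne.1.symm, h2.trans hCD⟩
    (lt_of_le_of_ne h2 hne.2)

/-- a non-abelian group has exponent four -/
theorem exp_four (h : Su φ ζ) (hna : ∃ x y : P, ¬ Commute x y) (x : P) :
    (x * x) * (x * x) = 1 := by
  have hF2 : Fact (Nat.Prime 2) := ⟨Nat.prime_two⟩
  obtain ⟨A, ⟨hAn, hAi, hAc, hZA⟩, hmax⟩ := (wellFounded_gt (α := Subgroup P)).has_min
    {A | A.Normal ∧ Inv φ A ∧ (∀ a ∈ A, ∀ b ∈ A, Commute a b) ∧ h.omega ≤ A}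
    ⟨h.omega, h.omega_normal, h.omega_inv, fun a ha b _ => h.central ha b, le_rfl⟩
  have hnab : ∀ C : Subgroup P, C.Normal → Inv φ C → A < C →
      ¬ ∀ a ∈ C, ∀ b ∈ C, Commute a b := fun C h1 h2 h3 h4 =>
    hmax C ⟨h1, h2, h4, hZA.trans h3.le⟩ h3
  obtain ⟨z', hz2, hz⟩ := h.surj 1
  have hz1 : z' ≠ 1 := fun e => by rw [e, h.one] at hz; exact zero_ne_one hz
  obtain ⟨e, hexp, hex⟩ := h.exists_exponent (hZA hz2) hz1
  rcases e with _ | f
  · -- `A` is elementary abelian
    have hA2 : ∀ a ∈ A, a * a = 1 := fun a ha => by simpa [sq] using hexp a ha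
    let D : Subgroup P := Subgroup.closure ({y | ∃ x : P, y = x * x} ∪ A)
    have hDn : D.Normal := by
      refine ⟨fun y hy g => ?_⟩
      have : D ≤ D.comap (MulAut.conj g).toMonoidHom := by
        rw [Subgroup.closure_le]
        rintro y (⟨x, rfl⟩ | hy)
        · exact Subgroup.subset_closure (Or.inl ⟨g * x * g⁻¹, by
            simp only [MulEquiv.coe_toMonoidHom, MulAut.conj_apply]; group⟩)
        · exact Subgroup.subset_closure (Or.inr (hAn.conj_mem y hy g))
      exact this hy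
    have hDi : Inv φ D := by
      intro g y hy
      have : D ≤ D.comap (φ g).toMonoidHom := by
        rw [Subgroup.closure_le]
        rintro y (⟨x, rfl⟩ | hy)
        · exact Subgroup.subset_closure (Or.inl ⟨φ g x, map_mul (φ g) x x⟩)
        · exact Subgroup.subset_closure (Or.inr (hAi g y hy))
      exact this hy
    have hAD : A ≤ D := fun a ha => Subgroup.subset_closure (Or.inr ha)
    by_contra hne
    have hlt : A < D := lt_of_le_of_ne hAD fun e => hne (hA2 _ (by
      rw [e]; exact Subgroup.subset_closure (Or.inl ⟨x, rfl⟩)))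
    obtain ⟨C, hCn, hCi, hAC, hCD, hc, -⟩ := h.exists_cover hAi hDi hlt
    apply hnab C hCn hCi hAC
    intro c hcC b hb
    have : D ≤ Subgroup.centralizer {c} := by
      rw [Subgroup.closure_le]
      rintro y (⟨y, rfl⟩ | hy)
      · rw [SetLike.mem_coe, Subgroup.mem_centralizer_singleton_iff]
        have h1 := hA2 _ (hc c hcC y)
        have h2 := (h.central h1 y).eq
        calc y * y * c = c * y * (cm(c, y))⁻¹ * y * (y⁻¹ * c⁻¹ * y * c) * (c⁻¹ * y⁻¹ * c * y) *
              (cm(c, y))⁻¹ := by group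
          _ = c * (y * y) := by
            rw [inv_eq_of_mul_eq_one_right h1, mul_assoc (c * y), h2]
            calc c * y * (y * cm(c, y)) * (y⁻¹ * c⁻¹ * y * c) * (c⁻¹ * y⁻¹ * c * y) * cm(c, y)
                = c * (y * y) * (cm(c, y) * cm(c, y)) := by group
              _ = _ := by rw [h1, mul_one]
      · rw [SetLike.mem_coe, Subgroup.mem_centralizer_singleton_iff]
        exact (h.central (hA2 y hy) c).eq
    exact (Subgroup.mem_centralizer_singleton_iff.mp (this (hCD hb))).symm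
  · have mkd : ∀ D : Subgroup P, D.Normal → Inv φ D → A < D →
        ∃ C : Subgroup P, C.Normal ∧ C ≤ D ∧ Cov φ A C f := fun D h1 h2 h3 => by
      obtain ⟨C, c1, c2, c3, c4, c5, c6, c7⟩ := h.exists_cover hAi h2 h3
      exact ⟨C, c1, c4, hAc, hAi, c2, hexp, hex, c3,
        fun u _ a ha => by simpa using hAn.conj_mem a ha u⁻¹, c6, fun u hu v _ => c5 u hu v, c7⟩
    have hsq : ∀ C : Subgroup P, C.Normal → Cov φ A C f →
        ∀ u ∈ C, ∃ a ∈ A, u * u = a * a := by
      intro C h1 d u hu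
      have : (u * u) ^ 2 ^ (f + 1) = 1 := by_contra fun hne =>
        hnab C h1 d.invC d.lt (d.comm_of_sq h hu hne)
      obtain ⟨b, hb, hb'⟩ := hex
      obtain ⟨a, ha, e⟩ := h.exists_root hAc hAi hb hb' (i := 1) (j := f + 1) (by omega)
        (d.sq_mem _ hu) this
      exact ⟨a, ha, by rw [← e, pow_one, sq]⟩
    have htop : A < ⊤ := lt_top_iff_ne_top.mpr fun e => by
      obtain ⟨x, y, hxy⟩ := hna
      exact hxy (hAc x (e ▸ Subgroup.mem_top x) y (e ▸ Subgroup.mem_top y))
    have hf : f = 0 := by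
      obtain ⟨C, hCn, -, d⟩ := mkd ⊤ inferInstance (inv_top φ) htop
      exact d.exp_four h (hsq C hCn d)
    subst hf
    have h4 : ∀ a ∈ A, (a * a) * (a * a) = 1 := fun a ha => by
      have := hexp a ha
      rwa [pow_two_pow_succ, pow_one, sq] at this
    have hcent : Subgroup.centralizer (A : Set P) ≤ A := by
      by_contra hne
      have hle : A ≤ Subgroup.centralizer (A : Set P) := fun a ha b hb => (hAc b hb a ha).eq
      have hlt : A < Subgroup.centralizer (A : Set P) := lt_of_le_of_ne hle fun e => hne e.ge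
      obtain ⟨C, hCn, hCD, d⟩ := mkd (Subgroup.centralizer (A : Set P)) inferInstance
        (fun g y hy b hb => by
          have := congrArg (φ g) (hy _ (hAi g⁻¹ b hb))
          simpa only [map_mul, map_inv, MulAut.apply_inv_self] using this) hlt
      apply d.not_cm_trivial h (hsq C hCn d)
      intro u hu a ha
      rw [mul_assoc, mul_assoc, hCD hu a ha]; group
    have hsqA : ∀ y : P, y * y ∈ A := by
      intro y
      apply hcent
      intro a ha
      have h1 : cm(a, y) * cm(a, y) = 1 := by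
        have := cm_pow_left hAc ha (u := y) (by simpa using hAn.conj_mem a ha y⁻¹) 2
        rw [← sq, this, sq, mul_assoc, mul_assoc, (h.central (h4 a ha) y).eq]; group
      have h2 := (h.central h1 y).eq
      calc a * (y * y) = y * a * (cm(a, y) * y) := by group
        _ = y * y * a * (cm(a, y) * cm(a, y)) := by rw [h2]; group
        _ = y * y * a := by rw [h1, mul_one]
    have hall : ∀ x y : P, cm(x, y) ∈ A := by
      intro x y
      have : cm(x, y) = (x⁻¹ * x⁻¹) * ((x * y⁻¹) * (x * y⁻¹)) * (y * y) := by group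
      rw [this]
      exact A.mul_mem (A.mul_mem (hsqA _) (hsqA _)) (hsqA _)
    have hnorm : ∀ C : Subgroup P, A ≤ C → C.Normal := fun C hC => ⟨fun c hc g => by
      have e1 : g * c * g⁻¹ = c * cm(c, g⁻¹) := by group
      rw [e1]
      exact C.mul_mem hc (hC (hall _ _))⟩
    let S : Set P := {u | ∃ C : Subgroup P, Cov φ A C 0 ∧ u ∈ C}
    have hAS : ∀ a ∈ A, a ∈ S := by
      intro a ha
      obtain ⟨C, -, -, d⟩ := mkd ⊤ inferInstance (inv_top φ) htop
      exact ⟨C, d, d.le ha⟩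
    have hAJ : A ≤ Subgroup.closure S := fun a ha => Subgroup.subset_closure (hAS a ha)
    have hJ : Subgroup.closure S = ⊤ := by
      have hJi : Inv φ (Subgroup.closure S) := by
        intro g y hy
        have : Subgroup.closure S ≤ (Subgroup.closure S).comap (φ g).toMonoidHom := by
          rw [Subgroup.closure_le]
          rintro y ⟨C, d, h2⟩
          exact Subgroup.subset_closure ⟨C, d, d.invC g y h2⟩
        exact this hy
      obtain ⟨L, hLi, hL1, hL2⟩ := maschke φ h.odd hAi hJi hAJ hall hsqA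
      have hAL : A ≤ L := hL1.ge.trans inf_le_left
      by_cases hLA : L = A
      · rw [← hL2, hLA, sup_eq_right.2 hAJ]
      · exfalso
        obtain ⟨C, -, hCL, d⟩ := mkd L (hnorm L hAL) hLi (lt_of_le_of_ne hAL (Ne.symm hLA))
        obtain ⟨c, hc, hc'⟩ := SetLike.exists_of_lt d.lt
        exact hc' (hL1.le ⟨hCL hc, Subgroup.subset_closure ⟨C, d, hc⟩⟩)
    have := h.omega_normal
    let ψ := QuotientGroup.mk' h.omega
    have hS1 : ∀ u ∈ S, ψ u * ψ u = 1 := by
      rintro u ⟨C, d, h2⟩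
      obtain ⟨a, ha, e⟩ := hsq C (hnorm C d.le) d u h2
      rw [← map_mul]
      apply (QuotientGroup.eq_one_iff _).mpr
      rw [h.mem_omega, e]; exact h4 a ha
    have hS2 : ∀ u ∈ S, ∀ v ∈ S, Commute (ψ u) (ψ v) := by
      rintro u ⟨C, d, h2⟩ v ⟨C', d', h2'⟩
      have e1 := cm_sq_eq_one h d d' hall (hsq C (hnorm C d.le) d)
        (hsq C' (hnorm C' d'.le) d') h2 h2'
      have e2 : ψ (cm(v, u)) = 1 := (QuotientGroup.eq_one_iff _).mpr e1
      simp only [map_mul, map_inv] at e2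
      calc ψ u * ψ v = ψ u * ψ v * cm((ψ v), (ψ u)) := by rw [e2, mul_one]
        _ = ψ v * ψ u := by group
    have hS3 : ∀ u ∈ S, ∀ y, Commute (ψ u) (ψ y) := by
      intro u hu y
      have hy : y ∈ Subgroup.closure S := by rw [hJ]; trivial
      induction hy using Subgroup.closure_induction with
      | mem y hy => exact hS2 u hu y hy
      | one => simp
      | mul a b _ _ ha hb => rw [map_mul]; exact ha.mul_right hb
      | inv a _ ha => rw [map_inv]; exact ha.inv_right
    have hS4 : ∀ y, ψ y * ψ y = 1 ∧ ∀ w, Commute (ψ y) (ψ w) := by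
      intro y
      have hy : y ∈ Subgroup.closure S := by rw [hJ]; trivial
      induction hy using Subgroup.closure_induction with
      | mem y hy => exact ⟨hS1 y hy, hS3 y hy⟩
      | one => simp
      | mul a b _ _ ha hb =>
        refine ⟨?_, fun w => by rw [map_mul]; exact (ha.2 w).mul_left (hb.2 w)⟩
        rw [map_mul]
        calc ψ a * ψ b * (ψ a * ψ b) = ψ a * (ψ b * ψ a) * ψ b := by group
          _ = (ψ a * ψ a) * (ψ b * ψ b) := by rw [← (ha.2 b).eq]; group
          _ = 1 := by rw [ha.1, hb.1, one_mul]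
      | inv a _ ha =>
        refine ⟨?_, fun w => by rw [map_inv]; exact (ha.2 w).inv_left⟩
        rw [map_inv, ← mul_inv_rev, ha.1, inv_one]
    have := (hS4 x).1
    rw [← map_mul] at this
    exact (QuotientGroup.eq_one_iff _).mp this

theorem sq_mem_omega (h : Su φ ζ) (hna : ∃ x y : P, ¬ Commute x y) (x : P) :
    x * x ∈ h.omega := h.exp_four hna x

theorem cm_mem_omega (h : Su φ ζ) (hna : ∃ x y : P, ¬ Commute x y) (x y : P) :
    cm(x, y) ∈ h.omega := by
  have : cm(x, y) = (x⁻¹ * x⁻¹) * ((x * y⁻¹) * (x * y⁻¹)) * (y * y) := by group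
  rw [this]
  exact Subgroup.mul_mem _ (Subgroup.mul_mem _ (h.sq_mem_omega hna _) (h.sq_mem_omega hna _))
    (h.sq_mem_omega hna _)

theorem center_eq (h : Su φ ζ) (hna : ∃ x y : P, ¬ Commute x y) :
    Subgroup.center P = h.omega := by
  refine le_antisymm (fun b hb => ?_) (fun x hx => Subgroup.mem_center_iff.mpr fun y =>
    (h.central hx y).eq.symm)
  by_contra hb'
  have hc : ∀ a ∈ Subgroup.center P, ∀ b ∈ Subgroup.center P, Commute a b := fun a _ b hb =>
    Subgroup.mem_center_iff.mp hb a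
  have hi : Inv φ (Subgroup.center P) := inv_of_characteristic φ _
  have hall : ∀ x : P, x ∈ Subgroup.center P := by
    intro x
    have hx2 := h.sq_mem_omega hna x
    have hom : ∀ y ∈ h.omega, y ∈ Subgroup.center P := fun y hy =>
      Subgroup.mem_center_iff.mpr fun w => (h.central hy w).eq.symm
    obtain ⟨d, hd, e⟩ := h.exists_root hc hi (e := 1) (i := 1) (j := 1) hb
      (by rw [pow_one, sq]; exact hb') le_rfl (hom _ hx2) (by rw [pow_one, sq]; exact hx2)
    rw [pow_one, sq] at e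
    have : x * d⁻¹ ∈ h.omega := by
      rw [h.mem_omega]
      have hdx := Subgroup.mem_center_iff.mp (Subgroup.inv_mem _ hd) x
      calc x * d⁻¹ * (x * d⁻¹) = x * (d⁻¹ * x) * d⁻¹ := by group
        _ = (x * x) * (d * d)⁻¹ := by rw [← hdx]; group
        _ = 1 := by rw [e, mul_inv_cancel]
    simpa using Subgroup.mul_mem _ (hom _ this) hd
  obtain ⟨x, y, hxy⟩ := hna
  exact hxy (Subgroup.mem_center_iff.mp (hall y) x)

end Su

theorem exists_su {P : Type*} [Group P] [Finite P] (hG : IsPGroup 2 P)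
    (htwo : ∃ x y : P, x ≠ y ∧ x ≠ 1 ∧ x ^ 2 = 1 ∧ y ≠ 1 ∧ y ^ 2 = 1) (Y : Subgroup (MulAut P))
    (hY : Group.IsSolvable Y)
    (ht : ∀ x y : P, x ≠ 1 → x ^ 2 = 1 → y ≠ 1 → y ^ 2 = 1 → ∃ a ∈ Y, a x = y) :
    ∃ (H : Subgroup Y) (F : Type) (_ : Field F) (_ : Fintype F) (_ : CharP F 2) (ζ : P → F),
      Su (Y.subtype.comp H.subtype) ζ := by
  classical
  have : Fact (Nat.Prime 2) := ⟨Nat.prime_two⟩
  have : Finite (MulAut P) := Finite.of_injective (fun σ : MulAut P => (σ : P → P))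
    DFunLike.coe_injective
  obtain ⟨x₀, y₀, hxy, hx1, hx2, hy1, hy2⟩ := htwo
  have := nontrivial_of_ne x₀ 1 hx1
  have hc := (S3774.result hG fun x y a b c d => (ht x y a b c d).imp fun _ h => h.2).1
  let Ω : Subgroup P :=
    { carrier := {x | x ^ 2 = 1}
      mul_mem' := fun {a b} ha hb => by
        have hc : Commute b a := Subgroup.mem_center_iff.1 (hc a ha) b
        show (a * b) ^ 2 = 1
        rw [hc.symm.mul_pow, show a ^ 2 = 1 from ha, show b ^ 2 = 1 from hb, one_mul]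
      one_mem' := one_pow 2
      inv_mem' := fun {a} ha => by
        show a⁻¹ ^ 2 = 1
        rw [inv_pow, show a ^ 2 = 1 from ha, inv_one] }
  have hΩ : ∀ {x}, x * x = 1 → x ∈ Ω := fun {x} h => (sq x).trans h
  have hnt : Nontrivial Ω := nontrivial_of_ne ⟨x₀, hx2⟩ 1 fun e => hx1 (congrArg Subtype.val e)
  have hev : 2 ∣ Nat.card Ω := (hG.to_subgroup Ω).card_eq_or_dvd.resolve_left
    Finite.one_lt_card.ne'
  obtain ⟨H, hH1, hH2⟩ := H2.exists_isPiHall {p | p ≠ 2} Y
  let φ : H →* MulAut P := Y.subtype.comp H.subtype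
  have htr : ∀ x y : P, x ≠ 1 → x * x = 1 → y ≠ 1 → y * y = 1 → ∃ g, φ g x = y := by
    intro x y h1 h2 h3 h4
    obtain ⟨a, ha, rfl⟩ := ht x y h1 (hΩ h2) h3 (hΩ h4)
    have h5 : (MulAction.stabilizer Y x).index + 1 = Nat.card Ω := by
      rw [MulAction.index_stabilizer, ← Set.ncard_insert_of_notMem (a := 1) (by
        rintro ⟨g, hg⟩
        exact h1 ((map_eq_one_iff _ (g : MulAut P).injective).1 hg))]
      refine Eq.trans ?_ (Nat.card_coe_set_eq (Ω : Set P)).symm
      congr 1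
      ext z
      refine ⟨?_, fun hz => ?_⟩
      · rintro (rfl | ⟨g, rfl⟩)
        · exact Ω.one_mem
        · exact hΩ (by
            show (g : MulAut P) x * (g : MulAut P) x = 1
            rw [← map_mul, h2, map_one])
      · by_cases h6 : z = 1
        · exact Or.inl h6
        · obtain ⟨a, ha, e⟩ := ht x z h1 (hΩ h2) h6 hz
          exact Or.inr ⟨⟨a, ha⟩, e⟩
    obtain ⟨k, hk, s, hs, e⟩ := H2.exists_mul_eq_of_coprime_relIndex (H := H)
      (K := MulAction.stabilizer Y x) (L := ⊤) (by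
        rw [Subgroup.relIndex_top_right, Subgroup.relIndex_top_right]
        refine Nat.coprime_of_dvd fun p hp h6 h7 => ?_
        obtain rfl : p = 2 := by_contra fun h => hH2 p hp h h6
        omega) (Subgroup.mem_top ⟨a, ha⟩)
    refine ⟨⟨k, hk.1⟩, ?_⟩
    rw [show a = k * s from congrArg Subtype.val e, MulAut.mul_apply,
      show (s : MulAut P) x = x from hs.1]
    rfl
  have hi : Inv φ Ω := fun g x hx => by
    show φ g x ^ 2 = 1
    rw [← map_pow, show x ^ 2 = 1 from hx, map_one]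
  let ψ := H92.resAut φ Ω hi
  let _ : CommGroup Ω :=
    { (inferInstance : Group Ω) with
      mul_comm := fun a b => Subtype.ext (Subgroup.mem_center_iff.1 (hc _ b.2) a) }
  let _ : DistribMulAction ψ.range (Additive Ω) :=
    { smul := fun g v => Additive.ofMul (g.1 v.toMul)
      one_smul := fun _ => rfl
      mul_smul := fun _ _ _ => rfl
      smul_zero := fun g => congrArg Additive.ofMul (map_one g.1)
      smul_add := fun g a b => congrArg Additive.ofMul (map_mul g.1 _ _) }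
  have hTL : H61.IsTL ψ.range (Additive Ω) := ⟨fun g hg => Subtype.ext (MulEquiv.ext fun v =>
    hg (Additive.ofMul v)), fun v w hv hw => by
      obtain ⟨g, hg⟩ := htr v.toMul w.toMul (fun e => hv (Subtype.ext e))
        ((sq _).symm.trans v.toMul.2) (fun e => hw (Subtype.ext e)) ((sq _).symm.trans w.toMul.2)
      exact ⟨⟨ψ g, g, rfl⟩, Subtype.ext hg⟩⟩
  rcases hTL.huppert (Group.isSolvable_of_surjective ψ.rangeRestrict_surjective) with
    ⟨F, _, _, e, he⟩ | h
  swap
  · exfalso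
    rw [show Nat.card (Additive Ω) = Nat.card Ω from rfl] at h
    simp only [Set.mem_insert_iff, Set.mem_singleton_iff] at h
    omega
  have : CharP F 2 := CharTwo.of_one_ne_zero_of_two_eq_zero one_ne_zero (by
    obtain ⟨v, hv⟩ := e.surjective 1
    rw [← one_add_one_eq_two, ← hv, ← map_add, map_eq_zero_iff _ e.injective]
    exact Subtype.ext ((sq _).symm.trans v.toMul.2))
  let ζ : P → F := fun x => if h : x ∈ Ω then e (Additive.ofMul ⟨x, h⟩) else 0
  have hζ : ∀ x (h : x ∈ Ω), ζ x = e (Additive.ofMul ⟨x, h⟩) := fun x h => dif_pos h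
  have hζ' : ∀ (g : H) x (h : x * x = 1), ζ (φ g x) =
      e ((⟨ψ g, g, rfl⟩ : ψ.range) • Additive.ofMul ⟨x, hΩ h⟩) := fun g x h =>
    hζ _ (hi g x (hΩ h))
  refine ⟨H, F, inferInstance, inferInstance, inferInstance, ζ, hG, ?_, htr, ?_, fun x y hx hy => ?_,
    fun x hx => ?_, fun c => ?_, fun g => ?_, ?_⟩
  · exact ((Nat.Prime.coprime_iff_not_dvd Nat.prime_two).2 fun h => hH1 2 Nat.prime_two h rfl).symm
  · rw [Fintype.two_lt_card_iff]
    exact ⟨e 0, e (Additive.ofMul ⟨x₀, hx2⟩), e (Additive.ofMul ⟨y₀, hy2⟩),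
      e.injective.ne fun h => hx1 (congrArg (fun v => ((Additive.toMul v : Ω) : P)) h).symm,
      e.injective.ne fun h => hy1 (congrArg (fun v => ((Additive.toMul v : Ω) : P)) h).symm,
      e.injective.ne fun h => hxy (congrArg (fun v => ((Additive.toMul v : Ω) : P)) h)⟩
  · rw [hζ _ (hΩ hx), hζ _ (hΩ hy), hζ _ (Ω.mul_mem (hΩ hx) (hΩ hy)), ← map_add]; rfl
  · rw [hζ _ (hΩ hx), map_eq_zero_iff _ e.injective]
    exact ⟨fun h => congrArg (fun v => ((Additive.toMul v : Ω) : P)) h, fun h => Subtype.ext h⟩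
  · obtain ⟨v, rfl⟩ := e.surjective c
    exact ⟨v.toMul, (sq _).symm.trans v.toMul.2, hζ _ v.toMul.2⟩
  · obtain ⟨a, σ, h⟩ := he ⟨ψ g, g, rfl⟩
    refine ⟨a, σ, fun h0 => ?_, fun x hx => by rw [hζ' g x hx, h, hζ _ (hΩ hx)]⟩
    have := h (Additive.ofMul ⟨x₀, hx2⟩)
    rw [h0, zero_mul, map_eq_zero_iff _ e.injective] at this
    exact H61.smul_ne_zero_of_ne (v := Additive.ofMul (⟨x₀, hx2⟩ : Ω)) _ (fun h => hx1
      (congrArg (fun v => ((Additive.toMul v : Ω) : P)) h)) this
  · obtain ⟨⟨_, g, rfl⟩, l, hl, h⟩ := exists_nt e.toEquiv he fun v w hv hw =>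
      hTL.trans v w (fun h => hv (by rw [h]; exact map_zero e))
        (fun h => hw (by rw [h]; exact map_zero e))
    exact ⟨g, l, hl, fun x hx => by rw [hζ' g x hx, hζ _ (hΩ hx)]; exact h _⟩

end Cfsg.Agent.H89.Shaw
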