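import Cfsg.Agent.H58.SWDefs

/-! Project SW, pieces LOC and CASEA: transport of the Thompson-Wielandt data to the matrix model. -/

set_option autoImplicit false
set_option linter.unusedSectionVars false
open Matrix Cfsg
open scoped commutatorElement

namespace Cfsg.Agent.H89.SwLoc

open Cfsg.Agent.H58.SW

universe u

theorem conj_ap {Γ : Type*} [Group Γ] (ψ : MulAut Γ) (x : Γ) :
    (MulAut.conj (ψ x) : MulAut Γ) = ψ * MulAut.conj x * ψ⁻¹ := by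
  ext y
  simp

theorem le_norm {G : Type*} [Group G] {H K : Subgroup G}
    (h : ∀ g ∈ H, ∀ x ∈ K, g * x * g⁻¹ ∈ K) : H ≤ Subgroup.normalizer (K : Set G) := fun g hg =>
  Subgroup.mem_normalizer_iff.2 fun x => ⟨h g hg x, fun hx => by
    simpa [mul_assoc] using h g⁻¹ (inv_mem hg) _ hx⟩

variable {G : Type u} [Group G] {N : Subgroup G} {F : Type} [Field F] [Fintype F] [DecidableEq F]
  {n : ℕ} {c : Cl F n} {φ : G →* Au n F}

theorem mem_hat {K : Subgroup G} {a : Gl n F} :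
    a ∈ c.hat (K.map φ) ↔ a ∈ c.St ∧ ∃ k ∈ K, φ k = MulAut.conj a := Iff.rfl

theorem hat_mono {K L : Subgroup G} (h : K ≤ L) : c.hat (K.map φ) ≤ c.hat (L.map φ) :=
  inf_le_inf_left _ (Subgroup.comap_mono (Subgroup.map_mono h))

theorem hat_inv (kt : KT c) (hm : Mod N c φ) {H K : Subgroup G}
    (h : ∀ g ∈ H, ∀ x ∈ K, g * x * g⁻¹ ∈ K) : InvG (H.map φ) (c.hat (K.map φ)) := by
  rintro _ ⟨g, hg, rfl⟩ y ⟨hy, k, hk, e⟩
  refine mem_hat.2 ⟨(kt.pres _ (hm.std g) y).1.2 hy, _, h g hg k hk, ?_⟩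
  rw [conj_ap, map_mul, map_mul, map_inv, e]

theorem ex_N (hm : Mod N c φ) {s : Gl n F} (hs : s ∈ c.S) : ∃ m ∈ N, φ m = MulAut.conj s :=
  (hm.map ▸ Subgroup.mem_map_of_mem _ hs : MulAut.conj s ∈ N.map φ)

/-- the subgroup of `G` attached to a matrix group -/
def pull (φ : G →* Au n F) (Y : Subgroup (Gl n F)) : Subgroup G :=
  (Y.map (MulAut.conj : Gl n F →* MulAut (Gl n F))).comap φ

omit [Fintype F] [DecidableEq F] in
theorem mem_pull {Y : Subgroup (Gl n F)} {g : G} :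
    g ∈ pull φ Y ↔ ∃ y ∈ Y, MulAut.conj y = φ g := Iff.rfl

omit [Fintype F] [DecidableEq F] in
theorem pull_inv {H : Subgroup G} {Y : Subgroup (Gl n F)} (h : InvG (H.map φ) Y) :
    ∀ g ∈ H, ∀ x ∈ pull φ Y, g * x * g⁻¹ ∈ pull φ Y := by
  rintro g hg x ⟨y, hy, e⟩
  refine ⟨φ g y, h _ ⟨g, hg, rfl⟩ y hy, ?_⟩
  rw [conj_ap, map_mul, map_mul, map_inv, e]

theorem loc (hKA : KAStmt) (hKT : KTStmt) (hI : IrrStmt) : LocStmt.{u} := by
  intro G _ _ N _ F _ _ _ n c φ hm r d Ha Hb D T R g tw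
  have ka := hKA F n c
  have kt := hKT F n c
  have ki := hI F n c
  refine ⟨tw.prime, ?_, ka.z_hat _, hat_mono tw.RH, hat_inv kt hm tw.RN, ?_, ?_, ?_⟩
  · rintro _ ⟨h, -, rfl⟩
    exact hm.std h
  · rintro x ⟨hx, ρ, hρ, e⟩
    obtain ⟨k, hk⟩ := tw.Rp ⟨ρ, hρ⟩
    have hk' : ρ ^ r ^ k = 1 := congrArg Subtype.val hk
    refine ⟨k, (ka.conj_one _ (pow_mem hx _)).1 ?_⟩
    rw [map_pow, ← e, ← map_pow, hk', map_one]
  · intro Y hY hi hn
    have h1 := le_norm (pull_inv hi)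
    rcases h1.eq_or_lt with h2 | h2
    · intro y hy
      obtain ⟨m, -, e⟩ := ex_N hm (hY hy)
      have h3 : m ∈ pull φ Y := ⟨y, hy, e.symm⟩
      exact mem_hat.2 ⟨(hY hy).1, m, h2 ▸ Subgroup.le_normalizer h3, e⟩
    · have h3 := tw.max.2 _ h2
      rcases ki.simp (c.S ⊓ (Y.map (MulAut.conj : Gl n F →* MulAut (Gl n F))).comap MulAut.conj)
        inf_le_left (by
          rintro s hs x ⟨hx, y, hy, e⟩
          obtain ⟨m, -, e1⟩ := ex_N hm hs
          obtain ⟨k, -, e2⟩ := ex_N hm hx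
          have h4 : k ∈ pull φ Y := ⟨y, hy, e.trans e2.symm⟩
          have h5 : m ∈ Subgroup.normalizer (pull φ Y : Set G) := h3 ▸ Subgroup.mem_top m
          obtain ⟨z, hz, e3⟩ := (Subgroup.mem_normalizer_iff.1 h5 k).1 h4
          refine ⟨c.S.mul_mem (c.S.mul_mem hs hx) (c.S.inv_mem hs), z, hz, ?_⟩
          rw [e3, map_mul, map_mul, map_inv, e1, e2, map_mul, map_mul, map_inv]) with h4 | h4
      · exact fun y hy => ka.z_hat _ (h4 ⟨hY hy, y, hy, rfl⟩)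
      · refine absurd (h4.trans (sup_le ?_ le_sup_right)) hn
        rintro x ⟨hx, y, hy, e⟩
        have h5 : y⁻¹ * x ∈ c.Z := (ka.conj_one _ (mul_mem (inv_mem (hY hy).1) hx.1)).1 (by
          rw [map_mul, map_inv, e, inv_mul_cancel])
        simpa using mul_mem (Subgroup.mem_sup_left hy) (Subgroup.mem_sup_right h5 : _ ∈ Y ⊔ c.Z)
  · intro Y hY hi t ht hc
    obtain ⟨htS, t', -, e⟩ := mem_hat.1 (hY ht)
    refine mem_hat.2 ⟨htS, t', tw.chr (pull φ Y) ?_ (pull_inv hi) t' ⟨t, ht, e.symm⟩ ?_, e⟩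
    · rintro x ⟨y, hy, e1⟩
      obtain ⟨-, k, hk, e2⟩ := mem_hat.1 (hY hy)
      rwa [← hm.inj (e2.trans e1)]
    · rintro x ⟨hx, y, hy, e1⟩
      have h1 := hc y ⟨mem_hat.2 ⟨(hY hy).1, x, hx, e1.symm⟩, Subgroup.mem_sup_left hy⟩
      have h2 := (ka.conj_one _ h1.1).2 h1
      rw [map_commutatorElement, ← e, e1, ← map_commutatorElement] at h2
      exact commutatorElement_eq_one_iff_commute.1 (hm.inj (h2.trans (map_one φ).symm))

theorem caseA (hKA : KAStmt) (hKT : KTStmt) : CaseAStmt.{u} := by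
  intro G _ _ N _ F _ _ _ n c φ hm r d Ha Hb D T R g tw hD
  have ka := hKA F n c
  have kt := hKT F n c
  obtain ⟨s, hs, es⟩ : φ g ∈ c.S.map (MulAut.conj : Gl n F →* MulAut (Gl n F)) :=
    hm.map ▸ Subgroup.mem_map_of_mem _ tw.gN
  have hm' : ∀ x, x ∈ D.comap (MulAut.conj g).toMonoidHom ↔ g * x * g⁻¹ ∈ D := fun x => Iff.rfl
  refine ⟨s, c.hat ((D.comap (MulAut.conj g).toMonoidHom).map φ), hs, ?_, ?_, hat_mono ?_,
    hat_inv kt hm ?_, ?_, ?_⟩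
  · rintro ⟨-, k, hk, e⟩
    have h1 : g ∈ Hb := hm.inj (e.trans es) ▸ hk
    refine tw.ne (Subgroup.ext fun x => ?_)
    rw [tw.conj, mul_mem_cancel_right h1, mul_mem_cancel_left (inv_mem h1)]
  · refine lt_of_le_of_ne (ka.z_hat _) fun e => hD ?_
    rintro a ⟨ha, k, hk, e1⟩
    have h1 : s⁻¹ * a * s ∈ c.Z := by
      rw [e]
      refine mem_hat.2 ⟨mul_mem (mul_mem (inv_mem hs.1) ha) hs.1, g⁻¹ * k * g, ?_, ?_⟩
      · rw [hm']; simpa [mul_assoc] using hk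
      · rw [map_mul, map_mul, map_inv, e1, ← es, map_mul, map_mul, map_inv]
    have h2 := (ka.zcomm _ h1 s).eq
    rw [← mul_assoc, ← mul_assoc, mul_inv_cancel, one_mul, mul_left_inj] at h2
    rwa [← h2]
  · intro x hx
    simpa [mul_assoc] using tw.DR' _ ((hm' x).1 hx)
  · intro h hh x hx
    have h1 : g * h * g⁻¹ ∈ Ha := (tw.conj _).2 (by simpa [mul_assoc] using hh)
    rw [hm']
    simpa [mul_assoc] using tw.DN _ h1 _ ((hm' x).1 hx)
  · rintro x ⟨hx, k, hk, e⟩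
    refine mem_hat.2 ⟨mul_mem (mul_mem hs.1 hx) (inv_mem hs.1), _, tw.DR ((hm' k).1 hk), ?_⟩
    rw [map_mul, map_mul, map_inv, e, ← es, map_mul, map_mul, map_inv]
  · rintro _ ⟨h, hh, rfl⟩ x ⟨hx, k, hk, e⟩
    refine mem_hat.2 ⟨mul_mem (mul_mem (inv_mem hs.1) ((kt.pres _ (hm.std h) _).1.2
      (mul_mem (mul_mem hs.1 hx) (inv_mem hs.1)))) hs.1, _,
      (tw.conj _).1 (tw.TH (tw.TN h hh _ (tw.DT ((hm' k).1 hk)))).1, ?_⟩
    rw [map_mul MulAut.conj, map_mul MulAut.conj, conj_ap]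
    simp only [map_mul, map_inv, e, ← es]

end Cfsg.Agent.H89.SwLoc
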